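import Mathlib
import Cfsg.Agent.S0011
import Cfsg.Agent.S0016
import Cfsg.Agent.S3908
import Cfsg.Agent.PSolv.HallHigman

/-! Groups in which any two abelian subgroups of the same order are conjugate: quotients. -/

set_option linter.style.haveILetI false
set_option linter.unusedSectionVars false

namespace Cfsg.Agent.H73

open Subgroup
open scoped Pointwise

variable {G : Type*} [Group G] [Finite G]

/-- Any two abelian subgroups of the same order are conjugate. -/
def AbelianConj (G : Type*) [Group G] : Prop :=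
  ∀ A B : Subgroup G, IsMulCommutative ↥A → IsMulCommutative ↥B → Nat.card ↥A = Nat.card ↥B →
    ∃ g : G, B = A.map (MulAut.conj g).toMonoidHom

theorem le_of_card_dvd_of_cyclic {C : Type*} [Group C] [Finite C] [IsCyclic C] {H K : Subgroup C}
    (h : Nat.card H ∣ Nat.card K) : H ≤ K := by
  classical
  haveI := Fintype.ofFinite C
  intro x hx
  have hxK : x ^ Nat.card K = 1 :=
    orderOf_dvd_iff_pow_eq_one.1 ((H.orderOf_dvd_natCard hx).trans h)
  have hsub : (K : Set C).toFinset ⊆ Finset.univ.filter (fun y : C => y ^ Nat.card K = 1) := by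
    intro y hy
    rw [Set.mem_toFinset] at hy
    simp only [Finset.mem_filter, Finset.mem_univ, true_and]
    exact orderOf_dvd_iff_pow_eq_one.1 (K.orderOf_dvd_natCard hy)
  have heq := Finset.eq_of_subset_of_card_le hsub (by
    refine (IsCyclic.card_pow_eq_one_le (α := C) (Nat.card_pos (α := K))).trans ?_
    rw [Set.toFinset_card, ← Nat.card_eq_fintype_card]; rfl)
  have : x ∈ (K : Set C).toFinset := by
    rw [heq]; simpa [← Nat.card_eq_fintype_card] using hxK
  simpa using this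

theorem exists_pow_dvd_card_inf (M : Subgroup G) [M.Normal] {q : ℕ} [Fact q.Prime] (S : Sylow q G) :
    q ^ (Nat.card M).factorization q ∣ Nat.card ↥((S : Subgroup G) ⊓ M) := by
  let R : Sylow q M := default
  obtain ⟨T, hT⟩ := (R.2.map M.subtype).exists_le_sylow
  obtain ⟨g, hg⟩ := MulAction.exists_smul_eq G T S
  have hle : MulAut.conj g • ((R : Subgroup M).map M.subtype) ≤ (S : Subgroup G) ⊓ M := by
    refine le_inf ?_ ?_
    · rw [← hg, Sylow.coe_subgroup_smul]
      exact pointwise_smul_le_pointwise_smul_iff.2 hT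
    · exact (pointwise_smul_le_pointwise_smul_iff.2 (map_subtype_le _)).trans (Normal.conj_smul_eq_self g M).le
  refine dvd_trans ?_ (card_dvd_of_le hle)
  rw [Nat.card_congr (equivSMul (MulAut.conj g) _).symm.toEquiv, card_map_of_injective Subtype.val_injective,
    R.card_eq_multiplicity]

/-- Lifting an abelian subgroup of a quotient. -/
theorem exists_lift (M : Subgroup G) [M.Normal] (A₀ : Subgroup (G ⧸ M)) (hA₀ : IsMulCommutative A₀)
    (h : ∀ q : ℕ, q.Prime → q ∣ Nat.card M → q ∣ Nat.card A₀ → ∀ Q : Subgroup G, IsPGroup q Q → ¬ Q ≤ M →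
      Q.map (QuotientGroup.mk' M) ≤ A₀ →
      IsMulCommutative Q ∧ q ^ (Nat.card M).factorization q ∣ Nat.card ↥(Q ⊓ M)) :
    ∃ A : Subgroup G, IsMulCommutative A ∧ A.map (QuotientGroup.mk' M) = A₀ ∧
      ∀ q : ℕ, q.Prime → (Nat.card A).factorization q =
        (Nat.card A₀).factorization q + if q ∣ Nat.card A₀ then (Nat.card M).factorization q else 0 := by
  classical
  obtain ⟨A, hAmap, hmin⟩ := exists_minimal_of_wellFoundedLT
    (fun U : Subgroup G => U.map (QuotientGroup.mk' M) = A₀)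
    ⟨_, map_comap_eq_self_of_surjective (QuotientGroup.mk'_surjective M) A₀⟩
  set f := (QuotientGroup.mk' M).comp A.subtype with hf
  set K := M.subgroupOf A with hK
  have hker : f.ker = K := by
    rw [hf, ← MonoidHom.comap_ker, QuotientGroup.ker_mk']; rfl
  have hrange : f.range = A₀ := by
    rw [hf, MonoidHom.range_comp, range_subtype]; exact hAmap
  have hcard : Nat.card A = Nat.card K * Nat.card A₀ := by
    rw [← hrange, ← index_ker, hker, card_mul_index]
  have hKfr : K ≤ frattini A := by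
    refine le_iInf fun H => le_iInf fun hH => ?_
    by_contra hle
    have htop : H ⊔ K = ⊤ := hH.2 _ (left_lt_sup.2 hle)
    have h1 : (H.map A.subtype).map (QuotientGroup.mk' M) = A₀ := by
      rw [map_map, ← hf, ← hrange, MonoidHom.range_eq_map, ← htop, Subgroup.map_sup,
        (Subgroup.map_eq_bot_iff _).2 hker.ge, sup_bot_eq]
    have h2 : A ≤ H.map A.subtype := hmin h1 (map_subtype_le _)
    refine hH.1 (eq_top_iff.2 fun a _ => ?_)
    obtain ⟨b, hb, hba⟩ := h2 a.2
    exact (Subtype.ext hba : b = a) ▸ hb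
  have hcomm : ∀ a b : A, a * b * a⁻¹ * b⁻¹ ∈ K := by
    intro a b
    rw [← hker, MonoidHom.mem_ker]
    have ha : f a ∈ A₀ := hrange ▸ ⟨a, rfl⟩
    have hb : f b ∈ A₀ := hrange ▸ ⟨b, rfl⟩
    have := congrArg Subtype.val (mul_comm' (⟨_, ha⟩ : A₀) ⟨_, hb⟩)
    simp only [coe_mul] at this
    rw [map_mul, map_mul, map_mul, map_inv, map_inv, this, mul_inv_cancel_right, mul_inv_cancel]
  have hnil : Group.IsNilpotent A := by
    refine Cfsg.Agent.S0011.result ?_
    have : IsMulCommutative (A ⧸ frattini A) := ⟨⟨fun x y => by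
      induction x using QuotientGroup.induction_on with
      | _ x =>
        induction y using QuotientGroup.induction_on with
        | _ y =>
          have := (QuotientGroup.eq_one_iff _).2 (hKfr (hcomm x y))
          rwa [QuotientGroup.mk_mul, QuotientGroup.mk_mul, QuotientGroup.mk_mul, QuotientGroup.mk_inv,
            QuotientGroup.mk_inv, mul_inv_eq_one, mul_inv_eq_iff_eq_mul] at this⟩⟩
    letI : CommGroup (A ⧸ frattini A) :=
      { (inferInstance : Group (A ⧸ frattini A)) with mul_comm := mul_comm' }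
    exact CommGroup.isNilpotent
  have hnormal : ∀ {q : ℕ} [Fact q.Prime] (Q : Sylow q A), (Q : Subgroup A).Normal := fun Q =>
    (Group.isNilpotent_of_finite_tfae.out 0 3 rfl rfl).1 hnil _ ‹_› Q
  -- Sylow subgroups are not contained in `M`
  have hnotle : ∀ {q : ℕ} [Fact q.Prime] (Q : Sylow q A), q ∣ Nat.card A → ¬ (Q : Subgroup A) ≤ K := by
    intro q _ Q hq hle
    haveI := hnormal Q
    obtain ⟨R, hR⟩ := exists_right_complement'_of_coprime (N := (Q : Subgroup A)) Q.card_coprime_index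
    have hsup : R ⊔ frattini A = ⊤ :=
      top_le_iff.1 ((hR.symm.sup_eq_top).symm.le.trans (sup_le_sup_left (hle.trans hKfr) _))
    rw [frattini_nongenerating hsup] at hR
    exact Q.ne_bot_of_dvd_card hq (isComplement'_top_right.1 hR)
  have hdvd : ∀ q : ℕ, q.Prime → q ∣ Nat.card A → q ∣ Nat.card A₀ := by
    intro q hq hqA
    haveI := Fact.mk hq
    let Q : Sylow q A := default
    obtain ⟨a, haQ, haK⟩ := SetLike.not_le_iff_exists.1 (hnotle Q hqA)
    have h1 : f a ≠ 1 := fun h => haK (hker.le h)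
    obtain ⟨k, hk⟩ := Q.2 ⟨a, haQ⟩
    have hk' : a ^ q ^ k = 1 := congrArg Subtype.val hk
    obtain ⟨i, -, hi⟩ := (Nat.dvd_prime_pow hq).1
      (orderOf_dvd_of_pow_eq_one (show (f a) ^ q ^ k = 1 by rw [← map_pow, hk', map_one]))
    have hi0 : i ≠ 0 := fun h0 => h1 (orderOf_eq_one_iff.1 (by rw [hi, h0, pow_zero]))
    exact (dvd_pow_self q hi0).trans (hi ▸ A₀.orderOf_dvd_natCard (hrange ▸ ⟨a, rfl⟩))
  have hQ₁ : ∀ {q : ℕ} [Fact q.Prime] (Q : Sylow q A), q ∣ Nat.card A → q ∣ Nat.card M →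
      IsMulCommutative ((Q : Subgroup A).map A.subtype) ∧
        q ^ (Nat.card M).factorization q ∣ Nat.card K := by
    intro q _ Q hqA hqM
    obtain ⟨h1, h2⟩ := h q Fact.out hqM (hdvd q Fact.out hqA) _ (Q.2.map A.subtype) (fun hle =>
      hnotle Q hqA fun a ha => hle ⟨a, ha, rfl⟩) ((map_mono (map_subtype_le _)).trans hAmap.le)
    refine ⟨h1, h2.trans ?_⟩
    rw [← card_map_of_injective (K := K) A.subtype_injective]
    refine card_dvd_of_le ?_
    rw [hK, subgroupOf_map_subtype]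
    exact le_inf inf_le_right (inf_le_left.trans (map_subtype_le _))
  refine ⟨A, ?_, hAmap, ?_⟩
  · let e := Sylow.directProductOfNormal (G := A) (fun {p} _ P => hnormal P)
    refine ⟨⟨fun a b => e.symm.injective ?_⟩⟩
    rw [map_mul, map_mul]
    funext q Q
    haveI : Fact (q : ℕ).Prime := ⟨Nat.prime_of_mem_primeFactors q.2⟩
    have hqA : (q : ℕ) ∣ Nat.card A := Nat.dvd_of_mem_primeFactors q.2
    suffices hc : ∀ u v : A, u ∈ (Q : Subgroup A) → v ∈ (Q : Subgroup A) → u * v = v * u from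
      Subtype.ext (hc _ _ ((e.symm a q Q)).2 ((e.symm b q Q)).2)
    intro u v hu hv
    by_cases hqM : (q : ℕ) ∣ Nat.card M
    · haveI := (hQ₁ Q hqA hqM).1
      have h1 := congrArg Subtype.val (mul_comm' (⟨_, ⟨u, hu, rfl⟩⟩ : (Q : Subgroup A).map A.subtype)
        ⟨_, ⟨v, hv, rfl⟩⟩)
      exact Subtype.ext h1
    · have hdisj : Disjoint (Q : Subgroup A) K := by
        refine disjoint_iff.2 (eq_bot_of_card_eq _ ?_)
        obtain ⟨i, hi⟩ := (Q.2.to_le (inf_le_left : (Q : Subgroup A) ⊓ K ≤ Q)).exists_card_eq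
        rcases i with _ | i
        · rw [hi, pow_zero]
        · exfalso
          apply hqM
          refine ((dvd_pow_self (q : ℕ) i.succ_ne_zero).trans (hi ▸ card_dvd_of_le inf_le_right)).trans ?_
          rw [← card_map_of_injective (K := K) A.subtype_injective,
            hK, subgroupOf_map_subtype]
          exact card_dvd_of_le inf_le_left
      have h1 : u * v * u⁻¹ * v⁻¹ ∈ (Q : Subgroup A) := mul_mem (mul_mem (mul_mem hu hv) (inv_mem hu)) (inv_mem hv)
      have h2 := Subgroup.disjoint_def.1 hdisj h1 (hcomm u v)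
      rwa [mul_inv_eq_one, mul_inv_eq_iff_eq_mul] at h2
  · intro q hq
    haveI := Fact.mk hq
    split_ifs with hqA₀
    · rw [hcard, Nat.factorization_mul Nat.card_pos.ne' Nat.card_pos.ne', Finsupp.add_apply, add_comm]
      congr 1
      refine le_antisymm ((Nat.factorization_le_iff_dvd Nat.card_pos.ne' Nat.card_pos.ne').2 ?_ q) ?_
      · rw [← card_map_of_injective (K := K) A.subtype_injective,
          hK, subgroupOf_map_subtype]
        exact card_dvd_of_le inf_le_left
      · by_cases hqM : q ∣ Nat.card M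
        · let Q : Sylow q A := default
          exact (hq.pow_dvd_iff_le_factorization Nat.card_pos.ne').1
            (hQ₁ Q (hqA₀.trans (Dvd.intro_left _ hcard.symm)) hqM).2
        · rw [Nat.factorization_eq_zero_of_not_dvd hqM]; exact Nat.zero_le _
    · rw [Nat.factorization_eq_zero_of_not_dvd hqA₀, add_zero]
      exact Nat.factorization_eq_zero_of_not_dvd fun hqA => hqA₀ (hdvd q hq hqA)

/-- Liftable abelian subgroups of equal order are conjugate. -/
theorem conj_of_lift (hB : AbelianConj G) (M : Subgroup G) [M.Normal] (A₀ B₀ : Subgroup (G ⧸ M))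
    (hA₀ : IsMulCommutative A₀) (hB₀ : IsMulCommutative B₀) (hcard : Nat.card A₀ = Nat.card B₀)
    (h : ∀ q : ℕ, q.Prime → q ∣ Nat.card M → q ∣ Nat.card A₀ → ∀ Q : Subgroup G, IsPGroup q Q → ¬ Q ≤ M →
      (Q.map (QuotientGroup.mk' M) ≤ A₀ ∨ Q.map (QuotientGroup.mk' M) ≤ B₀) →
      IsMulCommutative Q ∧ q ^ (Nat.card M).factorization q ∣ Nat.card ↥(Q ⊓ M)) :
    ∃ g : G ⧸ M, B₀ = A₀.map (MulAut.conj g).toMonoidHom := by
  classical
  obtain ⟨A, hA, hAm, hAv⟩ := exists_lift M A₀ hA₀ fun q hq hqM hqA Q hQ hQM hQA =>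
    h q hq hqM hqA Q hQ hQM (Or.inl hQA)
  obtain ⟨B, hBc, hBm, hBv⟩ := exists_lift M B₀ hB₀ fun q hq hqM hqB Q hQ hQM hQB =>
    h q hq hqM (hcard ▸ hqB) Q hQ hQM (Or.inr hQB)
  have heq : Nat.card A = Nat.card B := by
    refine Nat.eq_of_factorization_eq Nat.card_pos.ne' Nat.card_pos.ne' fun q => ?_
    by_cases hq : q.Prime
    · rw [hAv q hq, hBv q hq, hcard]
    · rw [Nat.factorization_eq_zero_of_not_prime _ hq, Nat.factorization_eq_zero_of_not_prime _ hq]
  obtain ⟨g, hg⟩ := hB A B hA hBc heq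
  refine ⟨(g : G ⧸ M), ?_⟩
  rw [← hBm, hg, ← hAm, map_map, map_map]
  congr 1

/-- A prime with Sylow subgroups of exponent `q` dividing a normal subgroup does not divide its
index. -/
theorem not_dvd_index_of_exponent (hB : AbelianConj G) (M : Subgroup G) [hMn : M.Normal] {q : ℕ}
    [Fact q.Prime] (hqM : q ∣ Nat.card M) (S : Sylow q G)
    (hS : ∀ x ∈ (S : Subgroup G), x ^ q = 1) : ¬ q ∣ M.index := by
  have hle : (S : Subgroup G) ≤ M := by
    intro x hx
    by_cases hx1 : x = 1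
    · rw [hx1]; exact one_mem _
    obtain ⟨y, hy⟩ := exists_prime_orderOf_dvd_card' q hqM
    have hy' : orderOf (y : G) = q := by rw [orderOf_coe]; exact hy
    obtain ⟨g, hg⟩ := hB (zpowers (y : G)) (zpowers x) inferInstance inferInstance
      (by rw [Nat.card_zpowers, Nat.card_zpowers, hy', orderOf_eq_prime (hS x hx) hx1])
    obtain ⟨z, hz, hzx⟩ : x ∈ (zpowers (y : G)).map (MulAut.conj g).toMonoidHom := hg ▸ mem_zpowers x
    rw [← hzx]
    exact hMn.conj_mem z ((zpowers_le.2 y.2) hz) g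
  exact fun h => S.not_dvd_index (h.trans (index_dvd_of_le hle))

/-- Lifting condition for cyclic Sylow subgroups. -/
theorem lift_cond_of_cyclic (M : Subgroup G) [M.Normal] {q : ℕ} [Fact q.Prime]
    (hS : ∀ S : Sylow q G, IsCyclic (S : Subgroup G)) (Q : Subgroup G) (hQ : IsPGroup q Q) (hQM : ¬ Q ≤ M) :
    IsMulCommutative Q ∧ q ^ (Nat.card M).factorization q ∣ Nat.card ↥(Q ⊓ M) := by
  obtain ⟨S, hQS⟩ := hQ.exists_le_sylow
  haveI := hS S
  haveI := IsCyclic.isMulCommutative (α := (S : Subgroup G))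
  refine ⟨⟨⟨fun a b => Subtype.ext (congrArg (fun t : (S : Subgroup G) => (t : G))
    (mul_comm' (⟨a, hQS a.2⟩ : (S : Subgroup G)) ⟨b, hQS b.2⟩))⟩⟩, ?_⟩
  set N := (S : Subgroup G) ⊓ M
  obtain ⟨i, hi⟩ := hQ.exists_card_eq
  obtain ⟨j, hj⟩ := (S.2.to_le (inf_le_left : N ≤ S)).exists_card_eq
  rcases le_total i j with hij | hji
  · exfalso
    apply hQM
    have h1 : Q.subgroupOf (S : Subgroup G) ≤ N.subgroupOf (S : Subgroup G) := by
      refine le_of_card_dvd_of_cyclic ?_
      rw [Nat.card_congr (subgroupOfEquivOfLe hQS).toEquiv, Nat.card_congr (subgroupOfEquivOfLe inf_le_left).toEquiv,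
        hi, hj]
      exact pow_dvd_pow q hij
    intro x hx
    exact (h1 (show (⟨x, hQS hx⟩ : (S : Subgroup G)) ∈ Q.subgroupOf (S : Subgroup G) from hx)).2
  · have h1 : N.subgroupOf (S : Subgroup G) ≤ Q.subgroupOf (S : Subgroup G) := by
      refine le_of_card_dvd_of_cyclic ?_
      rw [Nat.card_congr (subgroupOfEquivOfLe hQS).toEquiv, Nat.card_congr (subgroupOfEquivOfLe inf_le_left).toEquiv,
        hi, hj]
      exact pow_dvd_pow q hji
    refine (exists_pow_dvd_card_inf M S).trans (card_dvd_of_le ?_)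
    intro x hx
    exact ⟨h1 (show (⟨x, hx.1⟩ : (S : Subgroup G)) ∈ N.subgroupOf (S : Subgroup G) from hx), hx.2⟩

/-- A solvable such group has no generalized quaternion Sylow subgroup of order at least `16`. -/
theorem quaternion_false (hB : AbelianConj G) (hsol : Group.IsSolvable G) (S : Sylow 2 G) {n : ℕ}
    (hn : 2 ≤ n) (e : (S : Subgroup G) ≃* QuaternionGroup (2 ^ n))
    (hu : ∀ x ∈ (S : Subgroup G), ∀ y ∈ (S : Subgroup G), orderOf x = 2 → orderOf y = 2 → x = y) : False := by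
  classical
  haveI : Fact (Nat.Prime 2) := ⟨Nat.prime_two⟩
  haveI : NeZero (2 ^ n) := ⟨by positivity⟩
  set O := Cfsg.pPrimeCore 2 G
  haveI : O.Characteristic := Cfsg.Agent.PSolv.pPrimeCore_characteristic 2 G
  set π := QuotientGroup.mk' O
  have hπ := QuotientGroup.mk'_surjective O
  let T : Sylow 2 (G ⧸ O) := S.mapSurjective hπ
  have hT : (T : Subgroup (G ⧸ O)) = (S : Subgroup G).map π := rfl
  have hinj : ∀ x ∈ (S : Subgroup G), π x = 1 → x = 1 := by
    intro x hx hx1
    have h1 : x ∈ O := (QuotientGroup.eq_one_iff x).1 hx1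
    obtain ⟨k, hk⟩ := S.2.exists_card_eq
    have h2 := O.orderOf_dvd_natCard h1
    have h3 := (S : Subgroup G).orderOf_dvd_natCard hx
    rw [hk] at h3
    exact orderOf_eq_one_iff.1 (Nat.eq_one_of_dvd_coprimes
      ((Cfsg.Agent.PSolv.coprime_card_pPrimeCore 2 G).pow_right k) h2 h3)
  let ψ : QuaternionGroup (2 ^ n) →* G ⧸ O := π.comp ((S : Subgroup G).subtype.comp e.symm.toMonoidHom)
  have hψ : Function.Injective ψ := by
    rw [injective_iff_map_eq_one]
    intro y hy
    apply e.symm.injective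
    rw [map_one]
    exact Subtype.ext (hinj _ (e.symm y).2 hy)
  have hψT : ψ.range = (T : Subgroup (G ⧸ O)) := by
    rw [hT]
    ext x
    constructor
    · rintro ⟨y, rfl⟩
      exact ⟨_, (e.symm y).2, rfl⟩
    · rintro ⟨s, hs, rfl⟩
      refine ⟨e ⟨s, hs⟩, ?_⟩
      simp [ψ]
  -- all cyclic subgroups of order four of the quotient are conjugate
  have hconj : ∀ a b : G ⧸ O, orderOf a = 4 → orderOf b = 4 →
      ∃ g : G ⧸ O, b ∈ zpowers (g * a * g⁻¹) := by
    intro a b ha hb
    have hlift : ∀ a : G ⧸ O, orderOf a = 4 → ∃ (x : G) (g : G ⧸ O), orderOf x = 4 ∧ a = g * π x * g⁻¹ := by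
      intro a ha
      have hp : IsPGroup 2 (zpowers a) := IsPGroup.of_card (n := 2) (by rw [Nat.card_zpowers, ha]; rfl)
      obtain ⟨R, hR⟩ := hp.exists_le_sylow
      obtain ⟨g, hg⟩ := MulAction.exists_smul_eq (G ⧸ O) T R
      have h1 : a ∈ ((g • T : Sylow 2 (G ⧸ O)) : Subgroup (G ⧸ O)) := hg ▸ hR (mem_zpowers a)
      rw [Sylow.coe_subgroup_smul, mem_pointwise_smul_iff_inv_smul_mem, hT] at h1
      obtain ⟨x, hx, hxa⟩ := h1
      have hxa' : π x = g⁻¹ * a * g := by simpa using hxa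
      refine ⟨x, g, ?_, by rw [hxa']; group⟩
      have h4 : orderOf (π x) = 4 := by
        rw [hxa', show g⁻¹ * a * g = MulAut.conj g⁻¹ a by simp, MulEquiv.orderOf_eq, ha]
      refine Nat.dvd_antisymm ?_ (h4 ▸ orderOf_map_dvd π x)
      refine orderOf_dvd_of_pow_eq_one (hinj _ (pow_mem hx 4) ?_)
      rw [map_pow, ← h4, pow_orderOf_eq_one]
    obtain ⟨x, g, hx, rfl⟩ := hlift a ha
    obtain ⟨y, h, hy, rfl⟩ := hlift b hb
    obtain ⟨c, hc⟩ := hB (zpowers x) (zpowers y) inferInstance inferInstance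
      (by rw [Nat.card_zpowers, Nat.card_zpowers, hx, hy])
    rw [MonoidHom.map_zpowers] at hc
    obtain ⟨i, hi⟩ := mem_zpowers_iff.1 (hc.le (mem_zpowers y))
    refine ⟨h * π c * g⁻¹, mem_zpowers_iff.2 ⟨i, ?_⟩⟩
    rw [← hi]
    simp only [MulEquiv.coe_toMonoidHom, MulAut.conj_apply, conj_zpow, map_zpow, map_mul, map_inv]
    simp only [← conj_zpow]
    group
  -- the special elements
  have hn2 : 2 ≤ 2 ^ n := by
    calc 2 = 2 ^ 1 := rfl
      _ ≤ 2 ^ n := Nat.pow_le_pow_right two_pos (by omega)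
  have hxa : ∀ i, orderOf (ψ (QuaternionGroup.xa i)) = 4 := fun i => by
    rw [orderOf_injective ψ hψ, QuaternionGroup.orderOf_xa]
  set w : QuaternionGroup (2 ^ n) := (QuaternionGroup.a 1) ^ 2 ^ (n - 2) with hw
  have hu4 : orderOf (ψ (w ^ 2)) = 4 := by
    rw [orderOf_injective ψ hψ, hw, ← pow_mul, ← pow_succ, orderOf_pow_of_dvd (by positivity)
      (by rw [QuaternionGroup.orderOf_a_one]; exact Dvd.dvd.mul_left (pow_dvd_pow 2 (by omega)) 2),
      QuaternionGroup.orderOf_a_one, show n - 2 + 1 = n - 1 by omega]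
    have e1 : 2 * 2 ^ n = 2 ^ (n - 1) * 4 := by
      rw [show (4 : ℕ) = 2 ^ 2 from rfl, ← pow_add, ← pow_succ']
      congr 1
      omega
    rw [e1, Nat.mul_div_cancel_left _ (by positivity)]
  set F := Cfsg.pCore 2 (G ⧸ O) with hF
  have hFT : F ≤ T := Cfsg.Agent.PSolv.pCore_le_sylow T
  haveI : F.Characteristic := Cfsg.Agent.PSolv.pCore_characteristic 2 (G ⧸ O)
  by_cases h4 : ∃ f ∈ F, orderOf f = 4
  · obtain ⟨f, hfF, hf⟩ := h4
    have hall : ∀ b : G ⧸ O, orderOf b = 4 → b ∈ F := by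
      intro b hb
      obtain ⟨g, hg⟩ := hconj f b hf hb
      exact zpowers_le.2 ((inferInstance : F.Normal).conj_mem f hfF g) hg
    have hTF : (T : Subgroup (G ⧸ O)) ≤ F := by
      rw [← hψT]
      rintro _ ⟨y, rfl⟩
      rcases y with i | i
      · have : (QuaternionGroup.a i : QuaternionGroup (2 ^ n)) =
            (QuaternionGroup.xa 0)⁻¹ * QuaternionGroup.xa i := by
          rw [eq_inv_mul_iff_mul_eq, QuaternionGroup.xa_mul_a, zero_add]
        rw [this, map_mul, map_inv]
        exact mul_mem (inv_mem (hall _ (hxa 0))) (hall _ (hxa i))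
      · exact hall _ (hxa i)
    obtain ⟨g, hg⟩ := hconj _ _ hu4 (hxa 0)
    obtain ⟨i, hi⟩ := mem_zpowers_iff.1 hg
    have hwT : g * ψ w * g⁻¹ ∈ (T : Subgroup (G ⧸ O)) := by
      rw [le_antisymm hTF hFT]
      exact (inferInstance : F.Normal).conj_mem _ (hTF (hψT ▸ ⟨w, rfl⟩)) g
    rw [← hψT] at hwT
    obtain ⟨y, hy⟩ := hwT
    have hsq : QuaternionGroup.xa 0 = (y ^ i) ^ 2 := by
      apply hψ
      rw [← hi, map_pow ψ (y ^ i) 2, map_zpow, hy, map_pow ψ w 2,
        show g * ψ w ^ 2 * g⁻¹ = (g * ψ w * g⁻¹) ^ 2 by rw [pow_two, pow_two]; group,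
        ← zpow_natCast _ 2, ← zpow_natCast _ 2, ← zpow_mul, ← zpow_mul, mul_comm]
    generalize y ^ i = z at hsq
    rcases z with j | j <;>
      simp [pow_two] at hsq
  · push Not at h4
    have hF2 : ∀ f ∈ F, f ^ 2 = 1 := by
      intro f hf
      by_contra hne
      obtain ⟨k, hk⟩ := (Cfsg.Agent.PSolv.isPGroup_pCore 2 (G ⧸ O)) ⟨f, hf⟩
      obtain ⟨i, -, hi⟩ := (Nat.dvd_prime_pow Nat.prime_two).1
        (orderOf_dvd_of_pow_eq_one (congrArg Subtype.val hk : f ^ 2 ^ k = 1))
      have hi2 : 2 ≤ i := by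
        by_contra h
        push Not at h
        apply hne
        rw [← orderOf_dvd_iff_pow_eq_one, hi]
        calc 2 ^ i ∣ 2 ^ 1 := pow_dvd_pow 2 (by omega)
          _ = 2 := rfl
      refine h4 (f ^ 2 ^ (i - 2)) (pow_mem hf _) ?_
      rw [orderOf_pow_of_dvd (by positivity) (hi ▸ pow_dvd_pow 2 (Nat.sub_le _ _)), hi,
        Nat.pow_div (Nat.sub_le _ _) two_pos, show i - (i - 2) = 2 by omega]
      rfl
    have huniq : ∀ f ∈ F, ∀ f' ∈ F, f ≠ 1 → f' ≠ 1 → f = f' := by
      intro f hf f' hf' h1 h1'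
      obtain ⟨x, hx, rfl⟩ := hT ▸ hFT hf
      obtain ⟨x', hx', rfl⟩ := hT ▸ hFT hf'
      rw [hu x hx x' hx' (orderOf_eq_prime (hinj _ (pow_mem hx 2) (by rw [map_pow, hF2 _ hf]))
          (fun h => h1 (by rw [h, map_one])))
        (orderOf_eq_prime (hinj _ (pow_mem hx' 2) (by rw [map_pow, hF2 _ hf']))
          (fun h => h1' (by rw [h, map_one])))]
    have hcen : centralizer (F : Set (G ⧸ O)) = ⊤ := by
      rw [eq_top_iff]
      intro g _ f hf
      by_cases hf1 : f = 1
      · rw [hf1, one_mul, mul_one]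
      · have h2 := (inferInstance : F.Normal).conj_mem f hf g
        have h3 := huniq f hf _ h2 hf1 (fun h => hf1 (by
          have : f = g⁻¹ * (g * f * g⁻¹) * g := by group
          rw [this, h, mul_one, inv_mul_cancel]))
        calc f * g = (g * f * g⁻¹) * g := by rw [← h3]
          _ = g * f := by group
    have hle : centralizer (F : Set (G ⧸ O)) ≤ F :=
      Cfsg.Agent.PSolv.centralizer_pCore_le
        (Cfsg.Agent.PSolv.isPSolvable_of_isSolvable
          (haveI := hsol; inferInstance))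
        (Cfsg.Agent.PSolv.pPrimeCore_quotient_eq_bot 2 G)
    have := hF2 _ (hle (hcen ▸ mem_top (ψ (QuaternionGroup.xa 0))))
    have h5 := orderOf_dvd_of_pow_eq_one this
    rw [hxa 0] at h5
    omega

/-- A prime dividing both a normal subgroup and its index has cyclic Sylow subgroups, except
possibly `2`. -/
theorem cyclic_of_dvd (hB : AbelianConj G) (M : Subgroup G) [M.Normal] {q : ℕ} [Fact q.Prime]
    (hqM : q ∣ Nat.card M) (hqi : q ∣ M.index) (hq2 : q ≠ 2) (S : Sylow q G) : IsCyclic (S : Subgroup G) := by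
  rcases Cfsg.Agent.S3908.main hB S with h | h
  · exact (Cfsg.Agent.S0016.result q S.2 h).resolve_right fun h2 => hq2 h2.1
  · exact absurd hqi (not_dvd_index_of_exponent hB M hqM S h)

/-- The solvable case at the prime `2`. -/
theorem two_case (hB : AbelianConj G) (hsol : Group.IsSolvable G) (M : Subgroup G) [hMn : M.Normal]
    [Fact (Nat.Prime 2)] (h2M : 2 ∣ Nat.card M) (h2i : 2 ∣ M.index) :
    (∀ S : Sylow 2 G, IsCyclic (S : Subgroup G)) ∨
      ∀ S : Sylow 2 G, Nat.card (S : Subgroup G) = 8 ∧ (∀ x ∈ (S : Subgroup G), x ^ 2 = 1 → x ∈ M) ∧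
        (∀ x ∈ (S : Subgroup G), x ∈ M → x ^ 2 = 1) ∧
        Nat.card ↥((S : Subgroup G) ⊓ M) = 2 := by
  classical
  by_cases hcyc : ∀ S : Sylow 2 G, IsCyclic (S : Subgroup G)
  · exact Or.inl hcyc
  right
  intro S
  have hnc : ¬ IsCyclic (S : Subgroup G) := fun h => hcyc fun T => by
    haveI := h
    exact isCyclic_of_surjective (Sylow.equiv S T).toMonoidHom (Sylow.equiv S T).surjective
  rcases Cfsg.Agent.S3908.main hB S with huniq | h
  swap
  · exact absurd h2i (not_dvd_index_of_exponent hB M h2M S h)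
  obtain ⟨-, n, ⟨e⟩⟩ := (Cfsg.Agent.S0016.result 2 S.2 huniq).resolve_left hnc
  haveI : NeZero (2 ^ n) := ⟨by positivity⟩
  have hu : ∀ x ∈ (S : Subgroup G), ∀ y ∈ (S : Subgroup G), orderOf x = 2 → orderOf y = 2 → x = y := by
    intro x hx y hy hx2 hy2
    have h1 := huniq (zpowers (⟨x, hx⟩ : (S : Subgroup G))) (zpowers (⟨y, hy⟩ : (S : Subgroup G)))
      (by rw [Nat.card_zpowers, orderOf_mk, hx2]) (by rw [Nat.card_zpowers, orderOf_mk, hy2])
    obtain ⟨i, hi⟩ := mem_zpowers_iff.1 (h1.le (mem_zpowers _))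
    have hi' : y ^ i = x := congrArg Subtype.val hi
    rw [← zpow_mod_orderOf, hy2] at hi'
    rcases Int.emod_two_eq_zero_or_one i with h0 | h0
    · rw [show ((2 : ℕ) : ℤ) = 2 from rfl, h0, zpow_zero] at hi'
      rw [← hi', orderOf_one] at hx2
      omega
    · rw [show ((2 : ℕ) : ℤ) = 2 from rfl, h0, zpow_one] at hi'
      exact hi'.symm
  have hn1 : n = 1 := by
    rcases n with _ | _ | n
    · exfalso
      apply hnc
      refine isCyclic_of_orderOf_eq_card (e.symm (QuaternionGroup.xa 0)) ?_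
      rw [MulEquiv.orderOf_eq, QuaternionGroup.orderOf_xa, Nat.card_congr e.toEquiv,
        Nat.card_eq_fintype_card, QuaternionGroup.card, pow_zero, mul_one]
    · rfl
    · exact (quaternion_false hB hsol S (by omega) e hu).elim
  subst hn1
  have h8 : Nat.card (S : Subgroup G) = 8 := by
    rw [Nat.card_congr e.toEquiv, Nat.card_eq_fintype_card, QuaternionGroup.card]; rfl
  have h4 : ∀ x ∈ (S : Subgroup G), x ^ 4 = 1 := by
    intro x hx
    rw [← orderOf_dvd_iff_pow_eq_one]
    obtain ⟨i, hi, hie⟩ := (Nat.dvd_prime_pow Nat.prime_two).1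
      (show orderOf x ∣ 2 ^ 3 by
        have := (S : Subgroup G).orderOf_dvd_natCard hx
        rwa [h8] at this)
    rcases (show i = 3 ∨ i ≤ 2 by omega) with h | h
    · exfalso
      apply hnc
      refine isCyclic_of_orderOf_eq_card (⟨x, hx⟩ : (S : Subgroup G)) ?_
      rw [orderOf_mk, hie, h, h8]; rfl
    · rw [hie]; exact pow_dvd_pow 2 h
  have h4of : ∀ x ∈ (S : Subgroup G), x ^ 2 ≠ 1 → orderOf x = 4 := fun x hx hne =>
    orderOf_eq_prime_pow (p := 2) (n := 1) (by rwa [pow_one]) (h4 x hx)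
  have hno4 : ∀ x ∈ (S : Subgroup G), x ∈ M → x ^ 2 = 1 := by
    intro x hx hxM
    by_contra hne
    have hx4 := h4of x hx hne
    have hall : ∀ y ∈ (S : Subgroup G), y ^ 2 ≠ 1 → y ∈ M := by
      intro y hy hy2
      obtain ⟨g, hg⟩ := hB (zpowers x) (zpowers y) inferInstance inferInstance
        (by rw [Nat.card_zpowers, Nat.card_zpowers, hx4, h4of y hy hy2])
      obtain ⟨z, hz, hzy⟩ : y ∈ (zpowers x).map (MulAut.conj g).toMonoidHom := hg ▸ mem_zpowers y
      rw [← hzy]
      exact hMn.conj_mem z ((zpowers_le.2 hxM) hz) g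
    refine S.not_dvd_index (h2i.trans (index_dvd_of_le ?_))
    intro y hy
    by_cases hy2 : y ^ 2 = 1
    · by_cases hy1 : y = 1
      · rw [hy1]; exact one_mem _
      rw [← hu _ (pow_mem hx 2) y hy (orderOf_eq_prime (by rw [← pow_mul]; exact h4 x hx) hne)
        (orderOf_eq_prime hy2 hy1)]
      exact pow_mem hxM 2
    · exact hall y hy hy2
  have h2c : 2 ∣ Nat.card ↥((S : Subgroup G) ⊓ M) :=
    (dvd_pow_self 2 ((Nat.prime_two.factorization_pos_of_dvd Nat.card_pos.ne' h2M)).ne').trans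
      (exists_pow_dvd_card_inf M S)
  obtain ⟨z, hz⟩ := exists_prime_orderOf_dvd_card' 2 h2c
  have hz' : orderOf (z : G) = 2 := by rw [orderOf_coe]; exact hz
  refine ⟨h8, fun x hx hx2 => ?_, hno4, ?_⟩
  · by_cases hx1 : x = 1
    · rw [hx1]; exact one_mem _
    rw [hu x hx z z.2.1 (orderOf_eq_prime hx2 hx1) hz']
    exact z.2.2
  · have hNz : (S : Subgroup G) ⊓ M = zpowers (z : G) := by
      refine le_antisymm ?_ (zpowers_le.2 z.2)
      rintro y ⟨hy, hyM⟩
      by_cases hy1 : y = 1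
      · rw [hy1]; exact one_mem _
      rw [hu y hy z z.2.1 (orderOf_eq_prime (hno4 y hy hyM) hy1) hz']
      exact mem_zpowers _
    rw [hNz, Nat.card_zpowers, hz']

end Cfsg.Agent.H73
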