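import Mathlib
import Cfsg.Agent.Coprime.Conj
import Cfsg.Agent.Lib.MinimalNormal
import Cfsg.Agent.H73.BGroup

/-! Conjugacy of all subgroups of equal order: gluing over a normal subgroup, and the groups whose
Sylow subgroups are cyclic, of order four with fused involutions, or quaternion of order eight with
fused cyclic subgroups of order four. -/

set_option autoImplicit false
set_option linter.style.haveILetI false
set_option linter.unusedSectionVars false

namespace Cfsg.Agent.H73

open Subgroup
open scoped Pointwise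

/-- Any two subgroups of the same order are conjugate. -/
def AllConj (G : Type*) [Group G] : Prop :=
  ∀ A B : Subgroup G, Nat.card A = Nat.card B → ∃ g : G, B = A.map (MulAut.conj g).toMonoidHom

variable {X : Type*} [Group X] [Finite X]

theorem map_conj_mul (A : Subgroup X) (g h : X) :
    (A.map (MulAut.conj g).toMonoidHom).map (MulAut.conj h).toMonoidHom =
      A.map (MulAut.conj (h * g)).toMonoidHom := by
  rw [map_map, map_mul]; rfl

theorem map_conj_map {Y : Type*} [Group Y] (A : Subgroup X) (g : X) (f : X →* Y) :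
    (A.map (MulAut.conj g).toMonoidHom).map f = (A.map f).map (MulAut.conj (f g)).toMonoidHom := by
  rw [map_map, map_map]
  congr 1
  ext x
  simp

theorem mem_map_conj {A : Subgroup X} {g x : X} :
    x ∈ A.map (MulAut.conj g).toMonoidHom ↔ g⁻¹ * x * g ∈ A := by
  constructor
  · rintro ⟨a, ha, rfl⟩
    simpa [mul_assoc] using ha
  · intro h
    exact ⟨_, h, by simp [mul_assoc]⟩

theorem card_map_conj (A : Subgroup X) (g : X) :
    Nat.card (A.map (MulAut.conj g).toMonoidHom) = Nat.card A :=
  card_map_of_injective (MulAut.conj g).injective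

theorem map_conj_eq_of_mem_normalizer {W : Subgroup X} {g : X} (hg : g ∈ normalizer (W : Set X)) :
    W.map (MulAut.conj g).toMonoidHom = W := by
  ext x
  rw [mem_map_conj]
  have h := (mem_normalizer_iff.1 (inv_mem hg)) x
  rw [inv_inv] at h
  exact h.symm

theorem mem_normalizer_of_map_conj_eq {W : Subgroup X} {g : X}
    (h : W.map (MulAut.conj g).toMonoidHom = W) : g ∈ normalizer (W : Set X) := by
  have key : ∀ x : X, x ∈ W ↔ g⁻¹ * x * g ∈ W := fun x => by
    conv_lhs => rw [← h]
    exact mem_map_conj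
  refine mem_normalizer_iff.2 fun x => ?_
  rw [key (g * x * g⁻¹)]
  simp [mul_assoc]

/-- If both subgroups contain a normal subgroup, conjugacy in the quotient suffices. -/
theorem conj_of_ge (M : Subgroup X) [M.Normal] (hQ : AllConj (X ⧸ M)) (A B : Subgroup X)
    (hA : M ≤ A) (hB : M ≤ B) (hcard : Nat.card A = Nat.card B) :
    ∃ g : X, B = A.map (MulAut.conj g).toMonoidHom := by
  have key : ∀ C : Subgroup X, M ≤ C →
      Nat.card C = Nat.card M * Nat.card (C.map (QuotientGroup.mk' M)) := fun C hC => by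
    rw [← relIndex_ker, QuotientGroup.ker_mk', ← Nat.card_congr (subgroupOfEquivOfLe hC).toEquiv]
    exact (card_mul_index _).symm
  obtain ⟨x, hx⟩ := hQ (A.map (QuotientGroup.mk' M)) (B.map (QuotientGroup.mk' M))
    (Nat.eq_of_mul_eq_mul_left Nat.card_pos ((key A hA).symm.trans (hcard.trans (key B hB))))
  obtain ⟨g, rfl⟩ := QuotientGroup.mk'_surjective M x
  have hM : M ≤ A.map (MulAut.conj g).toMonoidHom := by
    rw [← map_conj_eq_of_mem_normalizer (W := M) (g := g) (by rw [normalizer_eq_top]; exact mem_top _)]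
    exact map_mono hA
  refine ⟨g, ?_⟩
  rw [← map_conj_map] at hx
  have h := congrArg (comap (QuotientGroup.mk' M)) hx
  rwa [comap_map_eq_self (by rwa [QuotientGroup.ker_mk']),
    comap_map_eq_self (by rwa [QuotientGroup.ker_mk'])] at h

/-- Gluing: subgroups with the same intersection `W` with `M`, of coprime order modulo `M`. -/
theorem glue (M W : Subgroup X) [M.Normal] [Group.IsSolvable M] (A B : Subgroup X) (hA : A ⊓ M = W)
    (hB : B ⊓ M = W) (hcard : Nat.card A = Nat.card B)
    (hcop : (Nat.card M).Coprime (M.relIndex A))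
    (hL : AllConj ↥((normalizer (W : Set X)).map (QuotientGroup.mk' M))) :
    ∃ g : X, B = A.map (MulAut.conj g).toMonoidHom := by
  set N := normalizer (W : Set X) with hN
  set π := QuotientGroup.mk' M
  have hle : ∀ C : Subgroup X, C ⊓ M = W → C ≤ N := fun C hC c hc => by
    refine mem_normalizer_iff.2 fun x => ?_
    rw [← hC]
    simp only [mem_inf]
    constructor
    · rintro ⟨h1, h2⟩
      exact ⟨mul_mem (mul_mem hc h1) (inv_mem hc), (inferInstance : M.Normal).conj_mem x h2 c⟩
    · rintro ⟨h1, h2⟩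
      have h3 := (inferInstance : M.Normal).conj_mem _ h2 c⁻¹
      have h4 := mul_mem (mul_mem (inv_mem hc) h1) hc
      simp only [mul_assoc, inv_mul_cancel_left, inv_inv, inv_mul_cancel, mul_one] at h3 h4
      exact ⟨h4, h3⟩
  have hrel : ∀ C : Subgroup X, C ⊓ M = W → M.relIndex C = Nat.card (C.map π) := fun C _ => by
    rw [← relIndex_ker, QuotientGroup.ker_mk']
  have hsplit : ∀ C : Subgroup X, C ⊓ M = W → Nat.card C = Nat.card W * M.relIndex C := fun C hC => by
    subst hC
    rw [← inf_relIndex_right M C, inf_comm M C]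
    calc Nat.card C = Nat.card ((C ⊓ M).subgroupOf C) * ((C ⊓ M).subgroupOf C).index :=
          (card_mul_index _).symm
      _ = _ := by rw [Nat.card_congr (subgroupOfEquivOfLe inf_le_left).toEquiv]; rfl
  have heq : M.relIndex A = M.relIndex B :=
    Nat.eq_of_mul_eq_mul_left (Nat.card_pos (α := W))
      ((hsplit A hA).symm.trans (hcard.trans (hsplit B hB)))
  -- align the images
  have hA₀ : A.map π ≤ N.map π := map_mono (hle A hA)
  have hB₀ : B.map π ≤ N.map π := map_mono (hle B hB)
  obtain ⟨x, hx⟩ := hL ((A.map π).subgroupOf (N.map π)) ((B.map π).subgroupOf (N.map π)) (by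
    rw [Nat.card_congr (subgroupOfEquivOfLe hA₀).toEquiv, Nat.card_congr (subgroupOfEquivOfLe hB₀).toEquiv,
      ← hrel A hA, ← hrel B hB, heq])
  obtain ⟨g, hgN, hg⟩ := x.2
  set A₁ := A.map (MulAut.conj g).toMonoidHom with hA₁
  have hmap : B.map π = A₁.map π := by
    have h := congrArg (Subgroup.map (N.map π).subtype) hx
    rw [map_conj_map, map_subgroupOf_eq_of_le hA₀, map_subgroupOf_eq_of_le hB₀] at h
    rw [h, hA₁, map_conj_map, hg]; rfl
  have hW₁ : A₁ ⊓ M = W := by
    conv_rhs => rw [← map_conj_eq_of_mem_normalizer hgN, ← hA]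
    rw [map_inf _ _ _ (MulAut.conj g).injective,
      map_conj_eq_of_mem_normalizer (W := M) (by rw [normalizer_eq_top]; exact mem_top g)]
  -- work inside `N / W`
  haveI hWn : (W.subgroupOf N).Normal := normal_in_normalizer
  set ν := QuotientGroup.mk' (W.subgroupOf N) with hν
  set K := (M.subgroupOf N).map ν with hK
  haveI : (M.subgroupOf N).Normal := inferInstance
  haveI : K.Normal := Normal.map inferInstance ν (QuotientGroup.mk'_surjective _)
  haveI : Group.IsSolvable (M.subgroupOf N) :=
    Group.isSolvable_of_isSolvable_injective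
      (f := (Subgroup.inclusion (inf_le_left : M ⊓ N ≤ M)).comp
        ((N.subtype.comp (M.subgroupOf N).subtype).codRestrict (M ⊓ N) fun x => ⟨x.2, x.1.2⟩))
      (fun a b h => by
        apply Subtype.ext
        apply Subtype.ext
        exact congrArg (fun t : M => (t : X)) h)
  haveI : Group.IsSolvable K :=
    Group.isSolvable_of_surjective (f := ν.subgroupMap (M.subgroupOf N))
      (ν.subgroupMap_surjective _)
  have hcK : Nat.card K ∣ Nat.card M := by
    refine (card_map_dvd _ _).trans ?_
    rw [← card_map_of_injective (K := M.subgroupOf N) N.subtype_injective, subgroupOf_map_subtype]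
    exact card_dvd_of_le inf_le_left
  have himg : ∀ C : Subgroup X, C ⊓ M = W → Nat.card ((C.subgroupOf N).map ν) = M.relIndex C := by
    intro C hC
    rw [← relIndex_ker, hν, QuotientGroup.ker_mk', relIndex_subgroupOf (hle C hC), ← hC,
      inf_comm, inf_relIndex_right]
  have hsup : (B.subgroupOf N).map ν ⊔ K = (A₁.subgroupOf N).map ν ⊔ K := by
    have key : ∀ C D : Subgroup X, C.map π = D.map π → C ≤ N → D ≤ N →
        C.subgroupOf N ≤ D.subgroupOf N ⊔ M.subgroupOf N := by
      intro C D hCD _ hD c hc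
      obtain ⟨d, hd, hdc⟩ := hCD.le ⟨c, hc, rfl⟩
      have h1 : d⁻¹ * (c : X) ∈ M := by
        rw [← QuotientGroup.ker_mk' M, MonoidHom.mem_ker, map_mul, map_inv, hdc, inv_mul_cancel]
      rw [show c = ⟨d, hD hd⟩ * (⟨d, hD hd⟩⁻¹ * c) from (mul_inv_cancel_left _ c).symm]
      exact mul_mem (mem_sup_left hd) (mem_sup_right h1)
    rw [hK, ← Subgroup.map_sup, ← Subgroup.map_sup]
    exact congrArg _ (le_antisymm (sup_le (key B A₁ hmap (hle B hB) (hle A₁ hW₁)) le_sup_right)
      (sup_le (key A₁ B hmap.symm (hle A₁ hW₁) (hle B hB)) le_sup_right))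
  have hA₁c : M.relIndex A₁ = M.relIndex A :=
    Nat.eq_of_mul_eq_mul_left (Nat.card_pos (α := W))
      ((hsplit A₁ hW₁).symm.trans ((card_map_conj A g).trans (hsplit A hA)))
  obtain ⟨k, hk, hkB⟩ := Cfsg.Agent.Coprime.complement_conj (A := (A₁.subgroupOf N).map ν)
    (B := (B.subgroupOf N).map ν) (K := K) (by rw [normalizer_eq_top]; exact le_top)
    (by rw [himg A₁ hW₁, hA₁c]; exact (hcop.coprime_dvd_left hcK).symm)
    (by rw [himg B hB, ← heq]; exact (hcop.coprime_dvd_left hcK).symm) hsup (Or.inr inferInstance)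
  obtain ⟨m, -, rfl⟩ := hk
  refine ⟨(m : X) * g, ?_⟩
  rw [← map_conj_mul, ← hA₁]
  have h1 : B.subgroupOf N = (A₁.subgroupOf N).map (MulAut.conj m).toMonoidHom := by
    have h2 : (B.subgroupOf N).map ν = ((A₁.subgroupOf N).map (MulAut.conj m).toMonoidHom).map ν := by
      rw [map_conj_map, hkB]; rfl
    have hWA : ∀ C : Subgroup X, C ⊓ M = W → W.subgroupOf N ≤ C.subgroupOf N := fun C hC x hx => by
      have : (x : X) ∈ C ⊓ M := hC.symm ▸ hx
      exact this.1
    have hWA' : W.subgroupOf N ≤ (A₁.subgroupOf N).map (MulAut.conj m).toMonoidHom := by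
      rw [← map_conj_eq_of_mem_normalizer (W := W.subgroupOf N) (g := m)
        (by rw [normalizer_eq_top]; exact mem_top _)]
      exact map_mono (hWA A₁ hW₁)
    have h3 := congrArg (comap ν) h2
    rwa [comap_map_eq_self (by rw [hν, QuotientGroup.ker_mk']; exact hWA B hB),
      comap_map_eq_self (by rw [hν, QuotientGroup.ker_mk']; exact hWA')] at h3
  have h4 := congrArg (Subgroup.map N.subtype) h1
  rw [map_conj_map, map_subgroupOf_eq_of_le (hle B hB), map_subgroupOf_eq_of_le (hle A₁ hW₁)] at h4
  exact h4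

/-- Lifting an element of order prime to `|M|`. -/
theorem lift_coprime (M : Subgroup X) [M.Normal] (N : Subgroup X) (x : X ⧸ M)
    (hx : x ∈ N.map (QuotientGroup.mk' M)) (hc : (orderOf x).Coprime (Nat.card M)) :
    ∃ y ∈ N, (y : X ⧸ M) = x ∧ orderOf y = orderOf x := by
  obtain ⟨y, hyN, hy⟩ := hx
  obtain ⟨s, hs1, hs2⟩ := Nat.chineseRemainder hc 1 0
  have hyM : y ^ orderOf x ∈ M := by
    rw [← QuotientGroup.eq_one_iff, QuotientGroup.mk_pow, show (y : X ⧸ M) = x from hy, pow_orderOf_eq_one]
  have himg : ((y ^ s : X) : X ⧸ M) = x := by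
    calc ((y ^ s : X) : X ⧸ M) = x ^ s := by rw [QuotientGroup.mk_pow]; exact congrArg (· ^ s) hy
      _ = x ^ 1 := pow_eq_pow_iff_modEq.2 hs1
      _ = x := pow_one x
  refine ⟨y ^ s, pow_mem hyN s, himg, Nat.dvd_antisymm (orderOf_dvd_of_pow_eq_one ?_) ?_⟩
  · rw [← pow_mul, mul_comm, pow_mul, ← orderOf_dvd_iff_pow_eq_one]
    exact (M.orderOf_dvd_natCard hyM).trans (Nat.modEq_zero_iff_dvd.1 hs2)
  · conv_lhs => rw [← himg]
    exact orderOf_map_dvd (QuotientGroup.mk' M) _

theorem sylow_le_of_not_dvd_index (N : Subgroup X) [N.Normal] {r : ℕ} [Fact r.Prime] (S : Sylow r X)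
    (h : ¬ r ∣ N.index) : (S : Subgroup X) ≤ N := by
  have h1 : (S : Subgroup X).map (QuotientGroup.mk' N) = ⊥ := by
    refine eq_bot_of_card_eq _ ?_
    obtain ⟨i, hi⟩ := (S.2.map (QuotientGroup.mk' N)).exists_card_eq
    rcases i with _ | i
    · rw [hi, pow_zero]
    · exact absurd ((dvd_pow_self r i.succ_ne_zero).trans (hi ▸ N.index_eq_card ▸ card_subgroup_dvd_card _)) h
  rw [Subgroup.map_eq_bot_iff, QuotientGroup.ker_mk'] at h1
  exact h1

/-- Images of cyclic Sylow subgroups. -/
theorem sylow_cyclic_map (M : Subgroup X) [M.Normal] {r : ℕ} [Fact r.Prime]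
    (h : ∀ R : Sylow r X, IsCyclic (R : Subgroup X)) (T : Sylow r (X ⧸ M)) :
    IsCyclic (T : Subgroup (X ⧸ M)) := by
  let R : Sylow r X := default
  haveI := h R
  let T₀ := R.mapSurjective (QuotientGroup.mk'_surjective M)
  haveI : IsCyclic (T₀ : Subgroup (X ⧸ M)) :=
    isCyclic_of_surjective _ ((QuotientGroup.mk' M).subgroupMap_surjective (R : Subgroup X))
  exact isCyclic_of_surjective (Sylow.equiv T₀ T).toMonoidHom (Sylow.equiv T₀ T).surjective

theorem sylow_cyclic_subgroup (H : Subgroup X) {r : ℕ} [Fact r.Prime]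
    (h : ∀ R : Sylow r X, IsCyclic (R : Subgroup X)) (T : Sylow r H) : IsCyclic (T : Subgroup H) := by
  obtain ⟨R, hR⟩ := (T.2.map H.subtype).exists_le_sylow
  haveI := h R
  exact isCyclic_of_injective ((Subgroup.inclusion hR).comp (H.subtype.subgroupMap (T : Subgroup H)))
    ((inclusion_injective hR).comp
      ((T : Subgroup H).equivMapOfInjective H.subtype H.subtype_injective).injective)

/-- Odd Sylow subgroups are cyclic. -/
def OddCyclic (X : Type*) [Group X] : Prop :=
  ∀ r : ℕ, r.Prime → r ≠ 2 → ∀ R : Sylow r X, IsCyclic (R : Subgroup X)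

/-- All Sylow subgroups are cyclic. -/
def ZHyp (X : Type*) [Group X] : Prop :=
  ∀ r : ℕ, r.Prime → ∀ R : Sylow r X, IsCyclic (R : Subgroup X)

/-- Sylow `2`-subgroups are four-groups with all involutions conjugate. -/
def FourHyp (X : Type*) [Group X] : Prop :=
  OddCyclic X ∧ (∀ R : Sylow 2 X, Nat.card (R : Subgroup X) = 4 ∧ ∀ x ∈ (R : Subgroup X), x ^ 2 = 1) ∧
    ∀ x y : X, orderOf x = 2 → orderOf y = 2 → ∃ g : X, g * x * g⁻¹ = y

/-- Sylow `2`-subgroups are quaternion of order `8` with all cyclic subgroups of order `4`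
conjugate. -/
def EightHyp (X : Type*) [Group X] : Prop :=
  OddCyclic X ∧ (∀ R : Sylow 2 X, Nat.card (R : Subgroup X) = 8 ∧ (∀ x ∈ (R : Subgroup X), x ^ 4 = 1) ∧
      ∀ x ∈ (R : Subgroup X), ∀ y ∈ (R : Subgroup X), orderOf x = 2 → orderOf y = 2 → x = y) ∧
    ∀ x y : X, orderOf x = 4 → orderOf y = 4 → ∃ g : X, y ∈ zpowers (g * x * g⁻¹)

theorem OddCyclic.quotient (h : OddCyclic X) (M : Subgroup X) [M.Normal] : OddCyclic (X ⧸ M) :=
  fun r hr h2 T => by haveI := Fact.mk hr; exact sylow_cyclic_map M (h r hr h2) T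

theorem sylow_eq_of_coprime (M : Subgroup X) [M.Normal] {r : ℕ} [Fact r.Prime] (hrM : ¬ r ∣ Nat.card M)
    (T : Sylow r (X ⧸ M)) : ∃ R : Sylow r X, (R : Subgroup X).map (QuotientGroup.mk' M) = T ∧
      Nat.card (R : Subgroup X) = Nat.card (T : Subgroup (X ⧸ M)) := by
  let R₀ : Sylow r X := default
  obtain ⟨x, hx⟩ := MulAction.exists_smul_eq (X ⧸ M) (R₀.mapSurjective (QuotientGroup.mk'_surjective M)) T
  obtain ⟨g, rfl⟩ := QuotientGroup.mk'_surjective M x
  refine ⟨g • R₀, ?_, ?_⟩
  · rw [← hx, Sylow.coe_subgroup_smul, Sylow.coe_subgroup_smul, Sylow.coe_mapSurjective,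
      pointwise_smul_def, pointwise_smul_def]
    exact map_conj_map _ g _
  · rw [Sylow.card_eq_multiplicity, Sylow.card_eq_multiplicity, ← M.index_mul_card,
      Nat.factorization_mul index_ne_zero_of_finite Nat.card_pos.ne', Finsupp.add_apply,
      Nat.factorization_eq_zero_of_not_dvd hrM, add_zero, index_eq_card]

theorem FourHyp.quotient (h : FourHyp X) (M : Subgroup X) [M.Normal] (hM : ¬ 2 ∣ Nat.card M) :
    FourHyp (X ⧸ M) := by
  haveI : Fact (Nat.Prime 2) := ⟨Nat.prime_two⟩
  refine ⟨h.1.quotient M, fun T => ?_, fun x y hx hy => ?_⟩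
  · obtain ⟨R, hRT, hc⟩ := sylow_eq_of_coprime M hM T
    refine ⟨hc.symm.trans (h.2.1 R).1, ?_⟩
    rw [← hRT]
    rintro _ ⟨r, hr, rfl⟩
    rw [← map_pow, (h.2.1 R).2 r hr, map_one]
  · have hco : Nat.Coprime 2 (Nat.card M) := (Nat.prime_two.coprime_iff_not_dvd).2 hM
    obtain ⟨a, -, ha, ha2⟩ := lift_coprime M ⊤ x (by simp [map_top_of_surjective _ (QuotientGroup.mk'_surjective M)]) (hx.symm ▸ hco)
    obtain ⟨b, -, hb, hb2⟩ := lift_coprime M ⊤ y (by simp [map_top_of_surjective _ (QuotientGroup.mk'_surjective M)]) (hy.symm ▸ hco)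
    obtain ⟨g, hg⟩ := h.2.2 a b (ha2.trans hx) (hb2.trans hy)
    exact ⟨g, by rw [← ha, ← hb, ← hg]; simp⟩

theorem EightHyp.quotient (h : EightHyp X) (M : Subgroup X) [M.Normal] (hM : ¬ 2 ∣ Nat.card M) :
    EightHyp (X ⧸ M) := by
  haveI : Fact (Nat.Prime 2) := ⟨Nat.prime_two⟩
  refine ⟨h.1.quotient M, fun T => ?_, fun x y hx hy => ?_⟩
  · obtain ⟨R, hRT, hc⟩ := sylow_eq_of_coprime M hM T
    have hinj : ∀ r ∈ (R : Subgroup X), (r : X ⧸ M) = 1 → r = 1 := by
      intro r hr hr1
      have h1 := M.orderOf_dvd_natCard ((QuotientGroup.eq_one_iff r).1 hr1)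
      obtain ⟨k, hk⟩ := R.2 ⟨r, hr⟩
      have h2 : orderOf r ∣ 2 ^ k := orderOf_dvd_of_pow_eq_one (congrArg Subtype.val hk)
      exact orderOf_eq_one_iff.1
        (Nat.eq_one_of_dvd_coprimes ((Nat.prime_two.coprime_iff_not_dvd.2 hM).pow_left k) h2 h1)
    refine ⟨hc.symm.trans (h.2.1 R).1, ?_, ?_⟩
    · rw [← hRT]
      rintro _ ⟨r, hr, rfl⟩
      rw [← map_pow, (h.2.1 R).2.1 r hr, map_one]
    · rw [← hRT]
      have hord : ∀ r ∈ (R : Subgroup X), orderOf (r : X ⧸ M) = 2 → orderOf r = 2 := by
        intro r hr h2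
        refine orderOf_eq_prime (hinj _ (pow_mem hr 2) ?_) (fun h1 => by simp [h1] at h2)
        rw [QuotientGroup.mk_pow, ← h2, pow_orderOf_eq_one]
      rintro _ ⟨r, hr, rfl⟩ _ ⟨s, hs, rfl⟩ hr2 hs2
      rw [(h.2.1 R).2.2 r hr s hs (hord r hr hr2) (hord s hs hs2)]
  · have hco : Nat.Coprime 4 (Nat.card M) := ((Nat.prime_two.coprime_iff_not_dvd).2 hM).pow_left 2
    obtain ⟨a, -, ha, ha2⟩ := lift_coprime M ⊤ x (by simp [map_top_of_surjective _ (QuotientGroup.mk'_surjective M)]) (hx.symm ▸ hco)
    obtain ⟨b, -, hb, hb2⟩ := lift_coprime M ⊤ y (by simp [map_top_of_surjective _ (QuotientGroup.mk'_surjective M)]) (hy.symm ▸ hco)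
    obtain ⟨g, hg⟩ := h.2.2 a b (ha2.trans hx) (hb2.trans hy)
    obtain ⟨i, hi⟩ := mem_zpowers_iff.1 hg
    exact ⟨g, mem_zpowers_iff.2 ⟨i, by rw [← ha, ← hb, ← hi]; simp⟩⟩

/-- The three kinds of groups. -/
def SmallHyp (X : Type*) [Group X] : Prop := ZHyp X ∨ FourHyp X ∨ EightHyp X

theorem SmallHyp.oddCyclic (h : SmallHyp X) : OddCyclic X := by
  rcases h with h | h | h
  · exact fun r hr _ => h r hr
  · exact h.1
  · exact h.1

theorem SmallHyp.quotient_odd (h : SmallHyp X) (M : Subgroup X) [M.Normal] (hM : ¬ 2 ∣ Nat.card M) :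
    SmallHyp (X ⧸ M) := by
  rcases h with h | h | h
  · exact Or.inl fun r hr T => by haveI := Fact.mk hr; exact sylow_cyclic_map M (h r hr) T
  · exact Or.inr (Or.inl (h.quotient M hM))
  · exact Or.inr (Or.inr (h.quotient M hM))

/-- In the presence of a normal elementary `r`-subgroup and a cyclic Sylow `r`-subgroup, the former
contains all elements of order `r`. -/
theorem mem_of_orderOf_eq_of_cyclic (M : Subgroup X) [M.Normal] {r : ℕ} [Fact r.Prime] (hM1 : M ≠ ⊥)
    (hMp : IsPGroup r M) (h : ∀ R : Sylow r X, IsCyclic (R : Subgroup X)) (x : X)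
    (hx : orderOf x = r) : x ∈ M := by
  obtain ⟨R, hR⟩ := (IsPGroup.of_card (G := zpowers x) (p := r) (n := 1)
    (by rw [Nat.card_zpowers, hx, pow_one])).exists_le_sylow
  haveI := h R
  have hMR : M ≤ R := hMp.le_sylow_of_normal R
  obtain ⟨m, hm⟩ := exists_prime_orderOf_dvd_card' (G := M) r (by
    obtain ⟨k, hk⟩ := hMp.exists_card_eq
    rw [hk]
    refine dvd_pow_self r ?_
    rintro rfl
    exact hM1 (eq_bot_of_card_eq _ (by rw [hk, pow_zero])))
  have hm' : orderOf (m : X) = r := by rw [orderOf_coe, hm]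
  have h1 : zpowers (⟨x, hR (mem_zpowers x)⟩ : (R : Subgroup X)) = zpowers ⟨m, hMR m.2⟩ := by
    refine le_antisymm (le_of_card_dvd_of_cyclic ?_) (le_of_card_dvd_of_cyclic ?_) <;>
      rw [Nat.card_zpowers, Nat.card_zpowers, orderOf_mk, orderOf_mk, hx, hm']
  obtain ⟨i, hi⟩ := mem_zpowers_iff.1 (h1.le (mem_zpowers _))
  have := congrArg Subtype.val hi
  simp only [SubgroupClass.coe_zpow] at this
  rw [← this]
  exact zpow_mem m.2 i

/-- A subgroup of order divisible by `r` contains a normal subgroup of order `r` containing all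
elements of that order. -/
theorem le_of_forall_order (M : Subgroup X) {r : ℕ} [Fact r.Prime] (hM : Nat.card M = r)
    (hall : ∀ x : X, orderOf x = r → x ∈ M) (A : Subgroup X) (hA : r ∣ Nat.card A) : M ≤ A := by
  obtain ⟨a, ha⟩ := exists_prime_orderOf_dvd_card' r hA
  have ha' : orderOf (a : X) = r := by rw [orderOf_coe, ha]
  have := eq_of_le_of_card_ge (zpowers_le.2 (hall _ ha')) (by rw [Nat.card_zpowers, ha', hM])
  rw [← this]
  exact zpowers_le.2 a.2

theorem card_quotient_lt (M : Subgroup X) [M.Normal] (hM1 : M ≠ ⊥) : Nat.card (X ⧸ M) < Nat.card X := by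
  rw [← M.index_eq_card, ← M.index_mul_card]
  have h1 : 0 < M.index := Nat.pos_of_ne_zero index_ne_zero_of_finite
  have h2 := M.one_lt_card_iff_ne_bot.2 hM1
  nlinarith

universe u

theorem allConj_small : ∀ (n : ℕ) (X : Type u) [Group X] [Finite X], Nat.card X ≤ n →
    Group.IsSolvable X → SmallHyp X → AllConj X := by
  intro n
  induction n with
  | zero => intro X _ _ h; exact absurd h (by simp [Nat.card_pos.ne'])
  | succ n ih =>
    intro X _ _ hn hsol hyp A B hcard
    haveI := hsol
    by_cases htriv : Nat.card X = 1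
    · haveI : Subsingleton X := (Nat.card_eq_one_iff_unique.1 htriv).1
      exact ⟨1, Subgroup.ext fun x => by simp [Subsingleton.elim x 1, one_mem]⟩
    haveI : Nontrivial X := Finite.one_lt_card_iff_nontrivial.1 (by have := Nat.card_pos (α := X); omega)
    obtain ⟨M, hMn, hM1, hMmin⟩ := Cfsg.Agent.MinNormal.exists_minimal_normal (G := X)
    haveI := hMn
    obtain ⟨hMc, r, hr, hMexp, hMp⟩ := Cfsg.Agent.MinNormal.elementary_abelian M hM1 hMmin
    haveI := Fact.mk hr
    have ihQ : SmallHyp (X ⧸ M) → AllConj (X ⧸ M) := fun h =>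
      ih _ (by have := card_quotient_lt M hM1; omega) inferInstance h
    -- the quotient
    have hquot : SmallHyp (X ⧸ M) := by
      by_cases hr2 : r = 2
      swap
      · refine hyp.quotient_odd M fun h2 => hr2 ?_
        obtain ⟨k, hk⟩ := hMp.exists_card_eq
        rw [hk] at h2
        exact ((Nat.prime_dvd_prime_iff_eq Nat.prime_two hr).1 (Nat.prime_two.dvd_of_dvd_pow h2)).symm
      subst hr2
      rcases hyp with h | h | h
      · exact Or.inl fun s hs T => by haveI := Fact.mk hs; exact sylow_cyclic_map M (h s hs) T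
      · -- four-groups
        refine Or.inl fun s hs T => ?_
        haveI := Fact.mk hs
        by_cases hs2 : s = 2
        swap
        · exact sylow_cyclic_map M (h.1 s hs hs2) T
        subst hs2
        obtain ⟨m, hm1, hm⟩ : ∃ m ∈ M, m ≠ (1 : X) := M.bot_or_exists_ne_one.resolve_left hM1
        have hidx : ¬ 2 ∣ M.index := by
          let R : Sylow 2 X := default
          refine fun hd => R.not_dvd_index (hd.trans (index_dvd_of_le fun x hx => ?_))
          by_cases hx1 : x = 1
          · rw [hx1]; exact one_mem _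
          obtain ⟨g, hg⟩ := h.2.2 m x (orderOf_eq_prime (hMexp m hm1) hm)
            (orderOf_eq_prime ((h.2.1 R).2 x hx) hx1)
          rw [← hg]
          exact hMn.conj_mem m hm1 g
        have : Subsingleton (T : Subgroup (X ⧸ M)) := by
          obtain ⟨k, hk⟩ := T.2.exists_card_eq
          have h1 : 2 ^ k ∣ M.index := hk ▸ M.index_eq_card ▸ card_subgroup_dvd_card _
          rcases k with _ | k
          · exact (Nat.card_eq_one_iff_unique.1 (by rw [hk, pow_zero])).1
          · exact absurd ((dvd_pow_self 2 k.succ_ne_zero).trans h1) hidx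
        exact isCyclic_of_subsingleton
      · -- quaternion groups
        have hM2 : Nat.card M = 2 := by
          obtain ⟨m, hm⟩ := exists_prime_orderOf_dvd_card' (G := M) 2 (by
            obtain ⟨k, hk⟩ := hMp.exists_card_eq
            rw [hk]
            refine dvd_pow_self 2 ?_
            rintro rfl
            exact hM1 (eq_bot_of_card_eq _ (by rw [hk, pow_zero])))
          let R : Sylow 2 X := default
          have hMR : M ≤ R := hMp.le_sylow_of_normal R
          have : M = zpowers (m : X) := by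
            refine le_antisymm (fun y hy => ?_) (zpowers_le.2 m.2)
            by_cases hy1 : y = 1
            · rw [hy1]; exact one_mem _
            rw [(h.2.1 R).2.2 y (hMR hy) m (hMR m.2) (orderOf_eq_prime (hMexp y hy) hy1)
              (by rw [orderOf_coe, hm])]
            exact mem_zpowers _
          rw [this, Nat.card_zpowers, orderOf_coe, hm]
        have hall : ∀ x : X, orderOf x = 2 → x ∈ M := by
          intro x hx
          obtain ⟨R, hR⟩ := (IsPGroup.of_card (G := zpowers x) (p := 2) (n := 1)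
            (by rw [Nat.card_zpowers, hx, pow_one])).exists_le_sylow
          obtain ⟨m, hm⟩ := exists_prime_orderOf_dvd_card' (G := M) 2 (by rw [hM2])
          rw [(h.2.1 R).2.2 x (hR (mem_zpowers x)) m ((hMp.le_sylow_of_normal R) m.2) hx
            (by rw [orderOf_coe, hm])]
          exact m.2
        refine Or.inr (Or.inl ⟨h.1.quotient M, fun T => ?_, fun x y hx hy => ?_⟩)
        · let R₀ : Sylow 2 X := default
          obtain ⟨x, hx⟩ := MulAction.exists_smul_eq (X ⧸ M) (R₀.mapSurjective (QuotientGroup.mk'_surjective M)) T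
          obtain ⟨g, rfl⟩ := QuotientGroup.mk'_surjective M x
          have hT : ((g • R₀ : Sylow 2 X) : Subgroup X).map (QuotientGroup.mk' M) = T := by
            rw [← hx, Sylow.coe_subgroup_smul, Sylow.coe_subgroup_smul, Sylow.coe_mapSurjective,
              pointwise_smul_def, pointwise_smul_def]
            exact map_conj_map _ g _
          set R := g • R₀
          constructor
          · rw [← hT, ← relIndex_ker, QuotientGroup.ker_mk']
            have h1 := (M.subgroupOf (R : Subgroup X)).index_mul_card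
            rw [Nat.card_congr (subgroupOfEquivOfLe (hMp.le_sylow_of_normal R)).toEquiv, hM2,
              (h.2.1 R).1] at h1
            show (M.subgroupOf (R : Subgroup X)).index = 4
            omega
          · rw [← hT]
            rintro _ ⟨y, hy, rfl⟩
            rw [← map_pow, QuotientGroup.mk'_apply, QuotientGroup.eq_one_iff]
            by_cases hy2 : y ^ 2 = 1
            · rw [hy2]; exact one_mem _
            · exact hall _ (orderOf_eq_prime (by rw [← pow_mul]; exact (h.2.1 R).2.1 y hy) hy2)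
        · have key : ∀ z : X ⧸ M, orderOf z = 2 → ∃ a : X, (a : X ⧸ M) = z ∧ orderOf a = 4 := by
            intro z hz
            obtain ⟨a, rfl⟩ := QuotientGroup.mk'_surjective M z
            refine ⟨a, rfl, orderOf_eq_prime_pow (p := 2) (n := 1) ?_ ?_⟩
            · rw [pow_one]
              intro h2
              have hane : a ∉ M := fun ha => by
                rw [show QuotientGroup.mk' M a = 1 from (QuotientGroup.eq_one_iff a).2 ha,
                  orderOf_one] at hz
                omega
              exact hane (hall a (orderOf_eq_prime h2 fun h1 => hane (h1 ▸ one_mem M)))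
            · have ha2 : a ^ 2 ∈ M := by
                rw [← QuotientGroup.eq_one_iff, QuotientGroup.mk_pow, ← hz]
                exact pow_orderOf_eq_one _
              rw [show (2 : ℕ) ^ (1 + 1) = 2 * 2 from rfl, pow_mul]
              exact hMexp _ ha2
          obtain ⟨a, rfl, ha⟩ := key x hx
          obtain ⟨b, rfl, hb⟩ := key y hy
          obtain ⟨g, hg⟩ := h.2.2 a b ha hb
          obtain ⟨i, hi⟩ := mem_zpowers_iff.1 hg
          refine ⟨g, ?_⟩
          have h1 : ((g : X ⧸ M) * a * (g : X ⧸ M)⁻¹) ^ i = (b : X ⧸ M) := by rw [← hi]; simp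
          have h2 : orderOf ((g : X ⧸ M) * a * (g : X ⧸ M)⁻¹) = 2 := by
            rw [show (g : X ⧸ M) * a * (g : X ⧸ M)⁻¹ = MulAut.conj (g : X ⧸ M) (a : X ⧸ M) from rfl,
              MulEquiv.orderOf_eq]
            exact hx
          rw [← zpow_mod_orderOf, h2] at h1
          rcases Int.emod_two_eq_zero_or_one i with h0 | h0
          · rw [show ((2 : ℕ) : ℤ) = 2 from rfl, h0, zpow_zero] at h1
            rw [← h1, orderOf_one] at hy
            omega
          · rwa [show ((2 : ℕ) : ℤ) = 2 from rfl, h0, zpow_one] at h1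
    have hQ := ihQ hquot
    by_cases hrA : r ∣ Nat.card A
    swap
    · -- coprime case
      have hbot : ∀ C : Subgroup X, ¬ r ∣ Nat.card C → C ⊓ M = ⊥ := by
        intro C hC
        obtain ⟨k, hk⟩ := (hMp.to_le (inf_le_right : C ⊓ M ≤ M)).exists_card_eq
        rcases k with _ | k
        · exact eq_bot_of_card_eq _ (by rw [hk, pow_zero])
        · exact absurd ((dvd_pow_self r k.succ_ne_zero).trans (hk ▸ card_dvd_of_le inf_le_left)) hC
      refine glue M ⊥ A B (hbot A hrA) (hbot B (hcard ▸ hrA)) hcard ?_ ?_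
      · obtain ⟨k, hk⟩ := hMp.exists_card_eq
        rw [hk]
        exact ((hr.coprime_iff_not_dvd.2 fun hd => hrA (hd.trans (relIndex_dvd_card M A))).pow_left k)
      · rw [show (normalizer ((⊥ : Subgroup X) : Set X)) = ⊤ from normalizer_eq_top _,
          map_top_of_surjective _ (QuotientGroup.mk'_surjective M)]
        intro A' B' h'
        obtain ⟨g, hg⟩ := hQ (A'.map (⊤ : Subgroup (X ⧸ M)).subtype) (B'.map (⊤ : Subgroup (X ⧸ M)).subtype)
          (by rw [card_map_of_injective (Subgroup.subtype_injective _),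
            card_map_of_injective (Subgroup.subtype_injective _), h'])
        refine ⟨⟨g, mem_top g⟩, map_injective (Subgroup.subtype_injective _) ?_⟩
        rw [hg, map_conj_map]; rfl
    by_cases hex : ∀ x : X, orderOf x = r → x ∈ M
    swap
    · exfalso
      apply hex
      intro x hx
      by_cases hr2 : r = 2
      swap
      · exact mem_of_orderOf_eq_of_cyclic M hM1 hMp (hyp.oddCyclic r hr hr2) x hx
      subst hr2
      rcases hyp with h | h | h
      · exact mem_of_orderOf_eq_of_cyclic M hM1 hMp (h 2 hr) x hx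
      · obtain ⟨m, hm1, hm⟩ : ∃ m ∈ M, m ≠ (1 : X) := M.bot_or_exists_ne_one.resolve_left hM1
        obtain ⟨g, hg⟩ := h.2.2 m x (orderOf_eq_prime (hMexp m hm1) hm) hx
        rw [← hg]
        exact hMn.conj_mem m hm1 g
      · obtain ⟨R, hR⟩ := (IsPGroup.of_card (G := zpowers x) (p := 2) (n := 1)
          (by rw [Nat.card_zpowers, hx, pow_one])).exists_le_sylow
        obtain ⟨m, hm1, hm⟩ : ∃ m ∈ M, m ≠ (1 : X) := M.bot_or_exists_ne_one.resolve_left hM1
        rw [(h.2.1 R).2.2 x (hR (mem_zpowers x)) m ((hMp.le_sylow_of_normal R) hm1) hx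
          (orderOf_eq_prime (hMexp m hm1) hm)]
        exact hm1
    by_cases hMr : Nat.card M = r
    · exact conj_of_ge M hQ A B (le_of_forall_order M hMr hex A hrA)
        (le_of_forall_order M hMr hex B (hcard ▸ hrA)) hcard
    -- only the four-group case is left
    have hfour : r = 2 ∧ FourHyp X := by
      have hcyc : (∀ R : Sylow r X, IsCyclic (R : Subgroup X)) → False := by
        intro h
        let R : Sylow r X := default
        haveI := h R
        haveI : IsCyclic M := isCyclic_of_injective (Subgroup.inclusion (hMp.le_sylow_of_normal R))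
          (inclusion_injective _)
        obtain ⟨x, hx⟩ := IsCyclic.exists_generator (α := M)
        apply hMr
        rw [← orderOf_eq_card_of_forall_mem_zpowers hx]
        refine orderOf_eq_prime (Subtype.ext (hMexp x x.2)) fun h1 => ?_
        apply hM1
        rw [eq_bot_iff_forall]
        intro y hy
        have := hx ⟨y, hy⟩
        rw [h1, zpowers_one_eq_bot, mem_bot] at this
        exact congrArg Subtype.val this
      by_cases hr2 : r = 2
      swap
      · exact (hcyc (hyp.oddCyclic r hr hr2)).elim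
      subst hr2
      rcases hyp with h | h | h
      · exact (hcyc (h 2 hr)).elim
      · exact ⟨rfl, h⟩
      · exfalso
        let R : Sylow 2 X := default
        have hMR : M ≤ R := hMp.le_sylow_of_normal R
        obtain ⟨m, hm1, hm⟩ : ∃ m ∈ M, m ≠ (1 : X) := M.bot_or_exists_ne_one.resolve_left hM1
        apply hMr
        have : M = zpowers m := by
          refine le_antisymm (fun y hy => ?_) (zpowers_le.2 hm1)
          by_cases hy1 : y = 1
          · rw [hy1]; exact one_mem _
          rw [(h.2.1 R).2.2 y (hMR hy) m (hMR hm1) (orderOf_eq_prime (hMexp y hy) hy1)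
            (orderOf_eq_prime (hMexp m hm1) hm)]
          exact mem_zpowers _
        rw [this, Nat.card_zpowers, orderOf_eq_prime (hMexp m hm1) hm]
    obtain ⟨rfl, h⟩ := hfour
    let R : Sylow 2 X := default
    have hMR : M = R := by
      refine le_antisymm (hMp.le_sylow_of_normal R) fun x hx => ?_
      by_cases hx1 : x = 1
      · rw [hx1]; exact one_mem _
      exact hex x (orderOf_eq_prime ((h.2.1 R).2 x hx) hx1)
    have hM4 : Nat.card M = 4 := hMR ▸ (h.2.1 R).1
    have hidx : ¬ 2 ∣ M.index := hMR ▸ R.not_dvd_index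
    have hcop : ∀ C : Subgroup X, (Nat.card M).Coprime (M.relIndex C) := fun C => by
      rw [hM4]
      exact ((Nat.prime_two.coprime_iff_not_dvd.2 hidx).coprime_dvd_right
        (relIndex_dvd_index_of_normal M C)).pow_left 2
    have hsplit : ∀ C : Subgroup X, Nat.card C = Nat.card ↥(C ⊓ M) * M.relIndex C := fun C => by
      rw [← inf_relIndex_right M C, inf_comm M C]
      calc Nat.card C = Nat.card ((C ⊓ M).subgroupOf C) * ((C ⊓ M).subgroupOf C).index :=
            (card_mul_index _).symm
        _ = _ := by rw [Nat.card_congr (subgroupOfEquivOfLe inf_le_left).toEquiv]; rfl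
    have hWcard : Nat.card ↥(A ⊓ M) = Nat.card ↥(B ⊓ M) := by
      have e := (hsplit A).symm.trans (hcard.trans (hsplit B))
      have cop : ∀ C D : Subgroup X, (Nat.card ↥(C ⊓ M)).Coprime (M.relIndex D) := fun C D =>
        (hcop D).coprime_dvd_left (card_dvd_of_le inf_le_right)
      exact Nat.dvd_antisymm ((cop A B).dvd_of_dvd_mul_right (e ▸ dvd_mul_right _ _))
        ((cop B A).dvd_of_dvd_mul_right (e.symm ▸ dvd_mul_right _ _))
    have h2W : 2 ∣ Nat.card ↥(A ⊓ M) :=
      ((Nat.prime_two.coprime_iff_not_dvd.2 fun hd => hidx (hd.trans (relIndex_dvd_index_of_normal M A))).dvd_of_dvd_mul_right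
        (hsplit A ▸ hrA))
    obtain ⟨k, -, hk⟩ := (Nat.dvd_prime_pow Nat.prime_two).1
      (show Nat.card ↥(A ⊓ M) ∣ 2 ^ 2 from (card_dvd_of_le inf_le_right).trans (by rw [hM4]; rfl))
    rcases k with _ | _ | _ | k
    · rw [hk] at h2W; omega
    · -- order two
      obtain ⟨a, ha⟩ := exists_prime_orderOf_dvd_card' 2 h2W
      obtain ⟨b, hb⟩ := exists_prime_orderOf_dvd_card' 2 (hWcard ▸ h2W)
      obtain ⟨g, hg⟩ := h.2.2 a b (by rw [orderOf_coe, ha]) (by rw [orderOf_coe, hb])
      have hW : B ⊓ M = (A ⊓ M).map (MulAut.conj g).toMonoidHom := by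
        refine (eq_of_le_of_card_ge ?_ ?_).symm
        · have hA2 : A ⊓ M = zpowers (a : X) := (eq_of_le_of_card_ge (zpowers_le.2 a.2)
            (by rw [Nat.card_zpowers, orderOf_coe, ha, hk]; rfl)).symm
          rw [hA2, MonoidHom.map_zpowers, zpowers_le]
          show g * a * g⁻¹ ∈ B ⊓ M
          rw [hg]; exact b.2
        · rw [card_map_conj, hWcard]
      set A₁ := A.map (MulAut.conj g).toMonoidHom with hA₁
      have hA₁W : A₁ ⊓ M = B ⊓ M := by
        rw [hW, map_inf _ _ _ (MulAut.conj g).injective,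
          map_conj_eq_of_mem_normalizer (W := M) (by rw [normalizer_eq_top]; exact mem_top g)]
      obtain ⟨x, hx⟩ := glue M (B ⊓ M) A₁ B hA₁W rfl ((card_map_conj A g).trans hcard) (hcop A₁) (by
        refine ih _ ?_ inferInstance ?_
        · have := Nat.le_of_dvd Nat.card_pos (card_subgroup_dvd_card
            ((normalizer ((B ⊓ M : Subgroup X) : Set X)).map (QuotientGroup.mk' M)))
          have := card_quotient_lt M hM1
          omega
        · refine Or.inl fun s hs T => ?_
          haveI := Fact.mk hs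
          refine sylow_cyclic_subgroup _ (fun T' => ?_) T
          by_cases hs2 : s = 2
          swap
          · exact sylow_cyclic_map M (h.1 s hs hs2) T'
          subst hs2
          obtain ⟨j, hj⟩ := T'.2.exists_card_eq
          rcases j with _ | j
          · haveI := (Nat.card_eq_one_iff_unique.1 (hj.trans (pow_zero 2))).1
            exact isCyclic_of_subsingleton
          · exact absurd ((dvd_pow_self 2 j.succ_ne_zero).trans (hj ▸ M.index_eq_card ▸ card_subgroup_dvd_card _)) hidx)
      exact ⟨x * g, by rw [hx, hA₁, map_conj_mul]⟩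
    · exact conj_of_ge M hQ A B
        ((eq_of_le_of_card_ge inf_le_right (by rw [hk, hM4]; rfl)).symm.le.trans inf_le_left)
        ((eq_of_le_of_card_ge inf_le_right (by rw [← hWcard, hk, hM4]; rfl)).symm.le.trans inf_le_left)
        hcard
    · have := card_dvd_of_le (inf_le_right : A ⊓ M ≤ M)
      rw [hk, hM4] at this
      have := Nat.le_of_dvd (by norm_num) this
      have : 2 ^ 3 ≤ 2 ^ (k + 1 + 1 + 1) := Nat.pow_le_pow_right (by norm_num) (by omega)
      omega

end Cfsg.Agent.H73
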