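import Mathlib
import Cfsg.Agent.H73.BGroup

/-! A module for a quaternion group of order eight on which a normalising group is transitive on
points has no proper nontrivial invariant subgroup. -/

set_option autoImplicit false
set_option linter.style.haveILetI false

namespace Cfsg.Agent.H73

open Subgroup

/-- Two automorphisms generating a quaternion action on an elementary abelian group, transitive in
the sense of `htr`, leave no proper nontrivial subgroup invariant. -/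
theorem quat_false {V : Type*} [CommGroup V] [Finite V] {q : ℕ} [hq : Fact q.Prime] (hq2 : q ≠ 2)
    (hexp : ∀ v : V, v ^ q = 1) (A B : V →* V) (hA : ∀ v, A (A v) = v⁻¹) (hB : ∀ v, B (B v) = v⁻¹)
    (hAB : ∀ v, A (B v) = (B (A v))⁻¹)
    (htr : ∀ v w : V, v ≠ 1 → w ≠ 1 → ∀ U : Subgroup V, v ∈ U → (∀ u ∈ U, A u ∈ U) → (∀ u ∈ U, B u ∈ U) →
      ∃ U' : Subgroup V, w ∈ U' ∧ (∀ u ∈ U', A u ∈ U') ∧ (∀ u ∈ U', B u ∈ U') ∧ Nat.card U' ≤ Nat.card U)
    (W : Subgroup V) (hW1 : W ≠ ⊥) (hWt : W ≠ ⊤) (hWA : ∀ u ∈ W, A u ∈ W) (hWB : ∀ u ∈ W, B u ∈ W) :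
    False := by
  classical
  have hqp : q.Prime := hq.out
  have hord : ∀ v : V, v ≠ 1 → orderOf v = q := fun v hv => orderOf_eq_prime (hexp v) hv
  have hsq : ∀ v : V, v * v = 1 → v = 1 := by
    intro v hv
    by_contra h
    have h1 : orderOf v ∣ 2 := orderOf_dvd_of_pow_eq_one (by rw [pow_two, hv])
    rw [hord v h] at h1
    exact hq2 ((Nat.prime_dvd_prime_iff_eq hqp Nat.prime_two).1 h1)
  have hp : IsPGroup q V := fun v => ⟨1, by rw [pow_one, hexp]⟩
  -- a square root of one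
  obtain ⟨x, y, hxy⟩ : ∃ x y : ℕ, q ∣ x * x + y * y + 1 := by
    obtain ⟨a, b, hab⟩ := ZMod.sq_add_sq q (-1)
    refine ⟨a.val, b.val, ?_⟩
    rw [← CharP.cast_eq_zero_iff (ZMod q) q]
    push_cast
    rw [ZMod.natCast_zmod_val, ZMod.natCast_zmod_val, ← pow_two, ← pow_two, hab, neg_add_cancel]
  have hinv : ∀ v : V, v ^ (x * x) * v ^ (y * y) = v⁻¹ := by
    intro v
    obtain ⟨k, hk⟩ := hxy
    apply eq_inv_of_mul_eq_one_left
    rw [← pow_add, ← pow_succ, hk, pow_mul, hexp, one_pow]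
  set c : V →* V :=
    { toFun := fun v => A v ^ x * B v ^ y
      map_one' := by simp
      map_mul' := fun u v => by simp only [map_mul, mul_pow, mul_mul_mul_comm] } with hc
  set d : V →* V := A.comp B with hd
  have hcv : ∀ v, c v = A v ^ x * B v ^ y := fun _ => rfl
  have hdv : ∀ v, d v = A (B v) := fun _ => rfl
  have hBA : ∀ v, B (A v) = (A (B v))⁻¹ := fun v => by rw [hAB, inv_inv]
  have hcc : ∀ v, c (c v) = v := by
    intro v
    simp only [hcv, map_mul, map_pow, hA, hB, hBA, mul_pow, inv_pow, ← pow_mul]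
    rw [mul_comm y x, show ∀ a b g : V, a * b * (b⁻¹ * g) = a * g from fun a b g => by simp [mul_assoc],
      ← mul_inv, hinv, inv_inv]
  have hdd : ∀ v, d (d v) = v⁻¹ := by
    intro v
    simp only [hdv, hBA, map_inv, hA, hB, inv_inv]
  have hcd : ∀ v, c (d v) = (d (c v))⁻¹ := by
    intro v
    simp only [hcv, hdv, map_mul, map_pow, map_inv, hA, hB, hBA, mul_pow, inv_pow, mul_inv, inv_inv]
  have hcdv : ∀ v, c (d v) = (B v ^ x)⁻¹ * A v ^ y := by
    intro v
    simp only [hcv, hdv, map_inv, hA, hB, hBA, inv_pow, inv_inv]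
  have hrecA : ∀ v, A v = (c v ^ x * c (d v) ^ y)⁻¹ := by
    intro v
    rw [hcdv, hcv, mul_pow, mul_pow, inv_pow, ← pow_mul, ← pow_mul, ← pow_mul, ← pow_mul, mul_comm y x,
      show ∀ a b g : V, a * b * (b⁻¹ * g) = a * g from fun a b g => by simp [mul_assoc], hinv, inv_inv]
  have hrecB : ∀ v, B v = (c v ^ y * (c (d v) ^ x)⁻¹)⁻¹ := by
    intro v
    rw [hcdv, hcv, mul_pow, mul_pow, inv_pow, mul_inv, inv_inv, ← pow_mul, ← pow_mul, ← pow_mul, ← pow_mul,
      mul_comm y x, mul_inv,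
      show ∀ a b g : V, b⁻¹ * a⁻¹ * (g⁻¹ * b) = (g * a)⁻¹ from fun a b g => by
        rw [mul_inv, mul_comm b⁻¹ a⁻¹, mul_assoc, mul_comm g⁻¹ b, inv_mul_cancel_left, mul_comm], hinv,
      inv_inv]
  have hinvcd : ∀ U : Subgroup V, (∀ u ∈ U, A u ∈ U) → (∀ u ∈ U, B u ∈ U) →
      (∀ u ∈ U, c u ∈ U) ∧ ∀ u ∈ U, d u ∈ U := fun U h1 h2 =>
    ⟨fun u hu => mul_mem (pow_mem (h1 u hu) x) (pow_mem (h2 u hu) y), fun u hu => h1 _ (h2 u hu)⟩
  -- a small invariant subgroup
  obtain ⟨e, he1, he⟩ : ∃ e : V, e ≠ 1 ∧ c e = e := by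
    obtain ⟨v, -, hv⟩ := W.bot_or_exists_ne_one.resolve_left hW1
    by_cases h : v * c v = 1
    · refine ⟨d v, fun h1 => hv ?_, ?_⟩
      · have := hdd v
        rw [h1, map_one] at this
        exact inv_eq_one.1 this.symm
      · rw [hcd, show c v = v⁻¹ from eq_inv_of_mul_eq_one_right h, map_inv, inv_inv]
    · exact ⟨v * c v, h, by rw [map_mul, hcc, mul_comm]⟩
  set U₀ := zpowers e ⊔ zpowers (d e) with hU₀
  have hU₀c : (∀ u ∈ U₀, A u ∈ U₀) ∧ ∀ u ∈ U₀, B u ∈ U₀ := by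
    have hc' : U₀.map c ≤ U₀ := by
      rw [hU₀, Subgroup.map_sup, MonoidHom.map_zpowers, MonoidHom.map_zpowers, he, hcd, he, zpowers_inv]
    have hd' : U₀.map d ≤ U₀ := by
      rw [hU₀, Subgroup.map_sup, MonoidHom.map_zpowers, MonoidHom.map_zpowers, hdd, zpowers_inv, sup_comm]
    have h1 : ∀ u ∈ U₀, c u ∈ U₀ := fun u hu => hc' ⟨u, hu, rfl⟩
    have h2 : ∀ u ∈ U₀, c (d u) ∈ U₀ := fun u hu => h1 _ (hd' ⟨u, hu, rfl⟩)
    exact ⟨fun u hu => by rw [hrecA]; exact inv_mem (mul_mem (pow_mem (h1 u hu) x) (pow_mem (h2 u hu) y)),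
      fun u hu => by
        rw [hrecB]; exact inv_mem (mul_mem (pow_mem (h1 u hu) y) (inv_mem (pow_mem (h2 u hu) x)))⟩
  have hU₀card : Nat.card U₀ ≤ q ^ 2 := by
    let f : zpowers e × zpowers (d e) → U₀ := fun p => ⟨(p.1 : V) * p.2,
      mul_mem (mem_sup_left p.1.2) (mem_sup_right p.2.2)⟩
    have hf : Function.Surjective f := by
      rintro ⟨u, hu⟩
      obtain ⟨u₁, h₁, u₂, h₂, h⟩ := mem_sup.1 hu
      exact ⟨(⟨u₁, h₁⟩, ⟨u₂, h₂⟩), Subtype.ext h⟩
    refine (Nat.card_le_card_of_surjective f hf).trans (le_of_eq ?_)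
    rw [Nat.card_prod, Nat.card_zpowers, Nat.card_zpowers, hord e he1, hord (d e) (fun h1 => he1 (by
      have := hdd e
      rw [h1, map_one] at this
      exact inv_eq_one.1 this.symm)), pow_two]
  -- the fixed points of `c`
  set E : Subgroup V :=
    { carrier := {v | c v = v}
      one_mem' := map_one c
      mul_mem' := fun {u v} hu hv => by
        show c (u * v) = u * v
        rw [map_mul, (hu : c u = u), (hv : c v = v)]
      inv_mem' := fun {u} hu => by
        show c u⁻¹ = u⁻¹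
        rw [map_inv, (hu : c u = u)] } with hE
  have hVle : Nat.card V ≤ q ^ 2 := by
    by_contra hlt
    push Not at hlt
    let f : E × E → V := fun p => (p.1 : V) * d p.2
    have hf : Function.Surjective f := by
      intro w
      obtain ⟨v, rfl⟩ : ∃ v, w = v * v := by
        refine ⟨w ^ ((q + 1) / 2), ?_⟩
        rw [← pow_add, show (q + 1) / 2 + (q + 1) / 2 = q + 1 by
          have := hqp.eq_two_or_odd.resolve_left hq2; omega, pow_succ, hexp, one_mul]
      have h1 : c (v * c v) = v * c v := by rw [map_mul, hcc, mul_comm]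
      have h2 : c (d (v * (c v)⁻¹))⁻¹ = (d (v * (c v)⁻¹))⁻¹ := by
        rw [map_inv, hcd, inv_inv, map_mul c, map_inv c, hcc, ← map_inv d, mul_inv, inv_inv, mul_comm (v⁻¹)]
      refine ⟨(⟨v * c v, h1⟩, ⟨(d (v * (c v)⁻¹))⁻¹, h2⟩), ?_⟩
      show v * c v * d (d (v * (c v)⁻¹))⁻¹ = v * v
      rw [map_inv, hdd, inv_inv, mul_mul_mul_comm, mul_inv_cancel, mul_one]
    have hEq : q < Nat.card E := by
      have h1 := Nat.card_le_card_of_surjective f hf
      rw [Nat.card_prod] at h1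
      by_contra h
      push Not at h
      have := Nat.mul_le_mul h h
      nlinarith
    have heE : e ∈ E := he
    obtain ⟨e₂, he₂, he₂n⟩ : ∃ u ∈ E, u ∉ zpowers e := SetLike.not_le_iff_exists.1 fun h => by
      have h1 := Nat.le_of_dvd Nat.card_pos (card_dvd_of_le h)
      rw [Nat.card_zpowers, hord e he1] at h1
      omega
    have he₂' : c e₂ = e₂ := he₂
    have hv : e * d e₂ ≠ 1 := by
      intro h
      apply he1
      have h1 : e = (d e₂)⁻¹ := eq_inv_of_mul_eq_one_left h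
      have h2 := congrArg c h1
      rw [he, map_inv, hcd, he₂', inv_inv] at h2
      exact hsq e (by nth_rw 1 [h1]; rw [h2, inv_mul_cancel])
    obtain ⟨U, hvU, hUA, hUB, hUc⟩ := htr e (e * d e₂) he1 hv U₀ (mem_sup_left (mem_zpowers e)) hU₀c.1 hU₀c.2
    have hUcd := hinvcd U hUA hUB
    have hee : e * e ∈ U := by
      have := mul_mem hvU (hUcd.1 _ hvU)
      rwa [map_mul, he, hcd, he₂', mul_mul_mul_comm, mul_inv_cancel, mul_one] at this
    have heU : e ∈ U := by
      have : e = (e * e) ^ ((q + 1) / 2) := by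
        rw [mul_pow, ← pow_add, show (q + 1) / 2 + (q + 1) / 2 = q + 1 by
          have := hqp.eq_two_or_odd.resolve_left hq2; omega, pow_succ, hexp, one_mul]
      rw [this]; exact pow_mem hee _
    have hde₂ : d e₂ ∈ U := by simpa using mul_mem (inv_mem heU) hvU
    have he₂U : e₂ ∈ U := by simpa [hdd] using inv_mem (hUcd.2 _ hde₂)
    -- `U ⊓ E` is all of `U`
    have hUE : U ⊓ E = U := by
      refine eq_of_le_of_card_ge inf_le_left ((hUc.trans hU₀card).trans ?_)
      obtain ⟨k, hk⟩ := (hp.to_subgroup (U ⊓ E)).exists_card_eq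
      have hlt' : zpowers e < U ⊓ E :=
        lt_of_le_of_ne (zpowers_le.2 ⟨heU, heE⟩) fun h => he₂n (h ▸ ⟨he₂U, he₂⟩)
      have hcl : Nat.card (zpowers e) < Nat.card ↥(U ⊓ E) := by
        refine lt_of_le_of_ne (Nat.le_of_dvd Nat.card_pos (card_dvd_of_le hlt'.le)) fun h => hlt'.ne ?_
        exact eq_of_le_of_card_ge hlt'.le h.ge
      rw [Nat.card_zpowers, hord e he1, hk] at hcl
      rw [hk]
      refine Nat.pow_le_pow_right hqp.pos ?_
      by_contra hk2
      have : q ^ k ≤ q ^ 1 := Nat.pow_le_pow_right hqp.pos (by omega)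
      rw [pow_one] at this
      omega
    have hdeE : c (d e) = d e := (hUE.ge (hUcd.2 e heU)).2
    rw [hcd, he] at hdeE
    apply he1
    have h3 : d e = 1 := hsq _ (by nth_rw 1 [← hdeE]; rw [inv_mul_cancel])
    have := hdd e
    rw [h3, map_one] at this
    exact inv_eq_one.1 this.symm
  -- the invariant line
  obtain ⟨k, hk⟩ := (hp.to_subgroup W).exists_card_eq
  have hk1 : k = 1 := by
    have h1 : Nat.card W < Nat.card V := by
      refine lt_of_le_of_ne (Nat.le_of_dvd Nat.card_pos (card_subgroup_dvd_card W)) fun h => hWt ?_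
      exact eq_top_of_card_eq W h
    have h2 := W.one_lt_card_iff_ne_bot.2 hW1
    rcases k with _ | _ | k
    · rw [hk, pow_zero] at h2; omega
    · rfl
    · exfalso
      have : q ^ 2 ≤ q ^ (k + 1 + 1) := Nat.pow_le_pow_right hqp.pos (by omega)
      omega
  subst hk1
  obtain ⟨u, hu, hu1⟩ := W.bot_or_exists_ne_one.resolve_left hW1
  have hWu : W = zpowers u := by
    refine (eq_of_le_of_card_ge (zpowers_le.2 hu) (le_of_eq ?_)).symm
    rw [hk, pow_one, Nat.card_zpowers, hord u hu1]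
  obtain ⟨i, hi⟩ := mem_zpowers_iff.1 (hWu ▸ hWA u hu)
  obtain ⟨j, hj⟩ := mem_zpowers_iff.1 (hWu ▸ hWB u hu)
  have h1 := hAB u
  rw [← hj, ← hi, map_zpow, map_zpow, ← hi, ← hj, ← zpow_mul, ← zpow_mul, mul_comm j i] at h1
  have h2 : u ^ (i * j) = 1 := hsq _ (by nth_rw 1 [h1]; rw [inv_mul_cancel])
  have h3 : A (B u) = 1 := by rw [← hj, map_zpow, ← hi, ← zpow_mul, h2]
  have h4 := hdd u
  rw [hdv, hdv, h3, map_one, map_one] at h4
  exact hu1 (inv_eq_one.1 h4.symm)

end Cfsg.Agent.H73
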