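import Mathlib
import Cfsg.Agent.H73.BGroup
import Cfsg.Agent.H73.AllConj
import Cfsg.Agent.H73.QuatModule
import Cfsg.Agent.S0041
import Cfsg.Agent.S3912
import Cfsg.Agent.Cores.Fitting
import Cfsg.Agent.PermB.IndexTwo

/-! The structure of a solvable group with conjugate equal-order abelian subgroups acting on a
minimal normal subgroup. -/

set_option autoImplicit false
set_option linter.style.haveILetI false
set_option linter.unusedSectionVars false

namespace Cfsg.Agent.H73

open Subgroup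
open scoped Pointwise

/-- An abelian group acting fixed-point-freely is cyclic. -/
theorem isCyclic_of_fpf_hom {N V : Type*} [Group N] [Finite N] [CommGroup V] [Finite V] [Nontrivial V]
    (hN : IsMulCommutative N) (φ : N →* MulAut V)
    (hfpf : ∀ n : N, n ≠ 1 → ∀ v : V, φ n v = v → v = 1) : IsCyclic N := by
  let Γ := V ⋊[φ] N
  haveI : Finite Γ := Finite.of_equiv _ SemidirectProduct.equivProd.symm
  set A : Subgroup Γ := (SemidirectProduct.inr : N →* Γ).range with hA
  set W : Subgroup Γ := (SemidirectProduct.inl : V →* Γ).range with hW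
  haveI : IsMulCommutative W := ⟨⟨by
    rintro ⟨_, a, rfl⟩ ⟨_, b, rfl⟩
    exact Subtype.ext (show SemidirectProduct.inl a * SemidirectProduct.inl b =
      SemidirectProduct.inl b * SemidirectProduct.inl a by rw [← map_mul, ← map_mul, mul_comm])⟩⟩
  have hW1 : W ≠ ⊥ := by
    obtain ⟨v, hv⟩ := exists_ne (1 : V)
    intro h
    have : (SemidirectProduct.inl v : Γ) ∈ W := ⟨v, rfl⟩
    rw [h, mem_bot] at this
    exact hv (SemidirectProduct.inl_injective (this.trans (map_one _).symm))
  have hAc : IsMulCommutative A := ⟨⟨by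
    rintro ⟨_, a, rfl⟩ ⟨_, b, rfl⟩
    exact Subtype.ext (show SemidirectProduct.inr a * SemidirectProduct.inr b =
      SemidirectProduct.inr b * SemidirectProduct.inr a by
        rw [← map_mul, ← map_mul]; exact congrArg _ (hN.is_comm.comm a b))⟩⟩
  haveI : W.Normal := by
    rw [hW, SemidirectProduct.range_inl_eq_ker_rightHom]; infer_instance
  have hcyc : IsCyclic A := Cfsg.Agent.S0041.result A W hW1
    (by rw [normalizer_eq_top]; exact le_top) (by
      rintro _ ⟨n, rfl⟩ hn
      rw [eq_bot_iff_forall]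
      rintro x ⟨⟨v, rfl⟩, hx⟩
      have h1 := hx (SemidirectProduct.inr n) rfl
      have h2 : φ n v = v := by
        apply SemidirectProduct.inl_injective (φ := φ)
        rw [SemidirectProduct.inl_aut, h1, map_inv, mul_inv_cancel_right]
      rw [hfpf n (fun h => hn (by rw [h, map_one])) v h2, map_one]) (Or.inl hAc)
  exact isCyclic_of_injective (MonoidHom.ofInjective (SemidirectProduct.inr_injective (φ := φ))).toMonoidHom
    (MulEquiv.injective _)

/-- Facts about the quaternion group of order eight. -/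
theorem q8_facts {G : Type*} [Group G] (S : Subgroup G) (e : S ≃* QuaternionGroup 2) :
    Nat.card S = 8 ∧ (∀ x ∈ S, x ^ 4 = 1) ∧
      (∀ x ∈ S, ∀ y ∈ S, orderOf x = 2 → orderOf y = 2 → x = y) ∧
      ∃ a b : G, a ∈ S ∧ b ∈ S ∧ orderOf a = 4 ∧ orderOf b = 4 ∧ a ^ 2 = b ^ 2 ∧
        a * b = a ^ 2 * (b * a) ∧ b ∉ zpowers a ∧
        (∀ H : Subgroup G, a ∈ H → b ∈ H → S ≤ H) ∧
        ∀ x ∈ S, x ^ 2 = 1 → x ∈ zpowers a := by
  have d1 : ∀ u : QuaternionGroup 2, u ^ 4 = 1 := by decide
  have d2 : ∀ u : QuaternionGroup 2, u ^ 2 = 1 → u = 1 ∨ u = (QuaternionGroup.a 1) ^ 2 := by decide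
  have d3 : ∀ u : QuaternionGroup 2, ∃ i : Fin 4, u = (QuaternionGroup.a 1) ^ (i : ℕ) ∨
      u = QuaternionGroup.xa 0 * (QuaternionGroup.a 1) ^ (i : ℕ) := by decide
  have d4 : ∀ i : Fin 4, (QuaternionGroup.a 1 : QuaternionGroup 2) ^ (i : ℕ) ≠ QuaternionGroup.xa 0 := by
    decide
  set a' : S := e.symm (QuaternionGroup.a 1) with ha'
  set b' : S := e.symm (QuaternionGroup.xa 0) with hb'
  have hx2 : ∀ x ∈ S, x ^ 2 = 1 → x = 1 ∨ x = (a' : G) ^ 2 := by
    intro x hx h
    rcases d2 (e ⟨x, hx⟩) (by rw [← map_pow, show (⟨x, hx⟩ : S) ^ 2 = 1 from Subtype.ext h, map_one]) with h' | h'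
    · left
      have := congrArg e.symm h'
      rw [e.symm_apply_apply, map_one] at this
      exact congrArg Subtype.val this
    · right
      have := congrArg e.symm h'
      rw [e.symm_apply_apply, map_pow] at this
      exact congrArg Subtype.val this
  have hord : ∀ u : QuaternionGroup 2, u ^ 2 ≠ 1 → orderOf ((e.symm u : S) : G) = 4 := by
    intro u hu
    rw [orderOf_coe, MulEquiv.orderOf_eq]
    exact orderOf_eq_prime_pow (p := 2) (n := 1) (by rwa [pow_one]) (d1 u)
  refine ⟨?_, fun x hx => ?_, fun x hx y hy hx' hy' => ?_, a', b', a'.2, b'.2, hord _ (by decide),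
    hord _ (by decide), ?_, ?_, ?_, ?_, fun x hx h => ?_⟩
  · rw [Nat.card_congr e.toEquiv, Nat.card_eq_fintype_card, QuaternionGroup.card]
  · have := congrArg e.symm (d1 (e ⟨x, hx⟩))
    rw [map_pow, e.symm_apply_apply, map_one] at this
    exact congrArg Subtype.val this
  · rcases hx2 x hx (by rw [← hx']; exact pow_orderOf_eq_one x) with h1 | h1
    · rw [h1, orderOf_one] at hx'; omega
    rcases hx2 y hy (by rw [← hy']; exact pow_orderOf_eq_one y) with h2 | h2
    · rw [h2, orderOf_one] at hy'; omega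
    rw [h1, h2]
  · have : a' ^ 2 = b' ^ 2 := by rw [ha', hb', ← map_pow, ← map_pow]; exact congrArg e.symm (by decide)
    exact congrArg Subtype.val this
  · have : a' * b' = a' ^ 2 * (b' * a') := by
      rw [ha', hb', ← map_pow, ← map_mul, ← map_mul, ← map_mul]
      exact congrArg e.symm (by decide)
    exact congrArg Subtype.val this
  · intro h
    haveI : Finite S := Finite.of_equiv _ e.symm.toEquiv
    have hb : b' ∈ zpowers a' := by
      obtain ⟨i, hi⟩ := mem_zpowers_iff.1 h
      exact ⟨i, Subtype.ext hi⟩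
    have h4 : orderOf a' = 4 := by rw [← orderOf_coe]; exact hord _ (by decide)
    obtain ⟨k, hk, hk'⟩ : ∃ k, k < 4 ∧ a' ^ k = b' := by
      obtain ⟨k, hk⟩ := mem_powers_iff_mem_zpowers.2 hb
      refine ⟨k % 4, Nat.mod_lt _ (by norm_num), ?_⟩
      rw [← h4, pow_mod_orderOf]; exact hk
    refine d4 ⟨k, hk⟩ ?_
    have := congrArg e hk'
    rwa [map_pow, ha', hb', e.apply_symm_apply, e.apply_symm_apply] at this
  · intro H haH hbH x hx
    obtain ⟨i, hi | hi⟩ := d3 (e ⟨x, hx⟩) <;> (
      have := congrArg e.symm hi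
      simp only [e.symm_apply_apply, map_mul, map_pow, ← ha', ← hb'] at this
      rw [show x = ((⟨x, hx⟩ : S) : G) from rfl, this]
      simp only [Subgroup.coe_mul, SubgroupClass.coe_pow])
    · exact pow_mem haH _
    · exact mul_mem hbH (pow_mem haH _)
  · rcases hx2 x hx h with h1 | h1 <;> rw [h1]
    · exact one_mem _
    · exact pow_mem (mem_zpowers _) 2

variable {G : Type*} [Group G] [Finite G]

/-- A proper subgroup of a quaternion group of order eight is cyclic. -/
theorem cyclic_of_le_q8 {H S : Subgroup G} (hHS : H ≤ S) (e : S ≃* QuaternionGroup 2) :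
    IsCyclic H ∨ H = S := by
  obtain ⟨h8, h4, huniq, -⟩ := q8_facts S e
  haveI : Fact (Nat.Prime 2) := ⟨Nat.prime_two⟩
  obtain ⟨k, hk, hkc⟩ := (Nat.dvd_prime_pow Nat.prime_two).1
    (show Nat.card H ∣ 2 ^ 3 by have := card_dvd_of_le hHS; rwa [h8] at this)
  rcases (show k = 0 ∨ k = 1 ∨ k = 2 ∨ k = 3 by omega) with rfl | rfl | rfl | rfl
  · left
    haveI := (Nat.card_eq_one_iff_unique.1 (hkc.trans (pow_zero 2))).1
    exact isCyclic_of_subsingleton
  · exact Or.inl (isCyclic_of_prime_card (p := 2) (hkc.trans (pow_one 2)))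
  · left
    by_cases hex : ∃ x ∈ H, x ^ 2 ≠ 1
    · obtain ⟨x, hx, hx2⟩ := hex
      refine isCyclic_of_orderOf_eq_card (⟨x, hx⟩ : H) ?_
      rw [orderOf_mk, hkc]
      exact orderOf_eq_prime_pow (p := 2) (n := 1) (by rwa [pow_one]) (h4 x (hHS hx))
    · exfalso
      push Not at hex
      obtain ⟨z, hz⟩ := exists_prime_orderOf_dvd_card' (G := H) 2 (by rw [hkc]; norm_num)
      have hle : H ≤ zpowers (z : G) := by
        intro x hx
        by_cases h1 : x = 1
        · rw [h1]; exact one_mem _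
        rw [huniq x (hHS hx) z (hHS z.2) (orderOf_eq_prime (hex x hx) h1) (by rw [orderOf_coe, hz])]
        exact mem_zpowers _
      have := card_dvd_of_le hle
      rw [Nat.card_zpowers, orderOf_coe, hz, hkc] at this
      norm_num at this
  · exact Or.inr (eq_of_le_of_card_ge hHS (by rw [hkc, h8]; rfl))

/-- Sylow subgroups are of exponent `p`, cyclic, or quaternion of order eight. -/
theorem sylow_cases (hB : AbelianConj G) (hsol : Group.IsSolvable G) {p : ℕ} [Fact p.Prime]
    (S : Sylow p G) :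
    (∀ x ∈ (S : Subgroup G), x ^ p = 1) ∨ IsCyclic (S : Subgroup G) ∨
      (p = 2 ∧ Nonempty ((S : Subgroup G) ≃* QuaternionGroup 2)) := by
  rcases Cfsg.Agent.S3908.main hB S with huniq | h
  swap
  · exact Or.inl h
  right
  rcases Cfsg.Agent.S0016.result p S.2 huniq with h | ⟨rfl, n, ⟨e⟩⟩
  · exact Or.inl h
  haveI : NeZero (2 ^ n) := ⟨by positivity⟩
  rcases n with _ | _ | n
  · left
    refine isCyclic_of_orderOf_eq_card (e.symm (QuaternionGroup.xa 0)) ?_
    rw [MulEquiv.orderOf_eq, QuaternionGroup.orderOf_xa, Nat.card_congr e.toEquiv,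
      Nat.card_eq_fintype_card, QuaternionGroup.card, pow_zero, mul_one]
  · exact Or.inr ⟨rfl, ⟨e⟩⟩
  · refine (quaternion_false hB hsol S (by omega) e fun x hx y hy hx2 hy2 => ?_).elim
    have h1 := huniq (zpowers (⟨x, hx⟩ : (S : Subgroup G))) (zpowers (⟨y, hy⟩ : (S : Subgroup G)))
      (by rw [Nat.card_zpowers, orderOf_mk, hx2]) (by rw [Nat.card_zpowers, orderOf_mk, hy2])
    obtain ⟨i, hi⟩ := mem_zpowers_iff.1 (h1.le (mem_zpowers _))
    have hi' : y ^ i = x := congrArg Subtype.val hi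
    rw [← zpow_mod_orderOf, hy2] at hi'
    rcases Int.emod_two_eq_zero_or_one i with h0 | h0
    · rw [show ((2 : ℕ) : ℤ) = 2 from rfl, h0, zpow_zero] at hi'
      rw [← hi', orderOf_one] at hx2
      omega
    · rw [show ((2 : ℕ) : ℤ) = 2 from rfl, h0, zpow_one] at hi'
      exact hi'.symm

/-- A normal subgroup contains an exponent `r` Sylow subgroup or meets it trivially. -/
theorem le_or_disjoint_of_exponent (hB : AbelianConj G) (N : Subgroup G) [N.Normal] {r : ℕ}
    [hr : Fact r.Prime] (S : Sylow r G) (hS : ∀ x ∈ (S : Subgroup G), x ^ r = 1) :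
    (S : Subgroup G) ≤ N ∨ ∀ x ∈ (S : Subgroup G), x ∈ N → x = 1 := by
  by_cases h : ∀ x ∈ (S : Subgroup G), x ∈ N → x = 1
  · exact Or.inr h
  push Not at h
  obtain ⟨x, hxS, hxN, hx1⟩ := h
  have hrN : r ∣ Nat.card N := (orderOf_eq_prime (hS x hxS) hx1) ▸ N.orderOf_dvd_natCard hxN
  exact Or.inl (sylow_le_of_not_dvd_index N S (not_dvd_index_of_exponent hB N hrN S hS))

/-- An element of order four forces all others into a normal subgroup. -/
theorem mem_of_orderOf_eq (hB : AbelianConj G) (N : Subgroup G) [hN : N.Normal] {x y : G}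
    (hx : x ∈ N) (h : orderOf x = orderOf y) : y ∈ N := by
  obtain ⟨g, hg⟩ := hB (zpowers x) (zpowers y) inferInstance inferInstance
    (by rw [Nat.card_zpowers, Nat.card_zpowers, h])
  obtain ⟨z, hz, hzy⟩ : y ∈ (zpowers x).map (MulAut.conj g).toMonoidHom := hg ▸ mem_zpowers y
  rw [← hzy]
  exact hN.conj_mem z ((zpowers_le.2 hx) hz) g

/-- Commutators centralise a cyclic normal subgroup. -/
theorem commutator_mem_centralizer (D : Subgroup G) [D.Normal] [IsCyclic D] (g x : G) :
    g * x * g⁻¹ * x⁻¹ ∈ centralizer (D : Set G) := by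
  have hcomm : ∀ φ ψ : MulAut D, φ * ψ = ψ * φ := by
    intro φ ψ
    obtain ⟨i, hi⟩ := MonoidHom.map_cyclic φ.toMonoidHom
    obtain ⟨j, hj⟩ := MonoidHom.map_cyclic ψ.toMonoidHom
    ext d
    show ((φ (ψ d) : D) : G) = (ψ (φ d) : D)
    rw [show φ (ψ d) = ψ d ^ i from hi _, show ψ d = d ^ j from hj _, show ψ (φ d) = φ d ^ j from hj _,
      show φ d = d ^ i from hi _, ← zpow_mul, ← zpow_mul, mul_comm]
  have h1 : MulAut.conjNormal (H := D) (g * x * g⁻¹ * x⁻¹) = 1 := by
    rw [map_mul, map_mul, map_mul, map_inv, map_inv, hcomm (MulAut.conjNormal g), mul_inv_cancel_right,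
      mul_inv_cancel]
  intro d hd
  have h2 := congrArg (fun f : MulAut D => (f ⟨d, hd⟩ : G)) h1
  simp only [MulAut.conjNormal_apply, MulAut.one_apply] at h2
  exact ((eq_mul_inv_iff_mul_eq).1 h2.symm).trans (by rfl)

/-- A subgroup of a cyclic normal subgroup is normal. -/
theorem normal_of_le_cyclic {C : Subgroup G} [C.Normal] [IsCyclic C] {H : Subgroup G} (h : H ≤ C) :
    H.Normal := by
  refine ⟨fun x hx g => ?_⟩
  obtain ⟨i, hi⟩ := MonoidHom.map_cyclic (MulAut.conjNormal (H := C) g).toMonoidHom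
  have h1 := congrArg (fun t : C => (t : G)) (hi ⟨x, h hx⟩)
  simp only [MulEquiv.coe_toMonoidHom, MulAut.conjNormal_apply, SubgroupClass.coe_zpow] at h1
  rw [h1]
  exact zpow_mem hx i

section Faithful

variable (hB : AbelianConj G) (hsol : Group.IsSolvable G)
  (hab : ∀ N : Subgroup G, N.Normal → IsMulCommutative N → IsCyclic N)

include hB hab in
theorem core_exponent {r : ℕ} [Fact r.Prime] (S : Sylow r G) (hS : ∀ x ∈ (S : Subgroup G), x ^ r = 1) :
    Cfsg.pCore r G = ⊥ ∨ IsCyclic (S : Subgroup G) := by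
  by_cases hD : Cfsg.pCore r G = ⊥
  · exact Or.inl hD
  right
  set D := Cfsg.pCore r G with hDdef
  haveI : D.Characteristic := Cfsg.Agent.PSolv.pCore_characteristic r G
  have hle : (S : Subgroup G) ≤ D := by
    rcases le_or_disjoint_of_exponent hB D S hS with h | h
    · exact h
    · exfalso
      exact hD ((eq_bot_iff_forall D).2 fun x hx => h x (Cfsg.Agent.PSolv.pCore_le_sylow S hx) hx)
  have heq : (S : Subgroup G) = D := le_antisymm hle (Cfsg.Agent.PSolv.pCore_le_sylow S)
  haveI : Nontrivial (S : Subgroup G) := (nontrivial_iff_ne_bot _).2 (heq ▸ hD)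
  haveI hSn : (S : Subgroup G).Normal := heq ▸ inferInstance
  set Z := (center (S : Subgroup G)).map (S : Subgroup G).subtype with hZ
  haveI hZn : Z.Normal := ConjAct.normal_of_characteristic_of_normal
  haveI := S.2.center_nontrivial
  obtain ⟨z, hz⟩ := exists_ne (1 : center (S : Subgroup G))
  have hz1 : ((z : (S : Subgroup G)) : G) ≠ 1 := fun h => hz (Subtype.ext (Subtype.ext h))
  have hSZ : (S : Subgroup G) ≤ Z := by
    rcases le_or_disjoint_of_exponent hB Z S hS with h | h
    · exact h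
    · exact absurd (h _ (z : (S : Subgroup G)).2 ⟨z, z.2, rfl⟩) hz1
  refine hab _ hSn ⟨⟨fun a b => Subtype.ext ?_⟩⟩
  obtain ⟨a', ha', haa⟩ := hSZ a.2
  have := congrArg Subtype.val (mem_center_iff.1 ha' b)
  simp only [coe_mul, Subgroup.coe_subtype] at this haa ⊢
  rw [← haa]
  exact this.symm

include hB hsol hab in
theorem core_cases {s : ℕ} [Fact s.Prime] :
    IsCyclic ↥(Cfsg.pCore s G) ∨ (s = 2 ∧ Nonempty (↥(Cfsg.pCore s G) ≃* QuaternionGroup 2)) := by
  let S : Sylow s G := default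
  have hle : Cfsg.pCore s G ≤ S := Cfsg.Agent.PSolv.pCore_le_sylow S
  rcases sylow_cases hB hsol S with h | h | ⟨rfl, ⟨e⟩⟩
  · rcases core_exponent hB hab S h with h0 | h0
    · left; rw [h0]; exact isCyclic_of_subsingleton
    · left
      haveI := h0
      exact isCyclic_of_injective (Subgroup.inclusion hle) (inclusion_injective _)
  · left
    haveI := h
    exact isCyclic_of_injective (Subgroup.inclusion hle) (inclusion_injective _)
  · rcases cyclic_of_le_q8 hle e with h | h
    · exact Or.inl h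
    · exact Or.inr ⟨rfl, ⟨(MulEquiv.subgroupCongr h).trans e⟩⟩

include hsol hab in
theorem centralizer_fitting_cyclic :
    IsCyclic ↥(centralizer (Cfsg.fittingSubgroup G : Set G)) ∧
      (centralizer (Cfsg.fittingSubgroup G : Set G)).Normal := by
  haveI := hsol
  have hn : (centralizer (Cfsg.fittingSubgroup G : Set G)).Normal := inferInstance
  exact ⟨hab _ hn ⟨⟨fun x y => Subtype.ext
    (y.2 x (Cfsg.Agent.Cores.centralizer_fittingSubgroup_le x.2))⟩⟩, hn⟩

include hsol hab in
theorem mem_core_of_centralizes {p : ℕ} [Fact p.Prime] {x : G} (hx : IsPGroup p (zpowers x))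
    (h : ∀ s : ℕ, s.Prime → x ∈ centralizer (Cfsg.pCore s G : Set G)) : x ∈ Cfsg.pCore p G := by
  obtain ⟨hc, hn⟩ := centralizer_fitting_cyclic hsol hab
  haveI := hc
  haveI := hn
  have hxC : x ∈ centralizer (Cfsg.fittingSubgroup G : Set G) := by
    intro y hy
    have hle : Cfsg.fittingSubgroup G ≤ centralizer {x} := by
      rw [Cfsg.Agent.Cores.fittingSubgroup_eq_iSup_pCore]
      refine iSup_le fun q z hz => ?_
      intro w hw
      rw [Set.mem_singleton_iff.1 hw]
      exact ((h q q.2) z hz).symm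
    exact (hle hy x rfl).symm
  exact Cfsg.Agent.PSolv.le_pCore (normal_of_le_cyclic (zpowers_le.2 hxC)) hx (mem_zpowers x)

include hB hsol hab in
/-- Sylow subgroups of exponent `r` are cyclic. -/
theorem cyclic_of_exponent {r : ℕ} [hr : Fact r.Prime] (S : Sylow r G)
    (hS : ∀ x ∈ (S : Subgroup G), x ^ r = 1) : IsCyclic (S : Subgroup G) := by
  classical
  rcases core_exponent hB hab S hS with hD | h
  swap
  · exact h
  by_contra hnc
  have hp : ∀ x ∈ (S : Subgroup G), IsPGroup r (zpowers x) := fun x hx => S.2.to_le (zpowers_le.2 hx)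
  have hS1 : ∃ x ∈ (S : Subgroup G), x ≠ 1 := by
    refine (S : Subgroup G).bot_or_exists_ne_one.resolve_left fun h => hnc ?_
    rw [h]; exact isCyclic_of_subsingleton
  obtain ⟨s, hs, hns⟩ : ∃ s : ℕ, s.Prime ∧ ¬ (S : Subgroup G) ≤ centralizer (Cfsg.pCore s G : Set G) := by
    by_contra hcon
    push Not at hcon
    obtain ⟨x, hx, hx1⟩ := hS1
    have := mem_core_of_centralizes hsol hab (hp x hx) fun s hs => hcon s hs hx
    rw [hD, mem_bot] at this
    exact hx1 this
  haveI := Fact.mk hs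
  set D := Cfsg.pCore s G with hDdef
  haveI : D.Characteristic := Cfsg.Agent.PSolv.pCore_characteristic s G
  have hdisj : ∀ x ∈ (S : Subgroup G), x ∈ centralizer (D : Set G) → x = 1 :=
    (le_or_disjoint_of_exponent hB (centralizer (D : Set G)) S hS).resolve_left hns
  rcases core_cases hB hsol hab (s := s) with hc | ⟨rfl, ⟨e⟩⟩
  · -- all subgroups of order `r` of `S` coincide
    obtain ⟨x, hx, hx1⟩ := hS1
    haveI := hc
    have hle : (S : Subgroup G) ≤ zpowers x := by
      intro y hy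
      by_cases hy1 : y = 1
      · rw [hy1]; exact one_mem _
      obtain ⟨g, hg⟩ := hB (zpowers x) (zpowers y) inferInstance inferInstance
        (by rw [Nat.card_zpowers, Nat.card_zpowers, orderOf_eq_prime (hS x hx) hx1,
          orderOf_eq_prime (hS y hy) hy1])
      obtain ⟨w, hw, hwy⟩ : y ∈ (zpowers x).map (MulAut.conj g).toMonoidHom := hg ▸ mem_zpowers y
      have hwS : w ∈ (S : Subgroup G) := (zpowers_le.2 hx) hw
      have h1 : y * w⁻¹ ∈ centralizer (D : Set G) := by
        rw [← hwy]; exact commutator_mem_centralizer D g w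
      rw [mul_inv_eq_one.1 (hdisj _ (mul_mem hy (inv_mem hwS)) h1)]
      exact hw
    exact hnc (isCyclic_of_injective (Subgroup.inclusion hle) (inclusion_injective _))
  · -- the automorphism group of the quaternion group
    have hr2 : r ≠ 2 := by
      rintro rfl
      haveI : Subsingleton ↥(Cfsg.pCore 2 G) := by
        rw [hD]; infer_instance
      have := Nat.card_congr e.toEquiv
      rw [Nat.card_of_subsingleton (1 : ↥(Cfsg.pCore 2 G)), Nat.card_eq_fintype_card, QuaternionGroup.card] at this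
      omega
    let f : (S : Subgroup G) →* MulAut (QuaternionGroup 2) :=
      ((MulAut.congr e).toMonoidHom.comp (MulAut.conjNormal (H := D))).comp (S : Subgroup G).subtype
    have hf : Function.Injective f := by
      rw [injective_iff_map_eq_one]
      intro x hx
      refine Subtype.ext (hdisj x x.2 fun d hd => ?_)
      have h1 : MulAut.conjNormal (H := D) (x : G) = 1 :=
        (MulAut.congr e).injective (hx.trans (map_one _).symm)
      have h2 := congrArg (fun g : MulAut D => (g ⟨d, hd⟩ : G)) h1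
      simp only [MulAut.conjNormal_apply, MulAut.one_apply] at h2
      exact ((mul_inv_eq_iff_eq_mul).1 h2).symm
    obtain ⟨k, hk⟩ := S.2.exists_card_eq
    have h24 : r ^ k ∣ 24 :=
      (hk ▸ card_dvd_of_injective f hf).trans Cfsg.Agent.PermB.IndexTwo.card_mulAut_quaternion_dvd
    rcases (show k ≤ 1 ∨ 2 ≤ k by omega) with h | h
    · rcases (show k = 0 ∨ k = 1 by omega) with rfl | rfl
      · haveI := (Nat.card_eq_one_iff_unique.1 (hk.trans (pow_zero r))).1
        exact hnc isCyclic_of_subsingleton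
      · exact hnc (isCyclic_of_prime_card (p := r) (hk.trans (pow_one r)))
    · have h2 : r ^ 2 ∣ 24 := (pow_dvd_pow r h).trans h24
      have h3 : r * r ≤ 24 := by rw [← pow_two]; exact Nat.le_of_dvd (by norm_num) h2
      have : r ≤ 4 := by nlinarith
      interval_cases r <;> first | omega | (exact absurd hr.out (by norm_num)) | norm_num at h2

include hB hsol hab in
/-- A quaternion Sylow subgroup is normal. -/
theorem q8_normal (S : Sylow 2 G) (e : (S : Subgroup G) ≃* QuaternionGroup 2) :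
    (S : Subgroup G).Normal := by
  classical
  haveI : Fact (Nat.Prime 2) := ⟨Nat.prime_two⟩
  obtain ⟨-, h4, huniq, a, b, ha, hb, ha4, hb4, -, -, hba, hgen, hinv⟩ := q8_facts _ e
  set D := Cfsg.pCore 2 G with hD
  haveI hDn : D.Characteristic := Cfsg.Agent.PSolv.pCore_characteristic 2 G
  have hle : D ≤ S := Cfsg.Agent.PSolv.pCore_le_sylow S
  by_cases hex : ∃ x ∈ D, x ^ 2 ≠ 1
  · obtain ⟨x, hx, hx2⟩ := hex
    have hx4 : orderOf x = 4 :=
      orderOf_eq_prime_pow (p := 2) (n := 1) (by rwa [pow_one]) (h4 x (hle hx))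
    have := hgen D (mem_of_orderOf_eq hB D hx (hx4.trans ha4.symm))
      (mem_of_orderOf_eq hB D hx (hx4.trans hb4.symm))
    rw [le_antisymm this hle]
    infer_instance
  exfalso
  push Not at hex
  have hsmall : ∀ y ∈ (S : Subgroup G), y ∈ D → y ∈ zpowers a := fun y hy hyD => hinv y hy (hex y hyD)
  -- every core is cyclic
  have hcyc : ∀ s : ℕ, s.Prime → IsCyclic ↥(Cfsg.pCore s G) := by
    intro s hs
    haveI := Fact.mk hs
    rcases core_cases hB hsol hab (s := s) with h | ⟨rfl, ⟨e'⟩⟩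
    · exact h
    · exfalso
      have := hex _ (e'.symm (QuaternionGroup.a 1)).2
      have h1 : (e'.symm (QuaternionGroup.a 1)) ^ 2 = 1 := Subtype.ext this
      have h2 := congrArg e' h1
      rw [map_pow, e'.apply_symm_apply, map_one] at h2
      exact absurd h2 (by decide)
  obtain ⟨g, hg⟩ := hB (zpowers a) (zpowers b) inferInstance inferInstance
    (by rw [Nat.card_zpowers, Nat.card_zpowers, ha4, hb4])
  obtain ⟨w, hw, hwb⟩ : b ∈ (zpowers a).map (MulAut.conj g).toMonoidHom := hg ▸ mem_zpowers b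
  have hwS : w ∈ (S : Subgroup G) := (zpowers_le.2 ha) hw
  have hf : b * w⁻¹ ∈ D := by
    refine mem_core_of_centralizes hsol hab (S.2.to_le (zpowers_le.2 (mul_mem hb (inv_mem hwS)))) fun s hs => ?_
    haveI := hcyc s hs
    haveI : Fact s.Prime := ⟨hs⟩
    haveI : (Cfsg.pCore s G).Characteristic := Cfsg.Agent.PSolv.pCore_characteristic s G
    rw [← hwb]
    exact commutator_mem_centralizer _ g w
  apply hba
  have := mul_mem (hsmall _ (mul_mem hb (inv_mem hwS)) hf) hw
  rwa [inv_mul_cancel_right] at this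

end Faithful

section Action

variable (hB : AbelianConj G) (hsol : Group.IsSolvable G) (P : Subgroup G) [P.Normal]
  [IsMulCommutative P] {q : ℕ} [Fact q.Prime] (hP : ∀ v ∈ P, v ^ q = 1)

include hB hP in
theorem exists_conj_of_mem {v w : G} (hv : v ∈ P) (hv1 : v ≠ 1) (hw : w ∈ P) (hw1 : w ≠ 1) :
    ∃ g : G, g * v * g⁻¹ ∈ zpowers w ∧ w ∈ zpowers (g * v * g⁻¹) := by
  obtain ⟨g, hg⟩ := hB (zpowers v) (zpowers w) inferInstance inferInstance
    (by rw [Nat.card_zpowers, Nat.card_zpowers, orderOf_eq_prime (hP v hv) hv1,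
      orderOf_eq_prime (hP w hw) hw1])
  rw [MonoidHom.map_zpowers] at hg
  exact ⟨g, hg.symm ▸ mem_zpowers (g * v * g⁻¹), hg ▸ mem_zpowers w⟩

include hB hP in
/-- The abelian normal subgroups of the faithful quotient are cyclic. -/
theorem quotient_abelian_cyclic (hP1 : P ≠ ⊥) (N' : Subgroup (G ⧸ centralizer (P : Set G)))
    (hN' : N'.Normal) (hc : IsMulCommutative N') : IsCyclic N' := by
  classical
  letI : CommGroup P := { (inferInstance : Group P) with mul_comm := mul_comm' }
  haveI : Nontrivial P := (nontrivial_iff_ne_bot P).2 hP1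
  set C := centralizer (P : Set G) with hC
  let ψ : G →* MulAut P := MulAut.conjNormal
  have hψ : C ≤ ψ.ker := by
    intro x hx
    rw [MonoidHom.mem_ker]
    ext ⟨v, hv⟩
    show ((MulAut.conjNormal x ⟨v, hv⟩ : P) : G) = v
    rw [MulAut.conjNormal_apply]
    show x * v * x⁻¹ = v
    rw [← hx v hv, mul_inv_cancel_right]
  refine isCyclic_of_fpf_hom hc ((QuotientGroup.lift C ψ hψ).comp N'.subtype) fun n hn v hv => ?_
  obtain ⟨n₀, hn₀⟩ := QuotientGroup.mk'_surjective C (n : G ⧸ C)
  by_contra hv1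
  apply hn
  apply Subtype.ext
  rw [← hn₀]
  refine (QuotientGroup.eq_one_iff n₀).2 ?_
  set N := N'.comap (QuotientGroup.mk' C) with hNdef
  have hn₀N : n₀ ∈ N := by show QuotientGroup.mk' C n₀ ∈ N'; rw [hn₀]; exact n.2
  let K : G → Subgroup G := fun u => N ⊓ centralizer {u}
  have hmemK : ∀ (m u : G), m ∈ K u ↔ m ∈ N ∧ u * m = m * u := fun m u =>
    ⟨fun h => ⟨h.1, h.2 u rfl⟩, fun h => ⟨h.1, fun w hw => by
      rw [Set.mem_singleton_iff.1 hw]; exact h.2⟩⟩
  have hn₀v : n₀ ∈ K (v : G) := by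
    refine (hmemK _ _).2 ⟨hn₀N, ?_⟩
    have h1 : (MulAut.conjNormal n₀ v : P) = v := by
      have h0 : QuotientGroup.lift C ψ hψ (n : G ⧸ C) v = v := hv
      rw [← hn₀] at h0
      exact h0
    have h2 := congrArg (fun t : P => (t : G)) h1
    simp only [MulAut.conjNormal_apply] at h2
    exact ((mul_inv_eq_iff_eq_mul).1 h2).symm
  -- all the point stabilisers have the same order
  have hcard : ∀ u ∈ P, u ≠ 1 → Nat.card (K u) = Nat.card (K (v : G)) := by
    intro u hu hu1
    obtain ⟨g, hg1, hg2⟩ := exists_conj_of_mem hB P hP v.2 (fun h => hv1 (Subtype.ext h)) hu hu1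
    have hKz : ∀ a b : G, b ∈ zpowers a → K a ≤ K b := by
      intro a b hb m hm
      obtain ⟨i, rfl⟩ := mem_zpowers_iff.1 hb
      rw [hmemK] at hm ⊢
      exact ⟨hm.1, (show Commute a m from hm.2).zpow_left i⟩
    have heq : K u = (K (v : G)).map (MulAut.conj g).toMonoidHom := by
      rw [le_antisymm (hKz _ _ hg1) (hKz _ _ hg2)]
      ext m
      rw [mem_map_conj, hmemK, hmemK]
      constructor
      · rintro ⟨h1, h2⟩
        refine ⟨?_, ?_⟩
        · simpa [mul_assoc] using (inferInstance : N.Normal).conj_mem m h1 g⁻¹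
        · calc (v : G) * (g⁻¹ * m * g) = g⁻¹ * (g * v * g⁻¹ * m) * g := by group
            _ = g⁻¹ * (m * (g * v * g⁻¹)) * g := by rw [h2]
            _ = g⁻¹ * m * g * v := by group
      · rintro ⟨h1, h2⟩
        refine ⟨?_, ?_⟩
        · have := (inferInstance : N.Normal).conj_mem _ h1 g
          simpa [mul_assoc] using this
        · calc g * v * g⁻¹ * m = g * (v * (g⁻¹ * m * g)) * g⁻¹ := by group
            _ = g * (g⁻¹ * m * g * v) * g⁻¹ := by rw [h2]
            _ = m * (g * v * g⁻¹) := by group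
    rw [heq, card_map_conj]
  have hall : ∀ u ∈ P, u ≠ 1 → K u = K (v : G) := by
    intro u hu hu1
    by_cases hprod : u * v = 1
    · rw [eq_inv_of_mul_eq_one_left hprod]
      ext m
      rw [hmemK, hmemK]
      exact and_congr_right fun _ => Commute.inv_left_iff (a := (v : G)) (b := m)
    by_contra hne
    have hw : u * v ∈ P := mul_mem hu v.2
    have hsub : ∀ m ∈ K (u * v), m ∈ K u ∧ m ∈ K (v : G) := by
      intro m hm
      rw [hmemK] at hm
      have hP' : ∀ x ∈ P, ∀ y ∈ P, x * y = y * x := fun x hx y hy =>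
        congrArg Subtype.val (mul_comm (⟨x, hx⟩ : P) ⟨y, hy⟩)
      have hinvt : ∀ w ∈ P, ∀ k ∈ K w, k ∈ K (m * w * m⁻¹ * w⁻¹) := by
        intro w hw k hk
        rw [hmemK] at hk ⊢
        refine ⟨hk.1, ?_⟩
        have hc' : (m⁻¹ * k * m) * k⁻¹ ∈ C := by
          rw [← QuotientGroup.eq_one_iff]
          have h1 : (⟨_, hm.1⟩ : N') * ⟨_, hk.1⟩ = ⟨_, hk.1⟩ * ⟨_, hm.1⟩ := hc.is_comm.comm _ _
          have h2 : ((m : G ⧸ C)) * k = k * m := congrArg Subtype.val h1
          simp only [QuotientGroup.mk_mul, QuotientGroup.mk_inv]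
          rw [mul_assoc (m : G ⧸ C)⁻¹, ← h2, inv_mul_cancel_left, mul_inv_cancel]
        have h3 : Commute (m⁻¹ * k * m) w := by
          have h4 : m⁻¹ * k * m = (m⁻¹ * k * m * k⁻¹) * k := by group
          rw [h4]
          exact Commute.mul_left (hc' w hw).symm hk.2.symm
        have h5 : Commute k (m * w * m⁻¹) := by
          show k * (m * w * m⁻¹) = m * w * m⁻¹ * k
          calc k * (m * w * m⁻¹) = m * ((m⁻¹ * k * m) * w) * m⁻¹ := by group
            _ = m * (w * (m⁻¹ * k * m)) * m⁻¹ := by rw [h3.eq]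
            _ = m * w * m⁻¹ * k := by group
        exact (h5.mul_right (show Commute k w from hk.2.symm).inv_right).eq.symm
      have hz : m * u * m⁻¹ * u⁻¹ = (m * v * m⁻¹ * (v : G)⁻¹)⁻¹ := by
        have hcv : m * v * m⁻¹ * (v : G)⁻¹ ∈ P :=
          mul_mem ((inferInstance : P.Normal).conj_mem _ v.2 m) (inv_mem v.2)
        apply eq_inv_of_mul_eq_one_left
        have h1 := hP' u⁻¹ (inv_mem hu) (m * v * m⁻¹) ((inferInstance : P.Normal).conj_mem _ v.2 m)
        calc m * u * m⁻¹ * u⁻¹ * (m * v * m⁻¹ * (v : G)⁻¹)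
            = m * u * m⁻¹ * (u⁻¹ * (m * v * m⁻¹)) * (v : G)⁻¹ := by group
          _ = m * u * m⁻¹ * (m * v * m⁻¹ * u⁻¹) * (v : G)⁻¹ := by rw [h1]
          _ = m * (u * v) * m⁻¹ * ((v : G) * u)⁻¹ := by group
          _ = 1 := by
            rw [hP' v v.2 u hu, ← hm.2]
            group
      by_cases hz1 : m * u * m⁻¹ * u⁻¹ = 1
      · rw [hz1] at hz
        refine ⟨(hmemK _ _).2 ⟨hm.1, ?_⟩, (hmemK _ _).2 ⟨hm.1, ?_⟩⟩
        · exact ((mul_inv_eq_iff_eq_mul).1 (mul_inv_eq_one.1 hz1)).symm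
        · exact ((mul_inv_eq_iff_eq_mul).1 (mul_inv_eq_one.1 (inv_eq_one.1 hz.symm))).symm
      · exfalso
        have hzP : m * u * m⁻¹ * u⁻¹ ∈ P :=
          mul_mem ((inferInstance : P.Normal).conj_mem _ hu m) (inv_mem hu)
        have h1 : K u = K (m * u * m⁻¹ * u⁻¹) := eq_of_le_of_card_ge (hinvt u hu)
          (by rw [hcard _ hzP hz1, hcard u hu hu1])
        have h2 : K (v : G) = K (m * u * m⁻¹ * u⁻¹) := eq_of_le_of_card_ge (fun k hk => by
          have := hinvt v v.2 k hk
          rw [hmemK] at this ⊢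
          rw [hz]
          exact ⟨this.1, (show Commute (m * v * m⁻¹ * (v : G)⁻¹) k from this.2).inv_left⟩)
          (by rw [hcard _ hzP hz1])
        exact hne (h1.trans h2.symm)
    have h1 := eq_of_le_of_card_ge (fun m hm => (hsub m hm).1 : K (u * v) ≤ K u)
      (by rw [hcard _ hw hprod, hcard u hu hu1])
    have h2 := eq_of_le_of_card_ge (fun m hm => (hsub m hm).2 : K (u * v) ≤ K (v : G))
      (by rw [hcard _ hw hprod])
    exact hne (h1.symm.trans h2)
  intro u hu
  by_cases hu1 : u = 1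
  · rw [hu1, one_mul, mul_one]
  · have := (hall u hu hu1).symm ▸ hn₀v
    exact ((hmemK _ _).1 this).2

include hB hsol hP in
theorem cyclic_of_not_centralizes (hP1 : P ≠ ⊥) {r : ℕ} [Fact r.Prime] (S : Sylow r G)
    (hS : ∀ x ∈ (S : Subgroup G), x ^ r = 1) (hne : ¬ (S : Subgroup G) ≤ centralizer (P : Set G)) :
    IsCyclic (S : Subgroup G) := by
  set C := centralizer (P : Set G) with hC
  have hdisj := (le_or_disjoint_of_exponent hB C S hS).resolve_left hne
  let T : Sylow r (G ⧸ C) := S.mapSurjective (QuotientGroup.mk'_surjective C)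
  have hT : ∀ x ∈ (T : Subgroup (G ⧸ C)), x ^ r = 1 := by
    rintro _ ⟨x, hx, rfl⟩
    rw [← map_pow, hS x hx, map_one]
  haveI : IsCyclic ↥((S : Subgroup G).map (QuotientGroup.mk' C)) := cyclic_of_exponent
    (Cfsg.Agent.S3912.result hB hsol C) (haveI := hsol; inferInstance)
    (quotient_abelian_cyclic hB P hP hP1) T hT
  refine isCyclic_of_injective
    ((QuotientGroup.mk' C).subgroupMap (S : Subgroup G) : (S : Subgroup G) →* (T : Subgroup (G ⧸ C))) ?_
  intro x y hxy
  have h : ((x : G) : G ⧸ C) = ((y : G) : G ⧸ C) := congrArg Subtype.val hxy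
  rw [QuotientGroup.eq] at h
  exact Subtype.ext (inv_mul_eq_one.1 (hdisj _ (mul_mem (inv_mem x.2) y.2) h))

include hB hsol hP in
/-- A quaternion Sylow subgroup fixing a proper nontrivial subgroup of `P` centralises `P`. -/
theorem q8_centralizes (hq2 : q ≠ 2)
    (hmin : ∀ N : Subgroup G, N.Normal → N ≤ P → N = ⊥ ∨ N = P)
    (S : Sylow 2 G) (e : (S : Subgroup G) ≃* QuaternionGroup 2) (U : Subgroup G) (hUP : U ≤ P)
    (hU1 : U ≠ ⊥) (hU2 : U ≠ P) (hSU : (S : Subgroup G) ≤ normalizer (U : Set G)) :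
    (S : Subgroup G) ≤ centralizer (P : Set G) := by
  classical
  haveI : Fact (Nat.Prime 2) := ⟨Nat.prime_two⟩
  have hP1 : P ≠ ⊥ := fun h => hU1 (eq_bot_iff.2 (h ▸ hUP))
  by_contra hne
  obtain ⟨-, h4, huniq, a, b, ha, hb, ha4, hb4, hab2, habc, -, hgen, -⟩ := q8_facts _ e
  set C := centralizer (P : Set G) with hC
  have hX := Cfsg.Agent.S3912.result hB hsol C
  have habX := quotient_abelian_cyclic hB P hP hP1
  have hsolX : Group.IsSolvable (G ⧸ C) := by haveI := hsol; infer_instance
  let T : Sylow 2 (G ⧸ C) := S.mapSurjective (QuotientGroup.mk'_surjective C)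
  have hno4 : ∀ x ∈ C, orderOf x ≠ 4 := fun x hx h => hne
    (hgen C (mem_of_orderOf_eq hB C hx (h.trans ha4.symm)) (mem_of_orderOf_eq hB C hx (h.trans hb4.symm)))
  have hz4 : ∀ x ∈ (S : Subgroup G), x ^ 2 ≠ 1 → orderOf x = 4 := fun x hx h =>
    orderOf_eq_prime_pow (p := 2) (n := 1) (by rwa [pow_one]) (h4 x hx)
  have hdisj : ∀ x ∈ (S : Subgroup G), x ∈ C → x = 1 := by
    by_contra hcon
    push Not at hcon
    obtain ⟨x, hx, hxC, hx1⟩ := hcon
    have hx2 : x ^ 2 = 1 := by
      by_contra h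
      exact hno4 x hxC (hz4 x hx h)
    have hT : ∀ y ∈ (T : Subgroup (G ⧸ C)), y ^ 2 = 1 := by
      rintro _ ⟨y, hy, rfl⟩
      rw [← map_pow, QuotientGroup.mk'_apply, QuotientGroup.eq_one_iff]
      by_cases hy2 : y ^ 2 = 1
      · rw [hy2]; exact one_mem _
      rw [huniq (y ^ 2) (pow_mem hy 2) x hx (orderOf_eq_prime (by rw [← pow_mul]; exact h4 y hy) hy2)
        (orderOf_eq_prime hx2 hx1)]
      exact hxC
    haveI := cyclic_of_exponent hX hsolX habX T hT
    obtain ⟨⟨t, ht⟩, htgen⟩ := IsCyclic.exists_generator (α := (T : Subgroup (G ⧸ C)))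
    have hmem : ∀ y ∈ (S : Subgroup G), (y : G ⧸ C) = 1 ∨ (y : G ⧸ C) = t := by
      intro y hy
      obtain ⟨i, hi⟩ := mem_zpowers_iff.1 (htgen ⟨_, ⟨y, hy, rfl⟩⟩)
      have hi' : t ^ i = (y : G ⧸ C) := congrArg Subtype.val hi
      rw [← hi']
      rcases Int.even_or_odd' i with ⟨j, rfl | rfl⟩
      · left; rw [zpow_mul, show t ^ (2 : ℤ) = 1 by exact_mod_cast hT t ht, one_zpow]
      · right; rw [zpow_add, zpow_one, zpow_mul, show t ^ (2 : ℤ) = 1 by exact_mod_cast hT t ht,
          one_zpow, one_mul]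
    -- one of `a`, `b`, `a * b` lies in `C`
    have hab4 : orderOf (a * b) = 4 := by
      refine hz4 _ (mul_mem ha hb) fun h => ?_
      have h1 : a * b * (a * b) = 1 := by rw [← pow_two, h]
      have h2 : b * b = a * a := by rw [← pow_two, ← pow_two, hab2]
      have h3 : a ^ 2 = 1 := by
        have h5 : a * b * (a * b) = a ^ 2 := by
          calc a * b * (a * b) = a ^ 2 * (b * a) * (a * b) := by rw [← habc]
            _ = a ^ 2 * (b * (a * a) * b) := by simp only [mul_assoc]
            _ = a ^ 2 * ((b * b) * (b * b)) := by rw [← h2]; simp only [mul_assoc]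
            _ = a ^ 2 * (a ^ 4) := by rw [h2]; group
            _ = a ^ 2 := by rw [h4 a ha, mul_one]
        rw [← h5, h1]
      have := orderOf_dvd_of_pow_eq_one h3
      rw [ha4] at this
      norm_num at this
    rcases hmem a ha with h1 | h1
    · exact hno4 a ((QuotientGroup.eq_one_iff a).1 h1) ha4
    rcases hmem b hb with h2 | h2
    · exact hno4 b ((QuotientGroup.eq_one_iff b).1 h2) hb4
    · refine hno4 (a * b) ((QuotientGroup.eq_one_iff _).1 ?_) hab4
      rw [QuotientGroup.mk_mul, h1, h2, ← pow_two, hT t ht]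
  -- the image is a normal quaternion group
  have hinj : Function.Injective ((QuotientGroup.mk' C).subgroupMap (S : Subgroup G)) := by
    intro x y hxy
    have h : ((x : G) : G ⧸ C) = ((y : G) : G ⧸ C) := congrArg Subtype.val hxy
    rw [QuotientGroup.eq] at h
    exact Subtype.ext (inv_mul_eq_one.1 (hdisj _ (mul_mem (inv_mem x.2) y.2) h))
  let eT : (T : Subgroup (G ⧸ C)) ≃* QuaternionGroup 2 :=
    (MulEquiv.ofBijective _ ⟨hinj, (QuotientGroup.mk' C).subgroupMap_surjective _⟩).symm.trans e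
  haveI hTn : (T : Subgroup (G ⧸ C)).Normal := q8_normal hX hsolX habX T eT
  obtain ⟨-, -, huniqT, -⟩ := q8_facts _ eT
  set N₀ := (T : Subgroup (G ⧸ C)).comap (QuotientGroup.mk' C) with hN₀
  have hSN₀ : (S : Subgroup G) ≤ N₀ := fun x hx => ⟨x, hx, rfl⟩
  set z := a ^ 2 with hz
  have hz1 : z ≠ 1 := by
    intro h
    have := orderOf_dvd_of_pow_eq_one h
    rw [ha4] at this
    norm_num at this
  have hzS : z ∈ (S : Subgroup G) := pow_mem ha 2
  have hzz : z * z = 1 := by rw [hz, ← pow_add]; exact h4 a ha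
  have hzC : z ∉ C := fun h => hz1 (hdisj z hzS h)
  have hzord : orderOf (z : G ⧸ C) = 2 := by
    refine orderOf_eq_prime ?_ fun h => hzC ((QuotientGroup.eq_one_iff z).1 h)
    rw [← QuotientGroup.mk_pow, pow_two, hzz, QuotientGroup.mk_one]
  have hzcent : ∀ g : G, g⁻¹ * z * g * z⁻¹ ∈ C := by
    intro g
    rw [← QuotientGroup.eq_one_iff]
    have h1 : ((g⁻¹ * z * g : G) : G ⧸ C) = z := by
      refine huniqT _ ?_ _ ⟨z, hzS, rfl⟩ ?_ hzord
      · have := hTn.conj_mem _ (⟨z, hzS, rfl⟩ : (z : G ⧸ C) ∈ (T : Subgroup (G ⧸ C))) (g : G ⧸ C)⁻¹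
        rw [inv_inv] at this
        simpa using this
      · rw [← hzord, show ((g⁻¹ * z * g : G) : G ⧸ C) = MulAut.conj (g : G ⧸ C)⁻¹ (z : G ⧸ C) by simp,
          MulEquiv.orderOf_eq]
    rw [QuotientGroup.mk_mul, h1, QuotientGroup.mk_inv, mul_inv_cancel]
  -- `z` inverts `P`
  have hcomm : ∀ x ∈ P, ∀ y ∈ P, x * y = y * x := fun x hx y hy =>
    congrArg Subtype.val (mul_comm' (⟨x, hx⟩ : P) ⟨y, hy⟩)
  have hfix : P ⊓ centralizer {z} = ⊥ := by
    refine (hmin _ ⟨fun v hv g => ?_⟩ inf_le_left).resolve_right fun h => hzC fun v hv => ?_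
    · refine ⟨(inferInstance : P.Normal).conj_mem v hv.1 g, ?_⟩
      intro w hw
      rw [Set.mem_singleton_iff.1 hw]
      have h1 := hzcent g v hv.1
      have h2 : z * v = v * z := hv.2 z rfl
      have h3 : Commute (g⁻¹ * z * g) v := by
        rw [show g⁻¹ * z * g = (g⁻¹ * z * g * z⁻¹) * z by group]
        exact Commute.mul_left h1.symm h2
      calc z * (g * v * g⁻¹) = g * ((g⁻¹ * z * g) * v) * g⁻¹ := by group
        _ = g * (v * (g⁻¹ * z * g)) * g⁻¹ := by rw [h3.eq]
        _ = g * v * g⁻¹ * z := by group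
    · exact ((h.ge hv).2 z rfl).symm
  have hzinv : ∀ v ∈ P, z * v * z⁻¹ = v⁻¹ := by
    intro v hv
    have hzv : z * v * z⁻¹ ∈ P := (inferInstance : P.Normal).conj_mem v hv z
    have hzi : z⁻¹ = z := inv_eq_of_mul_eq_one_right hzz
    have : v * (z * v * z⁻¹) ∈ P ⊓ centralizer {z} := by
      refine ⟨mul_mem hv hzv, fun w hw => ?_⟩
      rw [Set.mem_singleton_iff.1 hw, hcomm v hv _ hzv]
      rw [hzi]
      have h1 := hcomm (z * v * z⁻¹) hzv v hv
      rw [hzi] at h1
      calc z * (z * v * z * v) = (z * z) * v * z * v := by simp only [mul_assoc]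
        _ = v * z * v * (z * z) := by rw [hzz]; simp
        _ = (v * (z * v * z)) * z := by simp only [mul_assoc]
        _ = (z * v * z * v) * z := by rw [h1]
    rw [hfix, mem_bot] at this
    exact eq_inv_of_mul_eq_one_right this
  -- apply the module lemma
  letI : CommGroup P := { (inferInstance : Group P) with mul_comm := mul_comm' }
  let A : P →* P := (MulAut.conjNormal a : MulAut P).toMonoidHom
  let B : P →* P := (MulAut.conjNormal b : MulAut P).toMonoidHom
  have hAv : ∀ v : P, (A v : G) = a * v * a⁻¹ := fun v => MulAut.conjNormal_apply a v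
  have hBv : ∀ v : P, (B v : G) = b * v * b⁻¹ := fun v => MulAut.conjNormal_apply b v
  have hAA : ∀ v, A (A v) = v⁻¹ := fun v => Subtype.ext (by
    rw [hAv, hAv, InvMemClass.coe_inv, ← hzinv v v.2, hz, pow_two]; group)
  have hBB : ∀ v, B (B v) = v⁻¹ := fun v => Subtype.ext (by
    rw [hBv, hBv, InvMemClass.coe_inv, ← hzinv v v.2, hab2, pow_two]; group)
  have hAB : ∀ v, A (B v) = (B (A v))⁻¹ := fun v => Subtype.ext (by
    rw [InvMemClass.coe_inv, hAv, hBv, hBv, hAv, ← hzinv (b * (a * v * a⁻¹) * b⁻¹)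
      ((inferInstance : P.Normal).conj_mem _ ((inferInstance : P.Normal).conj_mem _ v.2 a) b)]
    calc a * (b * v * b⁻¹) * a⁻¹ = (a * b) * v * (a * b)⁻¹ := by group
      _ = _ := by rw [habc]; group)
  have htr : ∀ v w : P, v ≠ 1 → w ≠ 1 → ∀ U : Subgroup P, v ∈ U → (∀ u ∈ U, A u ∈ U) →
      (∀ u ∈ U, B u ∈ U) → ∃ U' : Subgroup P, w ∈ U' ∧ (∀ u ∈ U', A u ∈ U') ∧ (∀ u ∈ U', B u ∈ U') ∧
        Nat.card U' ≤ Nat.card U := by
    intro v w hv hw V hvV hVA hVB
    obtain ⟨g, -, hg⟩ := exists_conj_of_mem hB P hP v.2 (fun h => hv (Subtype.ext h)) w.2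
      (fun h => hw (Subtype.ext h))
    let c : P →* P := (MulAut.conjNormal g : MulAut P).toMonoidHom
    have hcv : ∀ u : P, (c u : G) = g * u * g⁻¹ := fun u => MulAut.conjNormal_apply g u
    -- the stabiliser of `V`
    have hstab : ∀ s ∈ N₀, ∀ u ∈ V, (MulAut.conjNormal s u : P) ∈ V := by
      intro s hs u hu
      obtain ⟨s₀, hs₀, hss⟩ := hs
      let St : Subgroup G :=
        { carrier := {s | V.map ((MulAut.conjNormal s : MulAut P).toMonoidHom) = V}
          one_mem' := by
            show V.map _ = V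
            rw [map_one]
            exact map_id V
          mul_mem' := fun {x y} hx hy => by
            show V.map _ = V
            conv_rhs => rw [← (hx : V.map _ = V)]
            nth_rw 2 [← (hy : V.map _ = V)]
            rw [map_map, map_mul]
            rfl
          inv_mem' := fun {x} hx => by
            show V.map _ = V
            conv_lhs => rw [← (hx : V.map _ = V)]
            rw [map_map, ← map_id V, map_id V]
            conv_rhs => rw [← map_id V]
            congr 1
            ext t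
            simp }
      have hmk : ∀ x : G, (∀ u ∈ V, (MulAut.conjNormal x u : P) ∈ V) → x ∈ St := by
        intro x hx
        show V.map _ = V
        refine eq_of_le_of_card_ge (by rintro _ ⟨t, ht, rfl⟩; exact hx t ht) ?_
        exact le_of_eq (Nat.card_congr (equivMapOfInjective V _ (MulAut.conjNormal x : MulAut P).injective).toEquiv)
      have hS₀ : (S : Subgroup G) ≤ St := hgen St (hmk a hVA) (hmk b hVB)
      have hsC : s₀⁻¹ * s ∈ C := by
        rw [← QuotientGroup.eq]; exact hss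
      have hC' : ∀ t : P, (MulAut.conjNormal (s₀⁻¹ * s) t : P) = t := fun t => Subtype.ext (by
        rw [MulAut.conjNormal_apply, ← hsC t t.2, mul_inv_cancel_right])
      have h1 : (MulAut.conjNormal s u : P) = MulAut.conjNormal s₀ u := by
        conv_lhs => rw [show s = s₀ * (s₀⁻¹ * s) from (mul_inv_cancel_left s₀ s).symm, map_mul,
          MulAut.mul_apply, hC']
      rw [h1]
      exact (hS₀ hs₀ : V.map _ = V).le ⟨u, hu, rfl⟩
    have hinv' : ∀ s ∈ (S : Subgroup G), ∀ u ∈ V.map c, (MulAut.conjNormal s u : P) ∈ V.map c := by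
      rintro s hs _ ⟨u, hu, rfl⟩
      refine ⟨MulAut.conjNormal (g⁻¹ * s * g) u, hstab _ ?_ u hu, ?_⟩
      · have := ((hTn.comap (QuotientGroup.mk' C))).conj_mem s (hSN₀ hs) g⁻¹
        rwa [inv_inv] at this
      · show MulAut.conjNormal g (MulAut.conjNormal (g⁻¹ * s * g) u) =
          MulAut.conjNormal s (MulAut.conjNormal g u)
        rw [← MulAut.mul_apply, ← MulAut.mul_apply, ← map_mul, ← map_mul]
        congr 2
        group
    refine ⟨V.map c, ?_, hinv' a ha, hinv' b hb, (le_of_eq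
      (card_map_of_injective (MulAut.conjNormal g : MulAut P).injective))⟩
    obtain ⟨i, hi⟩ := mem_zpowers_iff.1 hg
    refine ⟨v ^ i, zpow_mem hvV i, Subtype.ext ?_⟩
    rw [map_zpow, SubgroupClass.coe_zpow, hcv, hi]
  refine quat_false hq2 (fun v => Subtype.ext (hP v v.2)) A B hAA hBB hAB htr (U.subgroupOf P)
    ?_ ?_ ?_ ?_
  · intro h
    apply hU1
    rw [← inf_eq_left.2 hUP, ← subgroupOf_map_subtype, h, Subgroup.map_bot]
  · intro h
    exact hU2 (le_antisymm hUP (subgroupOf_eq_top.1 h))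
  · intro u hu
    show (A u : G) ∈ U
    rw [hAv]
    exact (mem_normalizer_iff.1 (hSU ha) u).1 hu
  · intro u hu
    show (B u : G) ∈ U
    rw [hBv]
    exact (mem_normalizer_iff.1 (hSU hb) u).1 hu

end Action

end Cfsg.Agent.H73
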