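import Mathlib
import Cfsg.Agent.S0215
import Cfsg.Agent.S0205

/-! Four-fold transitive groups with a four point stabiliser of odd order (M. Hall). For degree at
least eight all involutions are conjugate; Glauberman's theorem in the stabiliser of all but one fixed
point of an involution shows that the involution is central in the stabiliser of its fixed points. -/

set_option autoImplicit false
set_option linter.style.haveILetI false
set_option linter.unusedSectionVars false

namespace Cfsg.Agent.H73.FourTrans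

open Subgroup
open scoped commutatorElement

section Odd

variable {G : Type*} [Group G]

/-- Two involutions with a product `h` of odd order are conjugate by a power of `h`. -/
theorem conj_pow_eq {x y : G} (hx : x * x = 1) (hy : y * y = 1) (hodd : Odd (orderOf (x * y))) :
    ∃ k : ℕ, (x * y) ^ k * y * ((x * y) ^ k)⁻¹ = x := by
  obtain ⟨l, hl⟩ := hodd
  refine ⟨l + 1, ?_⟩
  have hxi : x⁻¹ = x := inv_eq_of_mul_eq_one_right hx
  have hyi : y⁻¹ = y := inv_eq_of_mul_eq_one_right hy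
  have hinv : ∀ n : ℕ, y * ((x * y) ^ n)⁻¹ = (x * y) ^ n * y := by
    intro n
    induction n with
    | zero => simp
    | succ n ih =>
      rw [pow_succ', mul_inv_rev, ← mul_assoc, ih, mul_inv_rev, hxi, hyi, ← pow_succ', pow_succ]
      simp only [mul_assoc]
      rw [← mul_assoc y y x, hy, one_mul, mul_one]
  rw [mul_assoc, hinv, ← mul_assoc, ← pow_add, show l + 1 + (l + 1) = orderOf (x * y) + 1 by omega,
    pow_succ, pow_orderOf_eq_one, one_mul, mul_assoc, hy, mul_one]

/-- An element of a `2`-group none of whose other conjugates commutes with it is central. -/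
theorem central_of_isolated [Finite G] (hG : IsPGroup 2 G) (a : G)
    (h : ∀ g : G, Commute a (g * a * g⁻¹) → g * a * g⁻¹ = a) : ∀ g : G, Commute g a := by
  haveI : Fact (Nat.Prime 2) := ⟨Nat.prime_two⟩
  haveI := hG.isNilpotent
  suffices htop : centralizer ({a} : Set G) = ⊤ by
    intro g
    have hg : g ∈ centralizer ({a} : Set G) := htop ▸ mem_top g
    exact (hg a rfl).symm
  by_contra hne
  obtain ⟨g, hgN, hgC⟩ := SetLike.exists_of_lt
    (Group.normalizerCondition_of_isNilpotent (G := G) _ (lt_top_iff_ne_top.2 hne))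
  apply hgC
  have ha : a ∈ centralizer ({a} : Set G) := fun w hw => by rw [Set.mem_singleton_iff.1 hw]
  have h1 := h g (((mem_normalizer_iff.1 hgN) a).1 ha a rfl)
  intro w hw
  rw [Set.mem_singleton_iff.1 hw]
  conv_lhs => rw [← h1]
  group

end Odd

variable {α : Type*} [Fintype α] [DecidableEq α]

/-- The fixed points of a permutation. -/
def fixset (t : Equiv.Perm α) : Finset α := Finset.univ.filter fun x => t x = x

theorem mem_fixset {t : Equiv.Perm α} {x : α} : x ∈ fixset t ↔ t x = x := by simp [fixset]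

theorem fixset_conj (g t : Equiv.Perm α) : fixset (g * t * g⁻¹) = (fixset t).map g.toEmbedding := by
  ext x
  rw [Finset.mem_map_equiv, mem_fixset, mem_fixset, Equiv.Perm.mul_apply, Equiv.Perm.mul_apply,
    Equiv.Perm.inv_def]
  exact ⟨fun h => g.injective (h.trans (g.apply_symm_apply x).symm), fun h => by rw [h, g.apply_symm_apply]⟩

theorem apply_apply_of_sq {t : Equiv.Perm α} (ht : t * t = 1) (x : α) : t (t x) = x := by
  rw [← Equiv.Perm.mul_apply, ht, Equiv.Perm.one_apply]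

theorem pow_apply_fixed {t : Equiv.Perm α} {x : α} (h : t x = x) (n : ℕ) : (t ^ n) x = x := by
  induction n with
  | zero => rfl
  | succ n ih => rw [pow_succ, Equiv.Perm.mul_apply, h, ih]

/-- The setting: four-fold transitivity, and elements fixing four points have odd order. -/
structure Hyp (G : Subgroup (Equiv.Perm α)) : Prop where
  map4 : ∀ a b c d a' b' c' d' : α, a ≠ b → a ≠ c → a ≠ d → b ≠ c → b ≠ d → c ≠ d →
    a' ≠ b' → a' ≠ c' → a' ≠ d' → b' ≠ c' → b' ≠ d' → c' ≠ d' →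
    ∃ g ∈ G, g a = a' ∧ g b = b' ∧ g c = c' ∧ g d = d'
  odd : ∀ g ∈ G, ∀ a b c d : α, a ≠ b → a ≠ c → a ≠ d → b ≠ c → b ≠ d → c ≠ d →
    g a = a → g b = b → g c = c → g d = d → Odd (orderOf g)
  eight : 8 ≤ Fintype.card α

variable {G : Subgroup (Equiv.Perm α)} (hG : Hyp G)

include hG in
theorem exists_fresh (s : Finset α) (hs : s.card < 8) : ∃ x, x ∉ s := by
  by_contra h
  push Not at h
  have := hG.eight
  rw [Finset.eq_univ_of_forall h, Finset.card_univ] at hs
  omega

include hG in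
theorem map3 (a b c a' b' c' : α) (h1 : a ≠ b) (h2 : a ≠ c) (h3 : b ≠ c) (h1' : a' ≠ b')
    (h2' : a' ≠ c') (h3' : b' ≠ c') : ∃ g ∈ G, g a = a' ∧ g b = b' ∧ g c = c' := by
  obtain ⟨d, hd⟩ := exists_fresh hG {a, b, c} (lt_of_le_of_lt (Finset.card_le_three) (by norm_num))
  obtain ⟨d', hd'⟩ := exists_fresh hG {a', b', c'} (lt_of_le_of_lt (Finset.card_le_three) (by norm_num))
  simp only [Finset.mem_insert, Finset.mem_singleton, not_or] at hd hd'
  obtain ⟨g, hg, e1, e2, e3, -⟩ := hG.map4 a b c d a' b' c' d' h1 h2 (Ne.symm hd.1) h3 (Ne.symm hd.2.1)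
    (Ne.symm hd.2.2) h1' h2' (Ne.symm hd'.1) h3' (Ne.symm hd'.2.1) (Ne.symm hd'.2.2)
  exact ⟨g, hg, e1, e2, e3⟩

include hG in
theorem map2 (a b a' b' : α) (h1 : a ≠ b) (h1' : a' ≠ b') : ∃ g ∈ G, g a = a' ∧ g b = b' := by
  obtain ⟨c, hc⟩ := exists_fresh hG {a, b} (lt_of_le_of_lt (Finset.card_le_two) (by norm_num))
  obtain ⟨c', hc'⟩ := exists_fresh hG {a', b'} (lt_of_le_of_lt (Finset.card_le_two) (by norm_num))
  simp only [Finset.mem_insert, Finset.mem_singleton, not_or] at hc hc'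
  obtain ⟨g, hg, e1, e2, -⟩ := map3 hG a b c a' b' c' h1 (Ne.symm hc.1) (Ne.symm hc.2) h1' (Ne.symm hc'.1)
    (Ne.symm hc'.2)
  exact ⟨g, hg, e1, e2⟩

include hG in
theorem card_fix_le {t : Equiv.Perm α} (ht : t ∈ G) (ht2 : t * t = 1) (ht1 : t ≠ 1) :
    (fixset t).card ≤ 3 := by
  by_contra h
  push Not at h
  obtain ⟨T, hT, hTc⟩ := Finset.exists_subset_card_eq (n := 4) h
  obtain ⟨a, b, c, d, h1, h2, h3, h4, h5, h6, rfl⟩ := Finset.card_eq_four.1 hTc
  have := hG.odd t ht a b c d h1 h2 h3 h4 h5 h6 (mem_fixset.1 (hT (by simp)))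
    (mem_fixset.1 (hT (by simp))) (mem_fixset.1 (hT (by simp))) (mem_fixset.1 (hT (by simp)))
  rw [orderOf_eq_prime (p := 2) (by rw [pow_two, ht2]) ht1] at this
  exact absurd this (by decide)

include hG in
/-- Involutions agreeing on a quadruple invariant under them are conjugate by an element fixing it. -/
theorem conj_of_agree {s t : Equiv.Perm α} (hs : s ∈ G) (ht : t ∈ G) (hs2 : s * s = 1) (ht2 : t * t = 1)
    (a b c d : α) (h1 : a ≠ b) (h2 : a ≠ c) (h3 : a ≠ d) (h4 : b ≠ c) (h5 : b ≠ d) (h6 : c ≠ d)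
    (ea : s (t a) = a) (eb : s (t b) = b) (ec : s (t c) = c) (ed : s (t d) = d) :
    ∃ k ∈ G, k a = a ∧ k b = b ∧ k c = c ∧ k d = d ∧ k * t * k⁻¹ = s ∧ ∃ n : ℕ, k = (s * t) ^ n := by
  have hodd : Odd (orderOf (s * t)) := hG.odd _ (G.mul_mem hs ht) a b c d h1 h2 h3 h4 h5 h6 ea eb ec ed
  obtain ⟨n, hn⟩ := conj_pow_eq hs2 ht2 hodd
  exact ⟨(s * t) ^ n, G.pow_mem (G.mul_mem hs ht) n, pow_apply_fixed ea n, pow_apply_fixed eb n,
    pow_apply_fixed ec n, pow_apply_fixed ed n, hn, n, rfl⟩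

include hG in
/-- All involutions are conjugate. -/
theorem involutions_conj {s t : Equiv.Perm α} (hs : s ∈ G) (ht : t ∈ G) (hs2 : s * s = 1)
    (ht2 : t * t = 1) (hs1 : s ≠ 1) (ht1 : t ≠ 1) : ∃ g ∈ G, g * t * g⁻¹ = s := by
  have key : ∀ t ∈ G, t * t = 1 → t ≠ 1 → ∃ p q : α, p ≠ t p ∧ p ≠ q ∧ p ≠ t q ∧ t p ≠ q ∧ t p ≠ t q ∧
      q ≠ t q := by
    intro t ht ht2 ht1
    have hF := card_fix_le hG ht ht2 ht1
    obtain ⟨p, hp⟩ := exists_fresh hG (fixset t) (by omega)
    obtain ⟨q, hq⟩ := exists_fresh hG (fixset t ∪ {p, t p})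
      (lt_of_le_of_lt (Finset.card_union_le _ _) (by
        have : ({p, t p} : Finset α).card ≤ 2 := Finset.card_le_two
        omega))
    simp only [Finset.mem_union, Finset.mem_insert, Finset.mem_singleton, not_or, mem_fixset] at hp hq
    refine ⟨p, q, Ne.symm hp, Ne.symm hq.2.1, fun h => hq.2.2 ?_, Ne.symm hq.2.2,
      fun h => hq.2.1 (t.injective h).symm, Ne.symm hq.1⟩
    rw [h, apply_apply_of_sq ht2]
  obtain ⟨p, q, h1, h2, h3, h4, h5, h6⟩ := key t ht ht2 ht1
  obtain ⟨p', q', h1', h2', h3', h4', h5', h6'⟩ := key s hs hs2 hs1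
  obtain ⟨g, hg, e1, e2, e3, e4⟩ := hG.map4 p (t p) q (t q) p' (s p') q' (s q') h1 h2 h3 h4 h5 h6
    h1' h2' h3' h4' h5' h6'
  have hi : ∀ x, g⁻¹ (g x) = x := fun x => g.symm_apply_apply x
  have ev : ∀ x, (g * t * g⁻¹) (g x) = g (t x) := fun x => by
    rw [Equiv.Perm.mul_apply, Equiv.Perm.mul_apply, hi]
  have ht' : g * t * g⁻¹ * (g * t * g⁻¹) = 1 := by
    rw [show g * t * g⁻¹ * (g * t * g⁻¹) = g * (t * t) * g⁻¹ by group, ht2, mul_one, mul_inv_cancel]
  obtain ⟨k, hk, -, -, -, -, hkc, -⟩ := conj_of_agree hG hs (G.mul_mem (G.mul_mem hg ht) (G.inv_mem hg)) hs2 ht'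
    p' (s p') q' (s q') h1' h2' h3' h4' h5' h6'
    (by rw [← e1, ev, e2, e1, apply_apply_of_sq hs2])
    (by rw [← e2, ev, apply_apply_of_sq ht2, e1, e2])
    (by rw [← e3, ev, e4, e3, apply_apply_of_sq hs2])
    (by rw [← e4, ev, apply_apply_of_sq ht2, e3, e4])
  refine ⟨k * g, G.mul_mem hk hg, ?_⟩
  rw [← hkc]
  group

include hG in
theorem exists_inv (p q c d : α) (h1 : p ≠ q) (h2 : p ≠ c) (h3 : p ≠ d) (h4 : q ≠ c) (h5 : q ≠ d)
    (h6 : c ≠ d) : ∃ t ∈ G, t * t = 1 ∧ t p = q ∧ t q = p ∧ t c = c ∧ t d = d := by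
  obtain ⟨g, hg, e1, e2, e3, e4⟩ := hG.map4 p q c d q p c d h1 h2 h3 h4 h5 h6 h1.symm h4 h5 h2 h3 h6
  have hsq : ∀ x, g (g x) = x → (g ^ 2) x = x := fun x hx => by
    rw [pow_two, Equiv.Perm.mul_apply, hx]
  have f1 : (g ^ 2) p = p := hsq p (by rw [e1, e2])
  have f2 : (g ^ 2) q = q := hsq q (by rw [e2, e1])
  have f3 : (g ^ 2) c = c := hsq c (by rw [e3, e3])
  have f4 : (g ^ 2) d = d := hsq d (by rw [e4, e4])
  obtain ⟨l, hl⟩ := hG.odd _ (G.pow_mem hg 2) p q c d h1 h2 h3 h4 h5 h6 f1 f2 f3 f4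
  refine ⟨g ^ orderOf (g ^ 2), G.pow_mem hg _, ?_, ?_, ?_, ?_, ?_⟩
  · rw [← pow_add, ← two_mul, pow_mul, pow_orderOf_eq_one]
  all_goals rw [hl, pow_succ', pow_mul, Equiv.Perm.mul_apply, pow_apply_fixed (by assumption)]
  all_goals assumption

include hG in
/-- Two commuting involutions `a = (p q)(c)(d)…` and `b = (p)(q)(c d)…`. -/
theorem exists_pair (p q c d : α) (h1 : p ≠ q) (h2 : p ≠ c) (h3 : p ≠ d) (h4 : q ≠ c) (h5 : q ≠ d)
    (h6 : c ≠ d) : ∃ a ∈ G, ∃ b ∈ G, a * a = 1 ∧ b * b = 1 ∧ a * b = b * a ∧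
      a p = q ∧ a q = p ∧ a c = c ∧ a d = d ∧ b p = p ∧ b q = q ∧ b c = d ∧ b d = c := by
  obtain ⟨a, ha, ha2, a1, a2, a3, a4⟩ := exists_inv hG p q c d h1 h2 h3 h4 h5 h6
  obtain ⟨b₀, hb, hb2, b1, b2, b3, b4⟩ := exists_inv hG c d p q h6 h2.symm h4.symm h3.symm h5.symm h1
  set u := a * b₀ with hu
  have hu1 : u p = q ∧ u q = p ∧ u c = d ∧ u d = c := by
    simp only [hu, Equiv.Perm.mul_apply, a1, a2, a3, a4, b1, b2, b3, b4, and_self]
  have hsq : ∀ x, u (u x) = x → (u ^ 2) x = x := fun x hx => by rw [pow_two, Equiv.Perm.mul_apply, hx]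
  have f1 : (u ^ 2) p = p := hsq p (by rw [hu1.1, hu1.2.1])
  have f2 : (u ^ 2) q = q := hsq q (by rw [hu1.2.1, hu1.1])
  have f3 : (u ^ 2) c = c := hsq c (by rw [hu1.2.2.1, hu1.2.2.2])
  have f4 : (u ^ 2) d = d := hsq d (by rw [hu1.2.2.2, hu1.2.2.1])
  obtain ⟨l, hl⟩ := hG.odd _ (G.pow_mem (G.mul_mem ha hb) 2) p q c d h1 h2 h3 h4 h5 h6 f1 f2 f3 f4
  set z := u ^ orderOf (u ^ 2) with hz
  have hz2 : z * z = 1 := by rw [hz, ← pow_add, ← two_mul, pow_mul, pow_orderOf_eq_one]
  have hzx : ∀ x y, (u ^ 2) x = x → u x = y → z x = y := fun x y hx hy => by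
    rw [hz, hl, pow_succ', pow_mul, Equiv.Perm.mul_apply, pow_apply_fixed hx, hy]
  have z1 := hzx p q f1 hu1.1
  have z2 := hzx q p f2 hu1.2.1
  have z3 := hzx c d f3 hu1.2.2.1
  have z4 := hzx d c f4 hu1.2.2.2
  have hai : a⁻¹ = a := inv_eq_of_mul_eq_one_right ha2
  have haua : a * u * a⁻¹ = u⁻¹ := by
    rw [hu, mul_inv_rev, hai, inv_eq_of_mul_eq_one_right hb2, ← mul_assoc, ha2, one_mul]
  have hcomm : a * z = z * a := by
    have h : a * z * a⁻¹ = z := by
      conv_rhs => rw [← inv_eq_of_mul_eq_one_right hz2, hz, ← inv_pow, ← haua, conj_pow]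
    calc a * z = a * z * a⁻¹ * a := by group
      _ = z * a := by rw [h]
  refine ⟨a, ha, a * z, G.mul_mem ha (G.pow_mem (G.mul_mem ha hb) _), ha2, ?_, ?_, a1, a2, a3, a4, ?_, ?_, ?_, ?_⟩
  · rw [mul_assoc, ← mul_assoc z a, ← hcomm, mul_assoc a z z, hz2, mul_one, ha2]
  · rw [← mul_assoc, ha2, one_mul, mul_assoc, ← hcomm, ← mul_assoc, ha2, one_mul]
  all_goals simp only [Equiv.Perm.mul_apply, z1, z2, z3, z4, a1, a2, a3, a4]

include hG in
/-- Commuting involutions with the same fixed points are equal. -/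
theorem eq_of_fixset_eq {t t' : Equiv.Perm α} (ht : t ∈ G) (ht' : t' ∈ G) (h2 : t * t = 1) (h2' : t' * t' = 1)
    (ht1 : t ≠ 1) (ht1' : t' ≠ 1) (hc : t * t' = t' * t) (hF : fixset t = fixset t') : t = t' := by
  by_contra hne
  set u := t * t' with hu
  have hu2 : u * u = 1 := by
    rw [hu, mul_assoc, ← mul_assoc t' t, ← hc, mul_assoc t t', h2', mul_one, h2]
  have hu1 : u ≠ 1 := fun h => hne (by
    calc t = t * (t' * t') := by rw [h2', mul_one]
      _ = u * t' := by rw [hu, mul_assoc]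
      _ = t' := by rw [h, one_mul])
  have hfc : ∀ s ∈ G, s * s = 1 → s ≠ 1 → (fixset s).card = (fixset t).card := by
    intro s hs hs2 hs1
    obtain ⟨g, -, hg⟩ := involutions_conj hG hs ht hs2 h2 hs1 ht1
    rw [← hg, fixset_conj, Finset.card_map]
  have hFu : fixset u = fixset t := by
    refine (Finset.eq_of_subset_of_card_le ?_ (le_of_eq (hfc u (G.mul_mem ht ht') hu2 hu1))).symm
    intro x hx
    have hx' : x ∈ fixset t' := by rw [← hF]; exact hx
    rw [mem_fixset, hu, Equiv.Perm.mul_apply, mem_fixset.1 hx', mem_fixset.1 hx]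
  -- a standard pair with different fixed points
  obtain ⟨S, -, hS⟩ := Finset.exists_subset_card_eq (s := (Finset.univ : Finset α)) (n := 4)
    (by have := hG.eight; rw [Finset.card_univ]; omega)
  obtain ⟨p, q, c, d, h1, h2p, h3, h4, h5, h6, -⟩ := Finset.card_eq_four.1 hS
  obtain ⟨a, ha, b, hb, ha2, hb2, hab, a1, a2, a3, a4, b1, b2, b3, b4⟩ := exists_pair hG p q c d h1 h2p h3 h4 h5 h6
  have ha1 : a ≠ 1 := fun h => h1 (by simpa [h] using a1)
  have hb1 : b ≠ 1 := fun h => h6 (by simpa [h] using b3)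
  have hz2 : a * b * (a * b) = 1 := by
    rw [mul_assoc, ← mul_assoc b a, ← hab, mul_assoc a b b, hb2, mul_one, ha2]
  have hz1 : a * b ≠ 1 := fun h => h1 (by
    have h0 : (a * b) p = p := by rw [h]; rfl
    rw [Equiv.Perm.mul_apply, b1, a1] at h0
    exact h0.symm)
  -- a regular orbit
  obtain ⟨i, hi⟩ : ∃ i, i ∉ fixset a ∪ fixset b ∪ fixset (a * b) := by
    refine exists_fresh hG _ ?_
    have hA := card_fix_le hG ha ha2 ha1
    have hB := card_fix_le hG hb hb2 hb1
    have hZ := card_fix_le hG (G.mul_mem ha hb) hz2 hz1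
    have e1 := hfc a ha ha2 ha1
    have e2 := hfc b hb hb2 hb1
    have e3 := hfc (a * b) (G.mul_mem ha hb) hz2 hz1
    by_cases hw : (fixset a).card ≤ 2
    · have u1 := Finset.card_union_le (fixset a ∪ fixset b) (fixset (a * b))
      have u2 := Finset.card_union_le (fixset a) (fixset b)
      omega
    · have h3F : (fixset a).card = 3 := by omega
      have hsub : ({c, d} : Finset α) ⊆ fixset a := by
        intro x hx
        simp only [Finset.mem_insert, Finset.mem_singleton] at hx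
        rcases hx with rfl | rfl <;> exact mem_fixset.2 (by assumption)
      obtain ⟨w, hw', hwn⟩ := Finset.exists_mem_notMem_of_card_lt_card (s := ({c, d} : Finset α)) (t := fixset a)
        (by rw [h3F, Finset.card_pair h6]; norm_num)
      simp only [Finset.mem_insert, Finset.mem_singleton, not_or] at hwn
      have hset : fixset a = {c, d, w} := by
        refine (Finset.eq_of_subset_of_card_le ?_ ?_).symm
        · intro x hx
          simp only [Finset.mem_insert, Finset.mem_singleton] at hx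
          rcases hx with rfl | rfl | rfl
          exacts [mem_fixset.2 a3, mem_fixset.2 a4, hw']
        · rw [h3F, Finset.card_eq_three.2 ⟨c, d, w, h6, Ne.symm hwn.1, Ne.symm hwn.2, rfl⟩]
      have hbw : b w = w := by
        have h0 : a (b w) = b w := by
          rw [← Equiv.Perm.mul_apply, hab, Equiv.Perm.mul_apply, mem_fixset.1 hw']
        have h0' : b w ∈ ({c, d, w} : Finset α) := hset ▸ mem_fixset.2 h0
        simp only [Finset.mem_insert, Finset.mem_singleton] at h0'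
        rcases h0' with h | h | h
        · exact absurd (b.injective (h.trans b4.symm)) hwn.2
        · exact absurd (b.injective (h.trans b3.symm)) hwn.1
        · exact h
      have hwz : w ∈ fixset (a * b) := mem_fixset.2 (by rw [Equiv.Perm.mul_apply, hbw, mem_fixset.1 hw'])
      have hwab : w ∈ fixset a ∩ fixset b := Finset.mem_inter.2 ⟨hw', mem_fixset.2 hbw⟩
      have u1 := Finset.card_union_add_card_inter (fixset a ∪ fixset b) (fixset (a * b))
      have u2 := Finset.card_union_add_card_inter (fixset a) (fixset b)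
      have u3 := Finset.card_pos.2 ⟨w, hwab⟩
      have u4 : 0 < ((fixset a ∪ fixset b) ∩ fixset (a * b)).card :=
        Finset.card_pos.2 ⟨w, Finset.mem_inter.2 ⟨Finset.mem_union_left _ hw', hwz⟩⟩
      omega
  obtain ⟨j, hj⟩ := exists_fresh hG (fixset t) (by have := card_fix_le hG ht h2 ht1; omega)
  simp only [Finset.mem_union, not_or, mem_fixset] at hi
  have hquad : ∀ (x y : Equiv.Perm α) (i : α), x * x = 1 → y * y = 1 → x * y = y * x →
      x i ≠ i → y i ≠ i → x (y i) ≠ i →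
      i ≠ x i ∧ i ≠ y i ∧ i ≠ x (y i) ∧ x i ≠ y i ∧ x i ≠ x (y i) ∧ y i ≠ x (y i) := by
    intro x y i hx hy hxy n1 n2 n3
    refine ⟨n1.symm, n2.symm, n3.symm, fun h => n3 ?_, fun h => n2 (x.injective h).symm, fun h => n1 ?_⟩
    · rw [← h, apply_apply_of_sq hx]
    · apply y.injective
      rw [← Equiv.Perm.mul_apply, ← hxy, Equiv.Perm.mul_apply]
      exact h.symm
  have hij : ∀ x ∈ [t, t', u], x j ≠ j := by
    intro x hx h
    apply hj
    simp only [List.mem_cons, List.not_mem_nil, or_false] at hx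
    rcases hx with rfl | rfl | rfl
    exacts [mem_fixset.2 h, hF ▸ mem_fixset.2 h, hFu ▸ mem_fixset.2 h]
  obtain ⟨i1, i2, i3, i4, i5, i6⟩ := hquad a b i ha2 hb2 hab hi.1.1 hi.1.2 hi.2
  obtain ⟨j1, j2, j3, j4, j5, j6⟩ := hquad t t' j h2 h2' hc (hij t (by simp)) (hij t' (by simp))
    (hij u (by simp))
  obtain ⟨g, hg, e1, e2, e3, e4⟩ := hG.map4 i (a i) (b i) (a (b i)) j (t j) (t' j) (t (t' j))
    i1 i2 i3 i4 i5 i6 j1 j2 j3 j4 j5 j6
  have hgi : ∀ x, g⁻¹ (g x) = x := fun x => g.symm_apply_apply x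
  have ev : ∀ (s : Equiv.Perm α) x, (g * s * g⁻¹) (g x) = g (s x) := fun s x => by
    rw [Equiv.Perm.mul_apply, Equiv.Perm.mul_apply, hgi]
  have hab' : ∀ x, a (b x) = b (a x) := fun x => by rw [← Equiv.Perm.mul_apply, hab, Equiv.Perm.mul_apply]
  have hc' : ∀ x, t (t' x) = t' (t x) := fun x => congrArg (fun s : Equiv.Perm α => s x) hc
  have conj_sq : ∀ (g s : Equiv.Perm α), s * s = 1 → g * s * g⁻¹ * (g * s * g⁻¹) = 1 := fun g s hs => by
    rw [show g * s * g⁻¹ * (g * s * g⁻¹) = g * (s * s) * g⁻¹ by group, hs, mul_one, mul_inv_cancel]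
  obtain ⟨k, hk, k1, k2, k3, k4, hkc, -⟩ := conj_of_agree hG ht (G.mul_mem (G.mul_mem hg ha) (G.inv_mem hg)) h2
    (conj_sq g a ha2) j (t j) (t' j) (t (t' j)) j1 j2 j3 j4 j5 j6
    (by rw [← e1, ev, e2, e1, apply_apply_of_sq h2])
    (by rw [← e2, ev, apply_apply_of_sq ha2, e1, e2])
    (by rw [← e3, ev, e4, e3, apply_apply_of_sq h2])
    (by rw [← e4, ev, apply_apply_of_sq ha2, e3, e4])
  set b'' := k * (g * b * g⁻¹) * k⁻¹ with hb''
  have hki : ∀ x, k x = x → k⁻¹ x = x := fun x hx => by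
    conv_lhs => rw [← hx]
    exact k.symm_apply_apply x
  have q1 : b'' j = t' j := by
    rw [hb'', Equiv.Perm.mul_apply, Equiv.Perm.mul_apply, hki _ k1, ← e1, ev, e3, k3, e1]
  have q2 : b'' (t j) = t (t' j) := by
    rw [hb'', Equiv.Perm.mul_apply, Equiv.Perm.mul_apply, hki _ k2, ← e2, ev, ← hab', e4, k4]
  have q3 : b'' (t' j) = j := by
    rw [hb'', Equiv.Perm.mul_apply, Equiv.Perm.mul_apply, hki _ k3, ← e3, ev, apply_apply_of_sq hb2, e1, k1]
  have q4 : b'' (t (t' j)) = t j := by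
    rw [hb'', Equiv.Perm.mul_apply, Equiv.Perm.mul_apply, hki _ k4, ← e4, ev, hab', apply_apply_of_sq hb2,
      e2, k2]
  have hb''G : b'' ∈ G := G.mul_mem (G.mul_mem hk (G.mul_mem (G.mul_mem hg hb) (G.inv_mem hg))) (G.inv_mem hk)
  obtain ⟨k', hk', -, -, -, -, hkc', n, hn⟩ := conj_of_agree hG ht' hb''G h2' (conj_sq k _ (conj_sq g b hb2))
    j (t j) (t' j) (t (t' j)) j1 j2 j3 j4 j5 j6
    (by rw [q1, apply_apply_of_sq h2'])
    (by rw [q2, ← hc' (t' j), apply_apply_of_sq h2'])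
    (by rw [q3])
    (by rw [q4, ← hc'])
  have hcb : Commute t b'' := by
    have h0 : (k * g) * (a * b) * (k * g)⁻¹ = (k * g) * (b * a) * (k * g)⁻¹ := by rw [hab]
    show t * b'' = b'' * t
    rw [hb'', ← hkc]
    calc k * (g * a * g⁻¹) * k⁻¹ * (k * (g * b * g⁻¹) * k⁻¹) = (k * g) * (a * b) * (k * g)⁻¹ := by group
      _ = (k * g) * (b * a) * (k * g)⁻¹ := h0
      _ = _ := by group
  have hk't : k' * t * k'⁻¹ = t := by
    have h0 : Commute t k' := hn ▸ (Commute.mul_right (show Commute t t' from hc) hcb).pow_right n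
    rw [← h0.eq, mul_inv_cancel_right]
  set w := k' * k * g with hw
  have hwa : fixset t = (fixset a).map w.toEmbedding := by
    rw [← fixset_conj]
    congr 1
    conv_lhs => rw [← hk't, ← hkc]
    rw [hw]; group
  have hwb : fixset t' = (fixset b).map w.toEmbedding := by
    rw [← fixset_conj]
    congr 1
    conv_lhs => rw [← hkc']
    rw [hb'', hw]; group
  have := Finset.map_injective _ (hwa.symm.trans (hF.trans hwb))
  exact h6 (((mem_fixset.1 (this ▸ mem_fixset.2 a3 : c ∈ fixset b)).symm.trans b3))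

include hG in
/-- An involution centralises the pointwise stabiliser of its fixed points, provided the stabiliser
of all but one of them is `2`-transitive enough. -/
theorem commute_stabilizer (S : Finset α) (v : α) (a : Equiv.Perm α) (haG : a ∈ G) (ha2 : a * a = 1)
    (ha1 : a ≠ 1) (hvS : v ∉ S) (hF : fixset a = insert v S)
    (htr : ∀ p q, p ∉ S → q ∉ S → ∃ g ∈ G, (∀ s ∈ S, g s = s) ∧ g p = q)
    (htr2 : ∀ p q, p ∉ S → q ∉ S → p ≠ v → q ≠ v → ∃ g ∈ G, (∀ s ∈ S, g s = s) ∧ g v = v ∧ g p = q)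
    (u : Equiv.Perm α) (huG : u ∈ G) (huF : ∀ x ∈ fixset a, u x = x) : a * u = u * a := by
  classical
  haveI : Fact (Nat.Prime 2) := ⟨Nat.prime_two⟩
  let Γ : Subgroup (Equiv.Perm α) :=
    { carrier := {g | g ∈ G ∧ ∀ s ∈ S, g s = s}
      one_mem' := ⟨G.one_mem, fun _ _ => rfl⟩
      mul_mem' := fun {g h} hg hh => ⟨G.mul_mem hg.1 hh.1, fun s hs => by
        rw [Equiv.Perm.mul_apply, hh.2 s hs, hg.2 s hs]⟩
      inv_mem' := fun {g} hg => ⟨G.inv_mem hg.1, fun s hs => by
        conv_lhs => rw [← hg.2 s hs]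
        exact g.symm_apply_apply s⟩ }
  have hSF : ∀ s ∈ S, a s = s := fun s hs => mem_fixset.1 (hF ▸ Finset.mem_insert_of_mem hs)
  have hav : a v = v := mem_fixset.1 (hF ▸ Finset.mem_insert_self v S)
  have hout : ∀ x, x ∉ S → a x = x → x = v := fun x hx h =>
    (Finset.mem_insert.1 (hF ▸ mem_fixset.2 h)).resolve_right hx
  have haΓ : a ∈ Γ := ⟨haG, hSF⟩
  -- isolation
  have hisoC : ∀ g : Γ, Commute a (g * a * (g : Equiv.Perm α)⁻¹) → (g : Equiv.Perm α) * a * (g : Equiv.Perm α)⁻¹ = a := by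
    intro g hc
    set a' := (g : Equiv.Perm α) * a * (g : Equiv.Perm α)⁻¹ with ha'
    have hgi : ∀ x, (g : Equiv.Perm α)⁻¹ ((g : Equiv.Perm α) x) = x := fun x =>
      (g : Equiv.Perm α).symm_apply_apply x
    have hFa' : fixset a' = insert ((g : Equiv.Perm α) v) S := by
      rw [ha', fixset_conj, hF, Finset.map_insert]
      congr 1
      ext x
      rw [Finset.mem_map]
      constructor
      · rintro ⟨s, hs, rfl⟩
        exact (g.2.2 s hs).symm ▸ hs
      · exact fun hx => ⟨x, hx, g.2.2 x hx⟩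
    have hgv : (g : Equiv.Perm α) v ∉ S := fun h => hvS (by
      have := g.2.2 _ h
      rw [(g : Equiv.Perm α).injective this] at h
      exact h)
    have hav' : a ((g : Equiv.Perm α) v) = (g : Equiv.Perm α) v := by
      have hm : (g : Equiv.Perm α) v ∈ fixset a' := by rw [hFa']; exact Finset.mem_insert_self _ S
      have h1 : a' (a ((g : Equiv.Perm α) v)) = a ((g : Equiv.Perm α) v) := by
        rw [← Equiv.Perm.mul_apply, ← hc.eq, Equiv.Perm.mul_apply, mem_fixset.1 hm]
      have hm2 := mem_fixset.2 h1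
      rw [hFa'] at hm2
      rcases Finset.mem_insert.1 hm2 with h | h
      · exact h
      · exact absurd (by rw [← apply_apply_of_sq ha2 ((g : Equiv.Perm α) v), hSF _ h]; exact h) hgv
    refine (eq_of_fixset_eq hG haG (G.mul_mem (G.mul_mem g.2.1 haG) (G.inv_mem g.2.1)) ha2 ?_ ha1 ?_ hc.eq
      ?_).symm
    · rw [show (g : Equiv.Perm α) * a * (g : Equiv.Perm α)⁻¹ * (g * a * (g : Equiv.Perm α)⁻¹) =
        g * (a * a) * (g : Equiv.Perm α)⁻¹ by group, ha2, mul_one, mul_inv_cancel]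
    · intro h
      apply ha1
      calc a = (g : Equiv.Perm α)⁻¹ * ((g : Equiv.Perm α) * a * (g : Equiv.Perm α)⁻¹) * g := by group
        _ = 1 := by rw [h, mul_one, inv_mul_cancel]
    · rw [hF, hFa', hout _ hgv hav']
  let ā : Γ := ⟨a, haΓ⟩
  have hāord : orderOf ā = 2 :=
    orderOf_eq_prime (Subtype.ext (by rw [pow_two]; exact ha2)) fun h => ha1 (congrArg Subtype.val h)
  obtain ⟨P, hP⟩ := (IsPGroup.of_card (G := zpowers ā) (p := 2) (n := 1)
    (by rw [Nat.card_zpowers, hāord, pow_one])).exists_le_sylow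
  have hāP : ā ∈ (P : Subgroup Γ) := hP (mem_zpowers ā)
  have hcen : ∀ x : (P : Subgroup Γ), Commute x ⟨ā, hāP⟩ := central_of_isolated P.2 ⟨ā, hāP⟩ fun x hx =>
    Subtype.ext (Subtype.ext (hisoC x (congrArg (fun t : (P : Subgroup Γ) => ((t : Γ) : Equiv.Perm α)) hx)))
  obtain ⟨N, hNn, hNodd, hN⟩ := Cfsg.Agent.S0215.result P ā hāord hāP fun g hg =>
    Subtype.ext (hisoC g (congrArg (fun t : (P : Subgroup Γ) => ((t : Γ) : Equiv.Perm α)) (hcen ⟨_, hg⟩)).symm)
  haveI := Cfsg.Agent.S0205.result hNodd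
  -- a nontrivial abelian normal subgroup
  have hN1 : N ≠ ⊥ := by
    intro h
    obtain ⟨q, hq⟩ := exists_fresh hG (fixset a) (by have := card_fix_le hG haG ha2 ha1; omega)
    rw [hF, Finset.mem_insert, not_or] at hq
    obtain ⟨g, hg, hgS, hgv⟩ := htr v q hvS hq.2
    have h1 := hN ⟨g, hg, hgS⟩
    rw [h, mem_bot, mul_inv_eq_one, mul_inv_eq_iff_eq_mul] at h1
    have h2 : a (g v) = g (a v) := congrArg (fun t : Γ => (t : Equiv.Perm α) v) h1
    rw [hgv, hav] at h2
    exact hq.1 (hout q hq.2 (h2.trans hgv))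
  haveI : Nontrivial N := (nontrivial_iff_ne_bot N).2 hN1
  obtain ⟨A, hAn, hA1, hAc⟩ : ∃ A : Subgroup Γ, A.Normal ∧ A ≠ ⊥ ∧ IsMulCommutative A := by
    obtain ⟨m, hm⟩ := (inferInstance : Group.IsSolvable N).solvable
    have hex : ∃ j, derivedSeries N j = ⊥ := ⟨m, hm⟩
    classical
    have hj0 : Nat.find hex ≠ 0 := fun h => by
      have := Nat.find_spec hex
      rw [h, derivedSeries_zero] at this
      exact top_ne_bot this
    obtain ⟨j, hj⟩ := Nat.exists_eq_succ_of_ne_zero hj0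
    have hspec := Nat.find_spec hex
    rw [hj, derivedSeries_succ] at hspec
    refine ⟨(derivedSeries N j).map N.subtype, inferInstance, ?_, ⟨⟨?_⟩⟩⟩
    · rw [Ne, map_eq_bot_iff_of_injective _ N.subtype_injective]
      exact Nat.find_min hex (by omega)
    · rintro ⟨_, x, hx, rfl⟩ ⟨_, y, hy, rfl⟩
      have h1 : ⁅x, y⁆ = 1 := (mem_bot).1 (hspec ▸ commutator_mem_commutator hx hy)
      exact Subtype.ext (by
        show (x : Γ) * y = y * x
        rw [← Subgroup.coe_mul, commutatorElement_eq_one_iff_mul_comm.1 h1, Subgroup.coe_mul])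
  have hAcomm : ∀ x ∈ A, ∀ y ∈ A, x * y = y * x := fun x hx y hy =>
    congrArg Subtype.val (hAc.is_comm.comm ⟨x, hx⟩ ⟨y, hy⟩)
  have hApp : ∀ (x y : Γ) (p : α), ((x * y : Γ) : Equiv.Perm α) p = (x : Equiv.Perm α) ((y : Equiv.Perm α) p) :=
    fun x y p => rfl
  have hΓS : ∀ (g : Γ) (p : α), p ∉ S → (g : Equiv.Perm α) p ∉ S := fun g p hp h => hp (by
    have := (g : Equiv.Perm α).injective (g.2.2 _ h)
    rwa [this] at h)
  -- `A` is transitive
  have htrans : ∀ p, p ∉ S → ∃ x ∈ A, (x : Equiv.Perm α) v = p := by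
    obtain ⟨x₀, hx₀, hx₀1⟩ := A.bot_or_exists_ne_one.resolve_left hA1
    have hmov : ∃ x ∈ A, (x : Equiv.Perm α) v ≠ v := by
      by_contra hno
      push Not at hno
      apply hx₀1
      apply Subtype.ext
      ext p
      show (x₀ : Equiv.Perm α) p = p
      by_cases hp : p ∈ S
      · exact x₀.2.2 p hp
      · obtain ⟨g, hg, hgS, hgp⟩ := htr v p hvS hp
        have h0 := hno _ (hAn.conj_mem x₀ hx₀ (⟨g, hg, hgS⟩ : Γ)⁻¹)
        rw [inv_inv, hApp, hApp] at h0
        have h1 : g⁻¹ ((x₀ : Equiv.Perm α) (g v)) = v := h0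
        rw [hgp, Equiv.Perm.inv_def, Equiv.symm_apply_eq, hgp] at h1
        exact h1
    intro p hp
    by_cases hpv : p = v
    · exact ⟨1, A.one_mem, hpv.symm⟩
    obtain ⟨x, hx, hxv⟩ := hmov
    obtain ⟨g, hg, hgS, hgv, hgp⟩ := htr2 _ p (hΓS x v hvS) hp hxv hpv
    refine ⟨_, hAn.conj_mem x hx ⟨g, hg, hgS⟩, ?_⟩
    rw [hApp, hApp]
    show g ((x : Equiv.Perm α) (g⁻¹ v)) = p
    rw [show g⁻¹ v = v by rw [Equiv.Perm.inv_def, Equiv.symm_apply_eq, hgv], hgp]
  have hreg : ∀ y : Γ, (∀ x ∈ A, x * y = y * x) → (y : Equiv.Perm α) v = v → y = 1 := by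
    intro y hy hyv
    apply Subtype.ext
    ext p
    show (y : Equiv.Perm α) p = p
    by_cases hp : p ∈ S
    · exact y.2.2 p hp
    · obtain ⟨x, hx, rfl⟩ := htrans p hp
      rw [← hApp, ← hy x hx, hApp, hyv]
  have hā2 : ā * ā = 1 := Subtype.ext ha2
  have hāi : ā⁻¹ = ā := inv_eq_of_mul_eq_one_right hā2
  have hinvert : ∀ x ∈ A, ā * x * ā = x⁻¹ := by
    intro x hx
    have hx' : ā * x * ā ∈ A := by
      have := hAn.conj_mem x hx ā
      rwa [hāi] at this
    have h1 : x * (ā * x * ā) = 1 := by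
      set y := x * (ā * x * ā) with hy
      have hyA : y ∈ A := A.mul_mem hx hx'
      have hcy : ā * y = y * ā := by
        calc ā * y = ā * x * ā * x * ā := by rw [hy]; simp only [mul_assoc]
          _ = (ā * x * ā * x) * ā := by simp only [mul_assoc]
          _ = y * ā := by rw [hy, hAcomm _ hx _ hx']
      refine hreg y (fun z hz => hAcomm z hz y hyA) ?_
      refine hout _ (hΓS y v hvS) ?_
      show (ā : Equiv.Perm α) ((y : Equiv.Perm α) v) = _
      rw [← hApp, hcy, hApp]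
      show (y : Equiv.Perm α) (a v) = _
      rw [hav]
    exact eq_inv_of_mul_eq_one_right h1
  -- the commutator with `u`
  let ū : Γ := ⟨u, huG, fun s hs => huF s (hF ▸ Finset.mem_insert_of_mem hs)⟩
  have huv : u v = v := huF v (hF ▸ Finset.mem_insert_self v S)
  have hc : ā * ū * ā * ū⁻¹ = 1 := by
    refine hreg _ (fun x hx => ?_) ?_
    · have hx' : ū⁻¹ * x * ū ∈ A := by
        have := hAn.conj_mem x hx ū⁻¹
        rwa [inv_inv] at this
      have h1 := hinvert _ hx'
      have h2 : ā * ū * ā * ū⁻¹ * x * (ā * ū * ā * ū⁻¹)⁻¹ = x := by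
        calc ā * ū * ā * ū⁻¹ * x * (ā * ū * ā * ū⁻¹)⁻¹
            = ā * ū * (ā * (ū⁻¹ * x * ū) * ā⁻¹) * ū⁻¹ * ā⁻¹ := by group
          _ = ā * x⁻¹ * ā := by rw [hāi, h1]; group
          _ = x := by rw [hinvert _ (A.inv_mem hx), inv_inv]
      conv_lhs => rw [← h2]
      group
    · rw [hApp, hApp, hApp]
      show a (u (a (u⁻¹ v))) = v
      rw [show u⁻¹ v = v by rw [Equiv.Perm.inv_def, Equiv.symm_apply_eq, huv], hav, huv, hav]
  have h := congrArg (Subtype.val) hc
  have h' : a * u * a * u⁻¹ = 1 := h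
  rw [mul_inv_eq_one] at h'
  calc a * u = a * u * (a * a) := by rw [ha2, mul_one]
    _ = a * u * a * a := by simp only [mul_assoc]
    _ = u * a := by rw [h']

include hG in
/-- In degree at least eight the degree is eleven and only the identity fixes four points. -/
theorem eleven : Fintype.card α = 11 ∧ ∀ g ∈ G, ∀ a b c d : α, a ≠ b → a ≠ c → a ≠ d → b ≠ c → b ≠ d → c ≠ d →
    g a = a → g b = b → g c = c → g d = d → g = 1 := by
  classical
  -- every involution fixes exactly three points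
  have hne : ∀ t : Equiv.Perm α, ∀ p q, t p = q → p ≠ q → t ≠ 1 := fun t p q h h' h1 => h' (by
    rw [← h, h1]; rfl)
  have hsame : ∀ t ∈ G, ∀ s ∈ G, t * t = 1 → s * s = 1 → t ≠ 1 → s ≠ 1 → (fixset t).card = (fixset s).card := by
    intro t ht s hs ht2 hs2 ht1 hs1
    obtain ⟨g, -, hg⟩ := involutions_conj hG ht hs ht2 hs2 ht1 hs1
    rw [← hg, fixset_conj, Finset.card_map]
  have hthree : ∀ t ∈ G, t * t = 1 → t ≠ 1 → (fixset t).card = 3 := by
    intro t ht ht2 ht1
    obtain ⟨S, -, hS⟩ := Finset.exists_subset_card_eq (s := (Finset.univ : Finset α)) (n := 4)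
      (by have := hG.eight; rw [Finset.card_univ]; omega)
    obtain ⟨p, q, c, d, h1, h2, h3, h4, h5, h6, -⟩ := Finset.card_eq_four.1 hS
    obtain ⟨a, ha, ha2, a1, a2, a3, a4⟩ := exists_inv hG p q c d h1 h2 h3 h4 h5 h6
    have ha1 : a ≠ 1 := hne a p q a1 h1
    rw [hsame t ht a ha ht2 ha2 ht1 ha1]
    have hsub : ({c, d} : Finset α) ⊆ fixset a := by
      intro x hx
      simp only [Finset.mem_insert, Finset.mem_singleton] at hx
      rcases hx with rfl | rfl <;> exact mem_fixset.2 (by assumption)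
    have h2le := Finset.card_le_card hsub
    rw [Finset.card_pair h6] at h2le
    have h3le := card_fix_le hG ha ha2 ha1
    by_contra h3ne
    have hF : fixset a = insert d ({c} : Finset α) := by
      rw [Finset.pair_comm d c]
      exact (Finset.eq_of_subset_of_card_le hsub (by rw [Finset.card_pair h6]; omega)).symm
    have hcm : ∀ u ∈ G, (∀ x ∈ fixset a, u x = x) → a * u = u * a :=
      fun u hu hx => commute_stabilizer hG {c} d a ha ha2 ha1 (by simp [h6.symm]) hF
        (fun x y hx hy => by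
          simp only [Finset.mem_singleton] at hx hy
          obtain ⟨g, hg, e1, e2⟩ := map2 hG c x c y (Ne.symm hx) (Ne.symm hy)
          exact ⟨g, hg, fun s hs => by rw [Finset.mem_singleton.1 hs, e1], e2⟩)
        (fun x y hx hy hxv hyv => by
          simp only [Finset.mem_singleton] at hx hy
          obtain ⟨g, hg, e1, e2, e3⟩ := map3 hG c d x c d y h6 (Ne.symm hx) (Ne.symm hxv) h6 (Ne.symm hy)
            (Ne.symm hyv)
          exact ⟨g, hg, fun s hs => by rw [Finset.mem_singleton.1 hs, e1], e2, e3⟩)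
        u hu hx
    obtain ⟨r, hr⟩ := exists_fresh hG {p, q, c, d} (lt_of_le_of_lt Finset.card_le_four (by norm_num))
    simp only [Finset.mem_insert, Finset.mem_singleton, not_or] at hr
    obtain ⟨g, hg, g1, g2, g3, g4⟩ := hG.map4 p q c d p r c d h1 h2 h3 h4 h5 h6 (Ne.symm hr.1) h2 h3 hr.2.2.1 hr.2.2.2 h6
    have := hcm g hg fun x hx => by
      rw [hF] at hx
      simp only [Finset.mem_insert, Finset.mem_singleton] at hx
      rcases hx with rfl | rfl <;> assumption
    have h0 : a (g p) = g (a p) := by rw [← Equiv.Perm.mul_apply, this, Equiv.Perm.mul_apply]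
    rw [g1, a1, g2] at h0
    exact hr.2.1 h0.symm
  -- the centre property
  have hcentral : ∀ t ∈ G, t * t = 1 → t ≠ 1 → ∀ u ∈ G, (∀ x ∈ fixset t, u x = x) → t * u = u * t := by
    intro t ht ht2 ht1 u hu hux
    obtain ⟨c, d, w, h1, h2, h3, hF⟩ := Finset.card_eq_three.1 (hthree t ht ht2 ht1)
    refine commute_stabilizer hG {c, d} w t ht ht2 ht1 (by simp [h2.symm, h3.symm]) ?_ ?_ ?_ u hu hux
    · rw [hF]
      ext x
      simp only [Finset.mem_insert, Finset.mem_singleton]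
      tauto
    · intro x y hx hy
      simp only [Finset.mem_insert, Finset.mem_singleton, not_or] at hx hy
      obtain ⟨g, hg, e1, e2, e3⟩ := map3 hG c d x c d y h1 (Ne.symm hx.1) (Ne.symm hx.2) h1 (Ne.symm hy.1)
        (Ne.symm hy.2)
      exact ⟨g, hg, fun s hs => by
        simp only [Finset.mem_insert, Finset.mem_singleton] at hs
        rcases hs with rfl | rfl <;> assumption, e3⟩
    · intro x y hx hy hxw hyw
      simp only [Finset.mem_insert, Finset.mem_singleton, not_or] at hx hy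
      obtain ⟨g, hg, e1, e2, e3, e4⟩ := hG.map4 c d w x c d w y h1 h2 (Ne.symm hx.1) h3 (Ne.symm hx.2) (Ne.symm hxw)
        h1 h2 (Ne.symm hy.1) h3 (Ne.symm hy.2) (Ne.symm hyw)
      exact ⟨g, hg, fun s hs => by
        simp only [Finset.mem_insert, Finset.mem_singleton] at hs
        rcases hs with rfl | rfl <;> assumption, e3, e4⟩
  -- the fixed points determine the involution
  have hdet : ∀ t ∈ G, ∀ s ∈ G, t * t = 1 → s * s = 1 → t ≠ 1 → s ≠ 1 → fixset t = fixset s → t = s := by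
    intro t ht s hs ht2 hs2 ht1 hs1 hF
    refine eq_of_fixset_eq hG ht hs ht2 hs2 ht1 hs1 (hcentral t ht ht2 ht1 s hs fun x hx => ?_) hF
    exact mem_fixset.1 (hF ▸ hx)
  -- an involution for each triple
  have htriple : ∀ c d w : α, c ≠ d → c ≠ w → d ≠ w →
      ∃ t ∈ G, t * t = 1 ∧ t ≠ 1 ∧ fixset t = {c, d, w} := by
    intro c d w h1 h2 h3
    obtain ⟨p, hp⟩ := exists_fresh hG {c, d} (lt_of_le_of_lt Finset.card_le_two (by norm_num))
    obtain ⟨q, hq⟩ := exists_fresh hG {c, d, p} (lt_of_le_of_lt Finset.card_le_three (by norm_num))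
    simp only [Finset.mem_insert, Finset.mem_singleton, not_or] at hp hq
    obtain ⟨t, ht, ht2, t1, t2, t3, t4⟩ := exists_inv hG p q c d (Ne.symm hq.2.2) hp.1 hp.2 hq.1 hq.2.1 h1
    have ht1 : t ≠ 1 := hne t p q t1 (Ne.symm hq.2.2)
    obtain ⟨c', d', w', h1', h2', h3', hF⟩ := Finset.card_eq_three.1 (hthree t ht ht2 ht1)
    obtain ⟨g, hg, e1, e2, e3⟩ := map3 hG c' d' w' c d w h1' h2' h3' h1 h2 h3
    refine ⟨g * t * g⁻¹, G.mul_mem (G.mul_mem hg ht) (G.inv_mem hg), ?_, fun h => ht1 ?_, ?_⟩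
    · rw [show g * t * g⁻¹ * (g * t * g⁻¹) = g * (t * t) * g⁻¹ by group, ht2, mul_one, mul_inv_cancel]
    · calc t = g⁻¹ * (g * t * g⁻¹) * g := by group
        _ = 1 := by rw [h, mul_one, inv_mul_cancel]
    · rw [fixset_conj, hF]
      simp [e1, e2, e3]
  have huniq : ∀ p q c d : α, p ≠ q → p ≠ c → p ≠ d → q ≠ c → q ≠ d → c ≠ d →
      ∀ t ∈ G, ∀ s ∈ G, t * t = 1 → s * s = 1 → t p = q → t c = c → t d = d → s p = q → s c = c → s d = d →
        t = s := by
    intro p q c d h1 h2 h3 h4 h5 h6 t ht s hs ht2 hs2 t1 t3 t4 s1 s3 s4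
    have hex : ∀ v : α, ∃ τ : Equiv.Perm α, v ≠ p ∧ v ≠ c ∧ v ≠ d →
        τ ∈ G ∧ τ * τ = 1 ∧ τ ≠ 1 ∧ fixset τ = {c, d, v} := by
      intro v
      by_cases hv : v ≠ p ∧ v ≠ c ∧ v ≠ d
      · obtain ⟨τ, h⟩ := htriple c d v h6 (Ne.symm hv.2.1) (Ne.symm hv.2.2)
        exact ⟨τ, fun _ => h⟩
      · exact ⟨1, fun h => absurd h hv⟩
    choose τ hτ using hex
    have hform : ∀ σ ∈ G, σ * σ = 1 → σ p ≠ p → σ c = c → σ d = d →
        ∃ v, (v ≠ p ∧ v ≠ c ∧ v ≠ d) ∧ σ = τ v := by
      intro σ hσ hσ2 hσp hσc hσd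
      have hσ1 : σ ≠ 1 := fun h => hσp (by rw [h]; rfl)
      obtain ⟨v, hv, hvn⟩ := Finset.exists_mem_notMem_of_card_lt_card (s := ({c, d} : Finset α)) (t := fixset σ)
        (by rw [hthree σ hσ hσ2 hσ1, Finset.card_pair h6]; norm_num)
      simp only [Finset.mem_insert, Finset.mem_singleton, not_or] at hvn
      have hv' : v ≠ p ∧ v ≠ c ∧ v ≠ d := ⟨fun h => hσp (h ▸ mem_fixset.1 hv), hvn.1, hvn.2⟩
      obtain ⟨t1, t2, t3, t4⟩ := hτ v hv'
      refine ⟨v, hv', hdet σ hσ (τ v) t1 hσ2 t2 hσ1 t3 ?_⟩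
      rw [t4]
      refine (Finset.eq_of_subset_of_card_le ?_ ?_).symm
      · intro x hx
        simp only [Finset.mem_insert, Finset.mem_singleton] at hx
        rcases hx with rfl | rfl | rfl
        exacts [mem_fixset.2 hσc, mem_fixset.2 hσd, hv]
      · rw [hthree σ hσ hσ2 hσ1, Finset.card_eq_three.2 ⟨c, d, v, h6, Ne.symm hvn.1, Ne.symm hvn.2, rfl⟩]
    let D := {v : α // v ≠ p ∧ v ≠ c ∧ v ≠ d}
    let φ : D → D := fun v => ⟨τ v.1 p, by
      obtain ⟨t1, t2, t3, t4⟩ := hτ v.1 v.2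
      have hc : τ v.1 c = c := mem_fixset.1 (t4 ▸ by simp)
      have hd : τ v.1 d = d := mem_fixset.1 (t4 ▸ by simp)
      refine ⟨fun h => ?_, fun h => h2 ((τ v.1).injective (h.trans hc.symm)),
        fun h => h3 ((τ v.1).injective (h.trans hd.symm))⟩
      have := t4 ▸ mem_fixset.2 h
      simp only [Finset.mem_insert, Finset.mem_singleton] at this
      rcases this with h | h | h
      exacts [h2 h, h3 h, v.2.1 h.symm]⟩
    have hsurj : Function.Surjective φ := by
      rintro ⟨r, hr1, hr2, hr3⟩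
      obtain ⟨σ, hσ, hσ2, σ1, σ2, σ3, σ4⟩ := exists_inv hG p r c d hr1.symm h2 h3 hr2 hr3 h6
      obtain ⟨v, hv, hσv⟩ := hform σ hσ hσ2 (σ1.symm ▸ hr1) σ3 σ4
      exact ⟨⟨v, hv⟩, Subtype.ext (show τ v p = r by rw [← hσv, σ1])⟩
    have hinj : Function.Injective φ := Finite.injective_iff_surjective.2 hsurj
    obtain ⟨v, hv, rfl⟩ := hform t ht ht2 (t1.symm ▸ h1.symm) t3 t4
    obtain ⟨v', hv', rfl⟩ := hform s hs hs2 (s1.symm ▸ h1.symm) s3 s4
    have := @hinj ⟨v, hv⟩ ⟨v', hv'⟩ (Subtype.ext (t1.trans s1.symm))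
    rw [Subtype.mk.injEq] at this
    rw [this]
  -- stabilisers of four points centralise the pattern involutions
  have hstab : ∀ p q c d : α, p ≠ q → p ≠ c → p ≠ d → q ≠ c → q ≠ d → c ≠ d → ∀ g ∈ G,
      g p = p → g q = q → g c = c → g d = d → ∀ t ∈ G, t * t = 1 → t p = q → t c = c → t d = d →
      g * t = t * g := by
    intro p q c d h1 h2 h3 h4 h5 h6 g hg g1 g2 g3 g4 t ht ht2 t1 t3 t4
    have hi : ∀ x, g x = x → g⁻¹ x = x := fun x hx => by
      conv_lhs => rw [← hx]
      exact g.symm_apply_apply x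
    have := huniq p q c d h1 h2 h3 h4 h5 h6 (g * t * g⁻¹) (G.mul_mem (G.mul_mem hg ht) (G.inv_mem hg)) t ht
      (by rw [show g * t * g⁻¹ * (g * t * g⁻¹) = g * (t * t) * g⁻¹ by group, ht2, mul_one, mul_inv_cancel])
      ht2 (by rw [Equiv.Perm.mul_apply, Equiv.Perm.mul_apply, hi p g1, t1, g2])
      (by rw [Equiv.Perm.mul_apply, Equiv.Perm.mul_apply, hi c g3, t3, g3])
      (by rw [Equiv.Perm.mul_apply, Equiv.Perm.mul_apply, hi d g4, t4, g4]) t1 t3 t4
    exact mul_inv_eq_iff_eq_mul.1 this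
  have hdouble : ∀ p q c d : α, p ≠ q → p ≠ c → p ≠ d → q ≠ c → q ≠ d → c ≠ d →
      ∀ t ∈ G, ∀ s ∈ G, t * t = 1 → s * s = 1 → t p = q → t c = d → s p = q → s c = d → t = s := by
    intro p q c d h1 h2 h3 h4 h5 h6 t ht s hs ht2 hs2 t1 t3 s1 s3
    obtain ⟨a, ha, b, hb, ha2, hb2, hab, a1, a2, a3, a4, b1, b2, b3, b4⟩ :=
      exists_pair hG p q c d h1 h2 h3 h4 h5 h6
    have hz2 : a * b * (a * b) = 1 := by
      rw [mul_assoc, ← mul_assoc b a, ← hab, mul_assoc a b b, hb2, mul_one, ha2]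
    have key : ∀ t ∈ G, t * t = 1 → t p = q → t c = d → t = a * b := by
      intro t ht ht2 t1 t3
      have t2 : t q = p := by rw [← t1, apply_apply_of_sq ht2]
      have t4 : t d = c := by rw [← t3, apply_apply_of_sq ht2]
      set h := a * b * t with hh
      have hhG : h ∈ G := G.mul_mem (G.mul_mem ha hb) ht
      have f : h p = p ∧ h q = q ∧ h c = c ∧ h d = d := by
        simp only [hh, Equiv.Perm.mul_apply, t1, t2, t3, t4, a1, a2, a3, a4, b1, b2, b3, b4, and_self]
      have c1 := hstab p q c d h1 h2 h3 h4 h5 h6 h hhG f.1 f.2.1 f.2.2.1 f.2.2.2 a ha ha2 a1 a3 a4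
      have c2 := hstab c d p q h6 h2.symm h4.symm h3.symm h5.symm h1 h hhG f.2.2.1 f.2.2.2 f.1 f.2.1 b hb hb2 b3 b1 b2
      have c3 : Commute h (a * b) := Commute.mul_right c1 c2
      have ht' : t = a * b * h := by rw [hh, ← mul_assoc (a * b), hz2, one_mul]
      have h2' : h * h = 1 := by
        calc h * h = (a * b * (a * b)) * (h * h) := by rw [hz2, one_mul]
          _ = a * b * (a * b * h) * h := by simp only [mul_assoc]
          _ = a * b * (h * (a * b)) * h := by rw [c3.eq]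
          _ = (a * b * h) * (a * b * h) := by simp only [mul_assoc]
          _ = 1 := by rw [← ht', ht2]
      have hodd := hG.odd h hhG p q c d h1 h2 h3 h4 h5 h6 f.1 f.2.1 f.2.2.1 f.2.2.2
      have hdvd : orderOf h ∣ 2 := orderOf_dvd_of_pow_eq_one (by rw [pow_two, h2'])
      rcases (Nat.dvd_prime Nat.prime_two).1 hdvd with e | e
      · rw [ht', orderOf_eq_one_iff.1 e, mul_one]
      · rw [e] at hodd; exact absurd hodd (by decide)
    rw [key t ht ht2 t1 t3, key s hs hs2 s1 s3]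
  -- counting the involutions interchanging two points
  obtain ⟨S, -, hS⟩ := Finset.exists_subset_card_eq (s := (Finset.univ : Finset α)) (n := 4)
    (by have := hG.eight; rw [Finset.card_univ]; omega)
  obtain ⟨p, q, c, d, h1, h2, h3, h4, h5, h6, -⟩ := Finset.card_eq_four.1 hS
  have hn : Fintype.card α = 11 := by
    let Sw : Finset (Equiv.Perm α) := Finset.univ.filter fun t => t ∈ G ∧ t * t = 1 ∧ t p = q
    have hSw : ∀ t, t ∈ Sw ↔ t ∈ G ∧ t * t = 1 ∧ t p = q := fun t => by simp [Sw]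
    let R : Finset α := ({p, q} : Finset α)ᶜ
    have hR : ∀ x, x ∈ R ↔ x ≠ p ∧ x ≠ q := fun x => by simp [R]
    let E := R.offDiag
    have hE : ∀ e : α × α, e ∈ E ↔ (e.1 ≠ p ∧ e.1 ≠ q) ∧ (e.2 ≠ p ∧ e.2 ≠ q) ∧ e.1 ≠ e.2 := fun e => by
      simp [E, Finset.mem_offDiag, hR]
    have hmovfix : ∀ t ∈ Sw, p ∉ fixset t ∧ q ∉ fixset t := fun t ht => by
      obtain ⟨-, ht2, t1⟩ := (hSw t).1 ht
      rw [mem_fixset, mem_fixset]
      refine ⟨fun h => h1 (h.symm.trans t1), fun h => h1 ?_⟩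
      rw [← apply_apply_of_sq ht2 p, t1, h]
    -- pairs of fixed points
    have hA : E.card = 6 * Sw.card := by
      have hbij : (Sw.sigma fun t => (fixset t).offDiag).card = E.card := by
        refine Finset.card_bij (fun x _ => x.2) ?_ ?_ ?_
        · rintro ⟨t, e⟩ hx
          rw [Finset.mem_sigma, Finset.mem_offDiag] at hx
          obtain ⟨m1, m2⟩ := hmovfix t hx.1
          rw [hE]
          exact ⟨⟨fun h => m1 (h ▸ hx.2.1), fun h => m2 (h ▸ hx.2.1)⟩,
            ⟨fun h => m1 (h ▸ hx.2.2.1), fun h => m2 (h ▸ hx.2.2.1)⟩, hx.2.2.2⟩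
        · rintro ⟨t, e⟩ hx ⟨t', e'⟩ hx' (rfl : e = e')
          rw [Finset.mem_sigma, Finset.mem_offDiag] at hx hx'
          obtain ⟨tG, ht2, t1⟩ := (hSw t).1 hx.1
          obtain ⟨tG', ht2', t1'⟩ := (hSw t').1 hx'.1
          obtain ⟨m1, m2⟩ := hmovfix t hx.1
          have : t = t' := huniq p q e.1 e.2 h1 (fun h => m1 (h ▸ hx.2.1)) (fun h => m1 (h ▸ hx.2.2.1))
            (fun h => m2 (h ▸ hx.2.1)) (fun h => m2 (h ▸ hx.2.2.1)) hx.2.2.2 t tG t' tG' ht2 ht2' t1
            (mem_fixset.1 hx.2.1) (mem_fixset.1 hx.2.2.1) t1' (mem_fixset.1 hx'.2.1) (mem_fixset.1 hx'.2.2.1)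
          rw [this]
        · intro e he
          obtain ⟨⟨r1, r2⟩, ⟨r3, r4⟩, r5⟩ := (hE e).1 he
          obtain ⟨t, ht, ht2, t1, -, t3, t4⟩ := exists_inv hG p q e.1 e.2 h1 r1.symm r3.symm r2.symm r4.symm r5
          exact ⟨⟨t, e⟩, Finset.mem_sigma.2 ⟨(hSw t).2 ⟨ht, ht2, t1⟩,
            Finset.mem_offDiag.2 ⟨mem_fixset.2 t3, mem_fixset.2 t4, r5⟩⟩, rfl⟩
      rw [← hbij, Finset.card_sigma, Finset.sum_congr rfl fun t ht => ?_, Finset.sum_const, smul_eq_mul, mul_comm]
      obtain ⟨tG, ht2, t1⟩ := (hSw t).1 ht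
      rw [Finset.offDiag_card, hthree t tG ht2 (hne t p q t1 h1)]
    -- moved pairs
    have hB : E.card = (Fintype.card α - 5) * Sw.card := by
      let M : Equiv.Perm α → Finset α := fun t => (fixset t ∪ {p, q})ᶜ
      have hbij : (Sw.sigma M).card = E.card := by
        refine Finset.card_bij (fun x _ => (x.2, x.1 x.2)) ?_ ?_ ?_
        · rintro ⟨t, r⟩ hx
          simp only [M, Finset.mem_sigma, Finset.mem_compl, Finset.mem_union, Finset.mem_insert,
            Finset.mem_singleton, not_or, mem_fixset] at hx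
          obtain ⟨-, ht2, t1⟩ := (hSw t).1 hx.1
          rw [hE]
          refine ⟨⟨hx.2.2.1, hx.2.2.2⟩, ⟨fun h => hx.2.2.2 ?_, fun h => hx.2.2.1 (t.injective (h.trans t1.symm))⟩,
            Ne.symm hx.2.1⟩
          show r = q
          rw [← t1, ← h, apply_apply_of_sq ht2]
        · rintro ⟨t, r⟩ hx ⟨t', r'⟩ hx' h
          simp only [Prod.mk.injEq] at h
          obtain ⟨rfl, h⟩ := h
          simp only [M, Finset.mem_sigma, Finset.mem_compl, Finset.mem_union, Finset.mem_insert,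
            Finset.mem_singleton, not_or, mem_fixset] at hx hx'
          obtain ⟨tG, ht2, t1⟩ := (hSw t).1 hx.1
          obtain ⟨tG', ht2', t1'⟩ := (hSw t').1 hx'.1
          have : t = t' := hdouble p q r (t r) h1 (Ne.symm hx.2.2.1) (fun hh => hx.2.2.2 (by
              rw [← t1, hh, apply_apply_of_sq ht2]))
            (Ne.symm hx.2.2.2) (fun hh => hx.2.2.1 (t.injective (hh.symm.trans t1.symm))) (Ne.symm hx.2.1)
            t tG t' tG' ht2 ht2' t1 rfl t1' h.symm
          rw [this]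
        · intro e he
          obtain ⟨⟨r1, r2⟩, ⟨r3, r4⟩, r5⟩ := (hE e).1 he
          obtain ⟨a, ha, b, hb, ha2, hb2, hab, a1, a2, a3, a4, b1, b2, b3, b4⟩ :=
            exists_pair hG p q e.1 e.2 h1 r1.symm r3.symm r2.symm r4.symm r5
          have hz2 : a * b * (a * b) = 1 := by
            rw [mul_assoc, ← mul_assoc b a, ← hab, mul_assoc a b b, hb2, mul_one, ha2]
          have he2 : (a * b) e.1 = e.2 := by rw [Equiv.Perm.mul_apply, b3, a4]
          refine ⟨⟨a * b, e.1⟩, Finset.mem_sigma.2 ⟨(hSw _).2 ⟨G.mul_mem ha hb, hz2, ?_⟩, ?_⟩, ?_⟩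
          · rw [Equiv.Perm.mul_apply, b1, a1]
          · simp only [M, Finset.mem_compl, Finset.mem_union, Finset.mem_insert, Finset.mem_singleton, not_or,
              mem_fixset]
            exact ⟨fun h => r5 (h.symm.trans he2), r1, r2⟩
          · rw [he2]
      rw [← hbij, Finset.card_sigma, Finset.sum_congr rfl fun t ht => ?_, Finset.sum_const, smul_eq_mul, mul_comm]
      obtain ⟨tG, ht2, t1⟩ := (hSw t).1 ht
      obtain ⟨m1, m2⟩ := hmovfix t ht
      rw [Finset.card_compl, Finset.card_union_of_disjoint, hthree t tG ht2 (hne t p q t1 h1), Finset.card_pair h1]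
      simp only [Finset.disjoint_insert_right, Finset.disjoint_singleton_right]
      exact ⟨m1, m2⟩
    have hpos : 0 < Sw.card := by
      obtain ⟨t, ht, ht2, t1, -⟩ := exists_inv hG p q c d h1 h2 h3 h4 h5 h6
      exact Finset.card_pos.2 ⟨t, (hSw t).2 ⟨ht, ht2, t1⟩⟩
    have := Nat.eq_of_mul_eq_mul_right hpos (hA.symm.trans hB)
    have := hG.eight
    omega
  refine ⟨hn, fun g hg p q c d h1 h2 h3 h4 h5 h6 g1 g2 g3 g4 => ?_⟩
  obtain ⟨a, ha, b, hb, ha2, hb2, hab, a1, a2, a3, a4, b1, b2, b3, b4⟩ :=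
    exists_pair hG p q c d h1 h2 h3 h4 h5 h6
  have ha1 : a ≠ 1 := hne a p q a1 h1
  have hb1 : b ≠ 1 := hne b c d b3 h6
  have hz2 : a * b * (a * b) = 1 := by
    rw [mul_assoc, ← mul_assoc b a, ← hab, mul_assoc a b b, hb2, mul_one, ha2]
  have hzp : (a * b) p = q := by rw [Equiv.Perm.mul_apply, b1, a1]
  have hz1 : a * b ≠ 1 := hne _ p q hzp h1
  have ca := hstab p q c d h1 h2 h3 h4 h5 h6 g hg g1 g2 g3 g4 a ha ha2 a1 a3 a4
  have cb := hstab c d p q h6 h2.symm h4.symm h3.symm h5.symm h1 g hg g3 g4 g1 g2 b hb hb2 b3 b1 b2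
  -- the common fixed point
  obtain ⟨w, hw, hwn⟩ := Finset.exists_mem_notMem_of_card_lt_card (s := ({c, d} : Finset α)) (t := fixset a)
    (by rw [hthree a ha ha2 ha1, Finset.card_pair h6]; norm_num)
  simp only [Finset.mem_insert, Finset.mem_singleton, not_or] at hwn
  have hsetA : fixset a = {c, d, w} := by
    refine (Finset.eq_of_subset_of_card_le ?_ ?_).symm
    · intro x hx
      simp only [Finset.mem_insert, Finset.mem_singleton] at hx
      rcases hx with rfl | rfl | rfl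
      exacts [mem_fixset.2 a3, mem_fixset.2 a4, hw]
    · rw [hthree a ha ha2 ha1, Finset.card_eq_three.2 ⟨c, d, w, h6, Ne.symm hwn.1, Ne.symm hwn.2, rfl⟩]
  have cap : ∀ {s t : Equiv.Perm α}, s * t = t * s → ∀ x, t x = x → t (s x) = s x := fun {s t} h x hx => by
    rw [← Equiv.Perm.mul_apply, ← h, Equiv.Perm.mul_apply, hx]
  have hwfix : ∀ s : Equiv.Perm α, s * a = a * s → s (s c) = c → s (s d) = d →
      (s c = c ∨ s c = d) → (s d = c ∨ s d = d) → s w = w := by
    intro s hs sc sd scc sdd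
    have h := hsetA ▸ mem_fixset.2 (cap hs w (mem_fixset.1 hw))
    simp only [Finset.mem_insert, Finset.mem_singleton] at h
    rcases h with h | h | h
    · exfalso
      rcases scc with e | e
      · exact hwn.1 (s.injective (h.trans e.symm))
      · exact hwn.2 (s.injective (h.trans (by rw [← e, sc])))
    · exfalso
      rcases sdd with e | e
      · exact hwn.1 (s.injective (h.trans (by rw [← e, sd])))
      · exact hwn.2 (s.injective (h.trans e.symm))
    · exact h
  have gw : g w = w := hwfix g ca (by rw [g3, g3]) (by rw [g4, g4]) (Or.inl g3) (Or.inr g4)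
  have bw : b w = w := hwfix b hab.symm (by rw [b3, b4]) (by rw [b4, b3]) (Or.inr b3) (Or.inl b4)
  have aw : a w = w := mem_fixset.1 hw
  have zw : (a * b) w = w := by rw [Equiv.Perm.mul_apply, bw, aw]
  have cz : g * (a * b) = a * b * g := Commute.mul_right ca cb
  -- the square of `g` is trivial
  have hsq : ∀ x, g (g x) = x := by
    intro x
    by_cases hxA : x ∈ fixset a
    · rw [hsetA] at hxA
      simp only [Finset.mem_insert, Finset.mem_singleton] at hxA
      rcases hxA with rfl | rfl | rfl <;> simp [g3, g4, gw]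
    by_cases hxB : x ∈ fixset b
    · have hsetB : fixset b = {p, q, w} := by
        have hwp : w ≠ p := fun h => h1 (by rw [← a1, ← h, aw])
        have hwq : w ≠ q := fun h => h1 (by rw [← a2, ← h, aw])
        refine (Finset.eq_of_subset_of_card_le ?_ ?_).symm
        · intro y hy
          simp only [Finset.mem_insert, Finset.mem_singleton] at hy
          rcases hy with rfl | rfl | rfl
          exacts [mem_fixset.2 b1, mem_fixset.2 b2, mem_fixset.2 bw]
        · rw [hthree b hb hb2 hb1, Finset.card_eq_three.2 ⟨p, q, w, h1, hwp.symm, hwq.symm, rfl⟩]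
      rw [hsetB] at hxB
      simp only [Finset.mem_insert, Finset.mem_singleton] at hxB
      rcases hxB with rfl | rfl | rfl <;> simp [g1, g2, gw]
    by_cases hxZ : x ∈ fixset (a * b)
    · -- the two other fixed points of `a * b`
      obtain ⟨u, v, huv, hset⟩ := Finset.card_eq_two.1
        (show ((fixset (a * b)).erase w).card = 2 by
          rw [Finset.card_erase_of_mem (mem_fixset.2 zw), hthree _ (G.mul_mem ha hb) hz2 hz1])
      have hperm : ∀ y ∈ (fixset (a * b)).erase w, g y ∈ (fixset (a * b)).erase w := fun y hy => by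
        rw [Finset.mem_erase] at hy ⊢
        exact ⟨fun h => hy.1 (g.injective (h.trans gw.symm)), mem_fixset.2 (cap cz y (mem_fixset.1 hy.2))⟩
      have hx : x ∈ (fixset (a * b)).erase w :=
        Finset.mem_erase.2 ⟨fun h => hxA (h ▸ hw), hxZ⟩
      have k1 := hperm x hx
      have k2 := hperm (g x) k1
      rw [hset] at hx k1 k2
      simp only [Finset.mem_insert, Finset.mem_singleton] at hx k1 k2
      rcases hx with rfl | rfl <;> rcases k1 with e | e <;> simp only [e] at k2 ⊢ <;>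
        first
        | rfl
        | exact k2.resolve_left fun h => huv (g.injective (e.trans h.symm)).symm
        | exact k2.resolve_right fun h => huv (g.injective (e.trans h.symm))
        | simp [e]
    -- a regular point
    simp only [mem_fixset] at hxA hxB hxZ
    let U : Finset α := fixset a ∪ fixset b ∪ fixset (a * b)
    have hU : 7 ≤ U.card := by
      have hwp : w ≠ p := fun h => h1 (by rw [← a1, ← h, aw])
      have hwq : w ≠ q := fun h => h1 (by rw [← a2, ← h, aw])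
      obtain ⟨u, v, huv, hset⟩ := Finset.card_eq_two.1
        (show ((fixset (a * b)).erase w).card = 2 by
          rw [Finset.card_erase_of_mem (mem_fixset.2 zw), hthree _ (G.mul_mem ha hb) hz2 hz1])
      have hsub : ({c, d, w} ∪ {p, q} ∪ {u, v} : Finset α) ⊆ U := by
        intro y hy
        simp only [Finset.mem_union, Finset.mem_insert, Finset.mem_singleton] at hy
        simp only [U, Finset.mem_union]
        rcases hy with ((rfl | rfl | rfl) | (rfl | rfl)) | hy
        exacts [Or.inl (Or.inl (mem_fixset.2 a3)), Or.inl (Or.inl (mem_fixset.2 a4)), Or.inl (Or.inl hw),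
          Or.inl (Or.inr (mem_fixset.2 b1)), Or.inl (Or.inr (mem_fixset.2 b2)),
          Or.inr (Finset.mem_of_mem_erase (hset ▸ by simpa using hy : y ∈ (fixset (a * b)).erase w))]
      have huv' : ∀ y ∈ ({u, v} : Finset α), y ≠ c ∧ y ≠ d ∧ y ≠ w ∧ y ≠ p ∧ y ≠ q := by
        intro y hy
        obtain ⟨yw, yz⟩ := Finset.mem_erase.1 (hset ▸ hy : y ∈ (fixset (a * b)).erase w)
        rw [mem_fixset, Equiv.Perm.mul_apply] at yz
        refine ⟨?_, ?_, yw, ?_, ?_⟩ <;> rintro rfl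
        · exact h6 (by rw [← yz, b3, a4])
        · exact h6 (by rw [← yz, b4, a3])
        · exact h1 (by rw [← yz, b1, a1])
        · exact h1 (by rw [← yz, b2, a2])
      refine le_trans (le_of_eq ?_) (Finset.card_le_card hsub)
      rw [Finset.card_union_of_disjoint, Finset.card_union_of_disjoint,
        Finset.card_eq_three.2 ⟨c, d, w, h6, Ne.symm hwn.1, Ne.symm hwn.2, rfl⟩, Finset.card_pair h1,
        Finset.card_pair huv]
      · simp [h2, h3, h4, h5, hwp.symm, hwq.symm]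
      · rw [Finset.disjoint_left]
        intro y hy hy'
        obtain ⟨y1, y2, y3, y4, y5⟩ := huv' y hy'
        simp only [Finset.mem_union, Finset.mem_insert, Finset.mem_singleton] at hy
        tauto
    have hab' : ∀ y, a (b y) = b (a y) := fun y => by rw [← Equiv.Perm.mul_apply, hab, Equiv.Perm.mul_apply]
    have hxU : ∀ y ∈ ({x, a x, b x, a (b x)} : Finset α), y ∈ Uᶜ := by
      intro y hy
      simp only [Finset.mem_insert, Finset.mem_singleton] at hy
      simp only [U, Finset.mem_compl, Finset.mem_union, not_or, mem_fixset]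
      have key : ∀ s t : Equiv.Perm α, (∀ y, s (t y) = t (s y)) → ∀ z, t z ≠ z → t (s z) ≠ s z :=
        fun s t hst z hz h => hz (s.injective (by rw [hst, h]))
      have haa : ∀ y, a (a y) = a (a y) := fun _ => rfl
      have hza : ∀ y, a ((a * b) y) = (a * b) (a y) := fun y => by simp [Equiv.Perm.mul_apply, hab']
      have hzb : ∀ y, b ((a * b) y) = (a * b) (b y) := fun y => by simp [Equiv.Perm.mul_apply, hab']
      have hx' : ((¬ a x = x) ∧ ¬ b x = x) ∧ ¬ (a * b) x = x := ⟨⟨hxA, hxB⟩, hxZ⟩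
      rcases hy with rfl | rfl | rfl | rfl
      · exact hx'
      · exact ⟨⟨key a a haa x hxA, key a b hab' x hxB⟩, key a _ hza x hxZ⟩
      · exact ⟨⟨key b a (fun y => (hab' y).symm) x hxA, key b b (fun _ => rfl) x hxB⟩, key b _ hzb x hxZ⟩
      · exact ⟨⟨key a a haa _ (key b a (fun y => (hab' y).symm) x hxA), key a b hab' _ (key b b (fun _ => rfl) x hxB)⟩,
          key a _ hza _ (key b _ hzb x hxZ)⟩
    have hz' : a (b x) ≠ x := fun h => hxZ (by rwa [Equiv.Perm.mul_apply])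
    have hfour : ({x, a x, b x, a (b x)} : Finset α).card = 4 :=
      Finset.card_eq_four.2 ⟨x, a x, b x, a (b x), Ne.symm hxA, Ne.symm hxB, Ne.symm hz',
        fun h => hz' (by rw [← h, apply_apply_of_sq ha2]),
        fun h => hxB (a.injective h).symm,
        fun h => hxA (b.injective (by rw [← hab', ← h])), rfl⟩
    have hcompl : ({x, a x, b x, a (b x)} : Finset α) = Uᶜ :=
      Finset.eq_of_subset_of_card_le hxU (by rw [hfour, Finset.card_compl, hn]; omega)
    have hgx : g x ∈ Uᶜ := by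
      simp only [U, Finset.mem_compl, Finset.mem_union, not_or, mem_fixset]
      have key : ∀ t : Equiv.Perm α, g * t = t * g → ¬ t x = x → ¬ t (g x) = g x := fun t ht hx h =>
        hx (g.injective (by rw [← Equiv.Perm.mul_apply, ht, Equiv.Perm.mul_apply, h]))
      exact ⟨⟨key a ca hxA, key b cb hxB⟩, key _ cz hxZ⟩
    rw [← hcompl] at hgx
    simp only [Finset.mem_insert, Finset.mem_singleton] at hgx
    have ap : ∀ {t : Equiv.Perm α}, g * t = t * g → ∀ y, g (t y) = t (g y) := fun {t} h y => by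
      rw [← Equiv.Perm.mul_apply, h, Equiv.Perm.mul_apply]
    rcases hgx with e | e | e | e
    · rw [e, e]
    · rw [e, ap ca, e, apply_apply_of_sq ha2]
    · rw [e, ap cb, e, apply_apply_of_sq hb2]
    · rw [e, ap ca, ap cb, e, hab' x, apply_apply_of_sq hb2, apply_apply_of_sq ha2]
  have hg2 : g ^ 2 = 1 := by
    ext x
    rw [pow_two, Equiv.Perm.mul_apply, hsq, Equiv.Perm.one_apply]
  have hodd := hG.odd g hg p q c d h1 h2 h3 h4 h5 h6 g1 g2 g3 g4
  rcases (Nat.dvd_prime Nat.prime_two).1 (orderOf_dvd_of_pow_eq_one hg2) with e | e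
  · exact orderOf_eq_one_iff.1 e
  · rw [e] at hodd; exact absurd hodd (by decide)

end Cfsg.Agent.H73.FourTrans
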