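import Mathlib
import Cfsg.Prelude.Def_HallClasses
import Cfsg.Agent.PermP.PrimeCycle
import Cfsg.Agent.Transfer.Hall

/-! A symmetric group without Hall π-subgroup; the Hall properties for all finite groups. -/

set_option autoImplicit false
set_option linter.style.haveILetI false

namespace Cfsg.Agent.H73.HallSym

open Equiv Equiv.Perm MulAction
open scoped Pointwise

theorem dvd_uniformBell {p q i m : ℕ} (hp : p.Prime) (hq : q.Prime) (hpq : p < q) (hi : i ≠ 0)
    (hm : p ≤ m) : p ∣ Nat.uniformBell m (q ^ i) := by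
  set d := q ^ i with hd
  have hqd : q ≤ d := hd ▸ Nat.le_self_pow hi q
  have hd2 : 2 ≤ d := le_trans hq.two_le hqd
  set e := Nat.log p d + 1 with he
  set P := p ^ e with hP
  have h1 : d < P := Nat.lt_pow_succ_log_self hp.one_lt d
  have hndvd : ∀ k, ¬ d ∣ p ^ k := fun k h => by
    have h2 : q ∣ p ^ k := (dvd_pow_self q hi).trans h
    have := (Nat.prime_dvd_prime_iff_eq hq hp).1 (hq.dvd_of_dvd_pow h2)
    omega
  have h2 : P / p < d := by
    have h3 : p ^ Nat.log p d ≤ d := Nat.pow_log_le_self p (by omega)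
    have h4 : p ^ Nat.log p d ≠ d := fun h => hndvd _ (dvd_of_eq h.symm)
    rw [hP, he, pow_succ, Nat.mul_div_cancel _ hp.pos]
    omega
  have hPp : P = p * (P / p) := (Nat.mul_div_cancel' (hP ▸ dvd_pow_self p (by omega))).symm
  set k := (P - 1) / d with hk
  have hk1 : k * d < P := by
    have := Nat.div_mul_le_self (P - 1) d
    rw [← hk] at this
    omega
  have hk2 : P < (k + 1) * d := by
    have h5 := Nat.lt_mul_div_succ (P - 1) (b := d) (by omega)
    rw [← hk, mul_comm] at h5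
    rcases Nat.lt_or_ge P ((k + 1) * d) with h | h
    · exact h
    · exact absurd (show (k + 1) * d = P by omega) (fun h6 => hndvd e ⟨k + 1, by rw [← hP, ← h6, mul_comm]⟩)
  have hkp : k < p := by
    by_contra hc
    have : p * (P / p) < p * d := Nat.mul_lt_mul_of_pos_left h2 hp.pos
    have := Nat.mul_le_mul_right d (not_lt.1 hc)
    omega
  rw [Nat.uniformBell_eq]
  refine Dvd.dvd.trans ?_ (Finset.dvd_prod_of_mem _ (Finset.mem_range.2 (show k < m by omega)))
  have hle : d - 1 ≤ k * d + d - 1 := by omega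
  have hsum : (k + 1) * d = k * d + d := by ring
  refine Nat.dvd_of_factorization_pos ?_
  rw [Nat.factorization_choose hp hle (b := k * d + d + e + 1) (by
    have := Nat.log_le_self p (k * d + d - 1)
    omega)]
  refine (Finset.card_pos.2 ⟨e, ?_⟩).ne'
  simp only [Finset.mem_filter, Finset.mem_Ico]
  refine ⟨⟨by omega, by omega⟩, ?_⟩
  have hsub : k * d + d - 1 - (d - 1) = k * d := by omega
  rw [hsub, ← hP, Nat.mod_eq_of_lt (by omega), Nat.mod_eq_of_lt hk1]
  omega

theorem card_dvd_of_isBlock {n : ℕ} (H : Subgroup (Perm (Fin n))) [IsPretransitive H (Fin n)]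
    {B : Set (Fin n)} (hB : IsBlock H B) (hne : B.Nonempty) :
    ∃ m, B.ncard * m = n ∧ Nat.card H ∣ B.ncard.factorial ^ m * m.factorial := by
  classical
  refine ⟨(orbit H B).ncard, by rw [hB.ncard_block_mul_ncard_orbit_eq hne, Nat.card_fin], ?_⟩
  have huniq : ∀ (h₁ h₂ : H) (x : Fin n), x ∈ h₁ • B → x ∈ h₂ • B → h₁ • B = h₂ • B := by
    intro h₁ h₂ x hx₁ hx₂
    by_contra hne'
    exact Set.disjoint_left.1 (hB hne') hx₁ hx₂
  obtain ⟨a, ha⟩ := hne
  have hex : ∀ x, ∃ h : H, h • a = x := fun x => exists_smul_eq H a x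
  choose s hs using hex
  let ι := ↥(orbit H B)
  letI : Fintype ι := Fintype.ofFinite ι
  let f : Fin n → ι := fun x => ⟨s x • B, mem_orbit B (s x)⟩
  have hmem : ∀ x, x ∈ s x • B := fun x => by
    have := Set.smul_mem_smul_set (a := s x) ha
    rwa [hs x] at this
  have hfib : ∀ (x : Fin n) (c : ι), f x = c ↔ x ∈ (c : Set (Fin n)) := by
    rintro x ⟨_, ⟨h, rfl⟩⟩
    constructor
    · intro he
      have := congrArg Subtype.val he
      exact this ▸ hmem x
    · intro hx
      exact Subtype.ext (huniq _ _ x (hmem x) hx)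
  let φ : H →* Perm ι := MulAction.toPermHom H ι
  let S : Subgroup (Perm (Fin n)) :=
    { carrier := {g | ∀ x, f (g x) = f x}
      one_mem' := fun x => rfl
      mul_mem' := fun {g h} hg hh x => (hg (h x)).trans (hh x)
      inv_mem' := fun {g} hg x => by
        have := hg (g⁻¹ x)
        rw [show g (g⁻¹ x) = x from Equiv.apply_symm_apply g x] at this
        exact this.symm }
  have hker : φ.ker.map H.subtype ≤ S := by
    rintro _ ⟨h, hh, rfl⟩ x
    have h1 : h • f x = f x := Equiv.Perm.congr_fun (MonoidHom.mem_ker.1 hh) (f x)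
    rw [hfib]
    rw [← h1, MulAction.orbit.coe_smul]
    exact Set.smul_mem_smul_set (hmem x)
  have hS : Nat.card S = B.ncard.factorial ^ (orbit H B).ncard := by
    have e : S ≃ {g : Perm (Fin n) // f ∘ g = f} :=
      Equiv.subtypeEquivRight fun g => ⟨fun hg => funext hg, fun hg x => congrFun hg x⟩
    rw [Nat.card_congr e, Nat.card_eq_fintype_card, DomMulAct.stabilizer_card]
    have hc : ∀ c : ι, Fintype.card {x // f x = c} = B.ncard := fun c => by
      obtain ⟨h, hh⟩ := c.2
      rw [← Nat.card_eq_fintype_card, Nat.card_congr (Equiv.subtypeEquivRight fun x => hfib x c),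
        ← Nat.card_coe_set_eq, ← hh]
      exact (Set.natCard_smul_set h B)
    simp only [hc, Finset.prod_const, Finset.card_univ]
    congr 1
    rw [← Nat.card_coe_set_eq, Nat.card_eq_fintype_card]
  have h1 : Nat.card φ.ker ∣ B.ncard.factorial ^ (orbit H B).ncard := by
    rw [← hS, ← Subgroup.card_subtype H φ.ker]
    exact Subgroup.card_dvd_of_le hker
  have h2 : Nat.card φ.range ∣ (orbit H B).ncard.factorial := by
    have := Subgroup.card_subgroup_dvd_card φ.range
    rwa [Nat.card_perm, Nat.card_coe_set_eq] at this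
  rw [← φ.ker.card_mul_index, Subgroup.index_ker]
  exact Nat.mul_dvd_mul h1 h2

theorem exists_conj_mem {G : Type*} [Group G] [Finite G] {q : ℕ} [Fact q.Prime] {H : Subgroup G}
    (hH : ¬ q ∣ H.index) {x : G} {k : ℕ} (hx : orderOf x = q ^ k) : ∃ g : G, g * x * g⁻¹ ∈ H := by
  obtain ⟨R⟩ : Nonempty (Sylow q H) := inferInstance
  obtain ⟨P, hP⟩ := Transfer.exists_sylow_eq_map hH R
  obtain ⟨P2, hP2⟩ := (IsPGroup.of_card (n := k) (by rw [Nat.card_zpowers, hx]) :
    IsPGroup q (Subgroup.zpowers x)).exists_le_sylow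
  obtain ⟨g, hg⟩ := MulAction.exists_smul_eq G P2 P
  refine ⟨g, ?_⟩
  have : g * x * g⁻¹ ∈ (P : Subgroup G) := by
    rw [← hg]
    exact ⟨x, hP2 (Subgroup.mem_zpowers x), rfl⟩
  rw [hP] at this
  exact Subgroup.map_subtype_le _ this

theorem not_isEPiGroup_perm {π : Set ℕ} {p q r a : ℕ} (hp : p.Prime) (hq : q.Prime) (hr : r.Prime)
    (hpπ : p ∈ π) (hqπ : q ∈ π) (hrπ : r ∉ π) (hpq : p < q) (ha : 2 ≤ a) (hra : 2 * r ≤ q ^ a) :
    ¬ Cfsg.IsEPiGroup π (Perm (Fin (q ^ a))) := by
  classical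
  haveI := Fact.mk hp
  haveI := Fact.mk hq
  set n := q ^ a with hn
  rintro ⟨H, hH1, hH2⟩
  have hq3 : 3 ≤ q := by have := hp.two_le; omega
  have hn2 : q * q ≤ n := by rw [hn, ← sq]; exact Nat.pow_le_pow_right hq.pos ha
  have hqn : q + 3 ≤ n := by nlinarith
  haveI : NeZero n := ⟨by omega⟩
  have hcardG : Nat.card (Perm (Fin n)) = n.factorial := by rw [Nat.card_perm, Nat.card_fin]
  -- transitivity
  haveI htr : IsPretransitive H (Fin n) := by
    have hc : (finRotate n).IsCycle ∧ (finRotate n).support = Finset.univ :=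
      ⟨isCycle_finRotate_of_le (by omega), support_finRotate_of_le (by omega)⟩
    have hord : orderOf (finRotate n) = q ^ a := by
      rw [hc.1.orderOf, hc.2, Finset.card_univ, Fintype.card_fin]
    obtain ⟨g, hg⟩ := exists_conj_mem (hH2 q hq hqπ) hord
    have hcyc := hc.1.conj (g := g)
    refine ⟨fun x y => ?_⟩
    have hall : ∀ z, (g * finRotate n * g⁻¹) z ≠ z := fun z he => by
      have : g⁻¹ z ∈ (finRotate n).support := by rw [hc.2]; exact Finset.mem_univ _
      rw [Perm.mem_support] at this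
      apply this
      rw [Perm.mul_apply, Perm.mul_apply] at he
      exact Equiv.Perm.eq_inv_iff_eq.2 he
    obtain ⟨i, hi⟩ := hcyc.exists_zpow_eq (hall x) (hall y)
    exact ⟨⟨_, H.zpow_mem hg i⟩, hi⟩
  -- a q-cycle
  obtain ⟨c, hcc, hcs⟩ : ∃ c : Perm (Fin n), c.IsCycle ∧ c.support.card = q := by
    have hi : (⟨q - 1, by omega⟩ : Fin n) ≠ 0 := fun h => by
      have := congrArg Fin.val h
      simp at this
      omega
    have hct := Fin.cycleType_cycleRange hi
    refine ⟨_, Fin.isCycle_cycleRange hi, ?_⟩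
    rw [← Equiv.Perm.sum_cycleType, hct]
    simp
    omega
  have hcord : orderOf c = q ^ 1 := by rw [hcc.orderOf, hcs, pow_one]
  obtain ⟨g, hg⟩ := exists_conj_mem (hH2 q hq hqπ) hcord
  -- primitivity
  have hprim : IsPreprimitive H (Fin n) := by
    refine { isTrivialBlock_of_isBlock := fun {B} hB => ?_ }
    by_cases hne : B.Nonempty
    swap
    · rw [Set.not_nonempty_iff_eq_empty] at hne
      exact Or.inl (by rw [hne]; exact Set.subsingleton_empty)
    by_contra hnt
    simp only [IsTrivialBlock, not_or] at hnt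
    obtain ⟨m, hdm, hdvd⟩ := card_dvd_of_isBlock H hB hne
    have h2d : 2 ≤ B.ncard := by
      have := (Set.not_subsingleton_iff.1 hnt.1)
      exact (Set.one_lt_ncard (Set.toFinite _)).2 this
    have hdn : B.ncard ≠ n := fun he => hnt.2 (Set.eq_of_subset_of_ncard_le (Set.subset_univ _)
      (by rw [Set.ncard_univ, Nat.card_fin, he]))
    obtain ⟨i, -, hi⟩ := (Nat.dvd_prime_pow hq).1 (hn ▸ ⟨m, hdm.symm⟩ : B.ncard ∣ q ^ a)
    obtain ⟨j, -, hj⟩ := (Nat.dvd_prime_pow hq).1
      (hn ▸ ⟨B.ncard, hdm.symm.trans (mul_comm _ _)⟩ : m ∣ q ^ a)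
    have hi0 : i ≠ 0 := by rintro rfl; rw [pow_zero] at hi; omega
    have hj0 : j ≠ 0 := by rintro rfl; rw [pow_zero] at hj; rw [hj, mul_one] at hdm; exact hdn hdm
    have hpm : p ≤ m := hj ▸ le_trans hpq.le (Nat.le_self_pow hj0 q)
    obtain ⟨c', hc'⟩ := hdvd
    have hU := Nat.uniformBell_mul_eq m (n := B.ncard) (by omega)
    rw [mul_comm m, hdm, mul_assoc, hc', ← hcardG, ← H.card_mul_index] at hU
    have hidx : H.index = Nat.uniformBell m B.ncard * c' := by
      refine mul_left_cancel₀ (Nat.card_pos (α := H)).ne' ?_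
      rw [← hU]; ring
    exact hH2 p hp hpπ (hidx ▸ (hi ▸ dvd_uniformBell hp hq hpq hi0 hpm).mul_right c')
  have hA : alternatingGroup (Fin n) ≤ H :=
    PermP.alternatingGroup_le_of_primeCycle H hprim hq (by rw [Fintype.card_fin]; omega)
      hcc.conj (by rw [card_support_conj, hcs]) hg
  have h2 : 2 * Nat.card (alternatingGroup (Fin n)) = n.factorial := by
    haveI : Nontrivial (Fin n) := Fin.nontrivial_iff_two_le.2 (by omega)
    rw [Nat.card_eq_fintype_card, two_mul_card_alternatingGroup, Fintype.card_perm,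
      Fintype.card_fin]
  have hr2 : r * r ∣ n.factorial := by
    have h3 : r.factorial * r.factorial ∣ (r + r).factorial :=
      Nat.factorial_mul_factorial_dvd_factorial_add r r
    exact ((Nat.mul_dvd_mul (Nat.dvd_factorial hr.pos le_rfl) (Nat.dvd_factorial hr.pos le_rfl)).trans
      h3).trans (Nat.factorial_dvd_factorial (by omega))
  have hrA : r ∣ Nat.card (alternatingGroup (Fin n)) := by
    rw [← h2] at hr2
    by_cases hr' : r = 2
    · subst hr'; exact Nat.dvd_of_mul_dvd_mul_left two_pos hr2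
    · exact ((Nat.coprime_primes hr Nat.prime_two).2 hr').dvd_of_dvd_mul_left
        ((dvd_mul_right r r).trans hr2)
  exact hrπ (hH1 r hr (hrA.trans (Subgroup.card_dvd_of_le hA)))

theorem isEPiGroup_of_isDPiGroup {π : Set ℕ} {G : Type*} [Group G] [Finite G]
    (h : Cfsg.IsDPiGroup π G) : Cfsg.IsEPiGroup π G := by
  have hmax : ∀ S : Subgroup G, Cfsg.IsPiSubgroup π S →
      ∃ M, S ≤ M ∧ Maximal (Cfsg.IsPiSubgroup π) M := fun S hS => Finite.exists_le_maximal hS
  have hbot : Cfsg.IsPiSubgroup π (⊥ : Subgroup G) := fun p hp hd => by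
    rw [Subgroup.card_bot] at hd
    exact absurd (Nat.dvd_one.1 hd) hp.ne_one
  obtain ⟨M, -, hM⟩ := hmax ⊥ hbot
  refine ⟨M, hM.1, fun p hp hpπ hd => ?_⟩
  haveI := Fact.mk hp
  obtain ⟨P⟩ : Nonempty (Sylow p G) := inferInstance
  obtain ⟨K, hPK, hK⟩ := hmax (P : Subgroup G) (fun r hr hd => by
    obtain ⟨k, hk⟩ := IsPGroup.iff_card.1 P.isPGroup'
    rw [hk] at hd
    rwa [(Nat.prime_dvd_prime_iff_eq hr hp).1 (hr.dvd_of_dvd_pow hd)])
  obtain ⟨g, hg⟩ := h K M hK hM
  have hc : Nat.card M = Nat.card K := by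
    rw [hg]; exact Subgroup.card_map_of_injective (MulAut.conj g).injective
  have hi : M.index = K.index := by
    have h1 := M.card_mul_index
    rw [hc, ← K.card_mul_index] at h1
    exact mul_left_cancel₀ (Nat.card_pos (α := K)).ne' h1
  exact P.not_dvd_index ((hi ▸ hd).trans (Subgroup.index_dvd_of_le hPK))

theorem isDPiGroup_of {π : Set ℕ}
    (h : (∀ p q : ℕ, p.Prime → q.Prime → p ∈ π → q ∈ π → p = q) ∨ ∀ p : ℕ, p.Prime → p ∈ π)
    (G : Type*) [Group G] [Finite G] : Cfsg.IsDPiGroup π G := by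
  intro H K hH hK
  rcases h with h | h
  · by_cases he : ∃ p, p.Prime ∧ p ∈ π
    · obtain ⟨p, hp, hpπ⟩ := he
      haveI := Fact.mk hp
      have hsyl : ∀ L : Subgroup G, Maximal (Cfsg.IsPiSubgroup π) L →
          ∃ P : Sylow p G, (P : Subgroup G) = L := fun L hL => by
        have hLp : IsPGroup p L := IsPGroup.of_card (Nat.eq_prime_pow_of_unique_prime_dvd
          Nat.card_pos.ne' (fun {d} hd hdd => h d p hd hp (hL.1 d hd hdd) hpπ))
        obtain ⟨P, hP⟩ := hLp.exists_le_sylow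
        refine ⟨P, le_antisymm (hL.2 (fun r hr hd => ?_) hP) hP⟩
        obtain ⟨k, hk⟩ := IsPGroup.iff_card.1 P.isPGroup'
        rw [hk] at hd
        rwa [(Nat.prime_dvd_prime_iff_eq hr hp).1 (hr.dvd_of_dvd_pow hd)]
      obtain ⟨P, rfl⟩ := hsyl H hH
      obtain ⟨Q, rfl⟩ := hsyl K hK
      obtain ⟨g, hg⟩ := MulAction.exists_smul_eq G P Q
      exact ⟨g, by rw [← hg]; rfl⟩
    · have hbot : ∀ L : Subgroup G, Cfsg.IsPiSubgroup π L → L = ⊥ := fun L hL =>
        Subgroup.card_eq_one.1 (Nat.eq_one_iff_not_exists_prime_dvd.2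
          fun p hp hd => he ⟨p, hp, hL p hp hd⟩)
      exact ⟨1, by rw [hbot H hH.1, hbot K hK.1, Subgroup.map_bot]⟩
  · have htop : ∀ L : Subgroup G, Maximal (Cfsg.IsPiSubgroup π) L → L = ⊤ := fun L hL =>
      top_le_iff.1 (hL.2 (fun p hp _ => h p hp) le_top)
    exact ⟨1, by
      rw [htop H hH, htop K hK,
        Subgroup.map_top_of_surjective _ (MulAut.conj (1 : G)).surjective]⟩

theorem trivial_of_all {π : Set ℕ}
    (h : ∀ (G : Type) [Group G] [Finite G], Cfsg.IsEPiGroup π G) :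
    (∀ p q : ℕ, p.Prime → q.Prime → p ∈ π → q ∈ π → p = q) ∨ ∀ p : ℕ, p.Prime → p ∈ π := by
  refine or_iff_not_imp_right.2 fun hne => ?_
  push Not at hne
  obtain ⟨r, hr, hrπ⟩ := hne
  have key : ∀ p q : ℕ, p.Prime → q.Prime → p ∈ π → q ∈ π → p < q → False :=
    fun p q hp hq hpπ hqπ hlt => not_isEPiGroup_perm hp hq hr hpπ hqπ hrπ hlt
      (a := r + 2) (by omega) (by
        have h1 := Nat.lt_pow_self (n := r + 1) hq.one_lt
        calc 2 * r ≤ q * q ^ (r + 1) := Nat.mul_le_mul hq.two_le (by omega)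
          _ = _ := by ring) (h _)
  intro p q hp hq hpπ hqπ
  rcases lt_trichotomy p q with hlt | he | hgt
  · exact (key p q hp hq hpπ hqπ hlt).elim
  · exact he
  · exact (key q p hq hp hqπ hpπ hgt).elim

end Cfsg.Agent.H73.HallSym
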