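import Mathlib
import Cfsg.Prelude.Def_Local
import Cfsg.Agent.Components.Basic

/-! Groups with conjugate cyclic p-subgroups have at most one component (given that non-abelian
simple groups have even order). -/

set_option autoImplicit false
set_option linter.style.haveILetI false

namespace Cfsg.Agent.H73.LayerSimple

open Subgroup Cfsg

universe u

variable {G : Type u} [Group G] [Finite G]

theorem exists_min_noncentral
    (hFT : ∀ (X : Type u) [Group X] [Finite X], Odd (Nat.card X) → Group.IsSolvable X)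
    {L : Subgroup G} (hL : IsQuasisimple L) :
    ∃ (a : ℕ) (x : G), x ∈ L ∧ orderOf x = 2 ^ a ∧ x ∉ centralizer (L : Set G) ∧
      ∀ (b : ℕ) (y : G), y ∈ L → orderOf y = 2 ^ b → b < a → y ∈ centralizer (L : Set G) := by
  classical
  have hex : ∃ a, ∃ x : G, x ∈ L ∧ orderOf x = 2 ^ a ∧ x ∉ centralizer (L : Set G) := by
    haveI : Fact (Nat.Prime 2) := ⟨Nat.prime_two⟩
    by_contra hno
    push Not at hno
    -- the quotient by the centre then has odd order
    have hodd : Odd (Nat.card (L ⧸ center L)) := by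
      rw [← Nat.not_even_iff_odd, even_iff_two_dvd]
      intro h2
      obtain ⟨z, hz⟩ := exists_prime_orderOf_dvd_card' 2 h2
      obtain ⟨g, rfl⟩ := QuotientGroup.mk_surjective z
      obtain ⟨e, m, hm, hn⟩ := Nat.exists_eq_pow_mul_and_not_dvd (orderOf_pos g).ne' 2 (by norm_num)
      have ho : orderOf ((g ^ m : L) : G) = 2 ^ e := by
        rw [orderOf_coe, orderOf_pow' g (by rintro rfl; exact hm (dvd_zero 2)), hn,
          Nat.gcd_mul_left_left, Nat.mul_div_cancel _ (Nat.pos_of_ne_zero (by rintro rfl; exact hm (dvd_zero 2)))]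
      have hc : g ^ m ∈ center L := mem_center_iff.2 fun y =>
        Subtype.ext (mem_centralizer_iff.1 (hno e _ (g ^ m).2 ho) _ y.2)
      rw [← QuotientGroup.eq_one_iff, QuotientGroup.mk_pow, ← orderOf_dvd_iff_pow_eq_one, hz] at hc
      exact hm hc
    haveI := hFT _ hodd
    haveI : Group.IsSolvable (center L) :=
      Group.isSolvable_of_comm fun a b => Subtype.ext (mem_center_iff.1 b.2 a)
    exact Components.quasisimple_not_solvable hL
      (Group.isSolvable_of_ker_le_range (center L).subtype (QuotientGroup.mk' (center L)) (by simp))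
  obtain ⟨x, hxL, hx, hxC⟩ := Nat.find_spec hex
  refine ⟨_, x, hxL, hx, hxC, fun b y hy hb hlt => ?_⟩
  by_contra hyC
  exact Nat.find_min hex hlt ⟨y, hy, hb, hyC⟩

theorem component_unique
    (hFT : ∀ (X : Type u) [Group X] [Finite X], Odd (Nat.card X) → Group.IsSolvable X)
    (hP : ∀ (p : ℕ), p.Prime → ∀ A B : Subgroup G, IsCyclic ↥A → IsCyclic ↥B → IsPGroup p ↥A →
      Nat.card ↥A = Nat.card ↥B → ∃ g : G, B = A.map (MulAut.conj g).toMonoidHom)
    {L₁ L₂ : Subgroup G} (h₁ : IsComponent L₁) (h₂ : IsComponent L₂) : L₁ = L₂ := by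
  by_contra hne
  obtain ⟨a₁, x₁, hx₁, ho₁, hc₁, hm₁⟩ := exists_min_noncentral hFT h₁.2
  obtain ⟨a₂, x₂, hx₂, ho₂, hc₂, hm₂⟩ := exists_min_noncentral hFT h₂.2
  wlog hle : a₂ ≤ a₁ generalizing L₁ L₂ a₁ a₂ x₁ x₂
  · exact this h₂ h₁ (Ne.symm hne) a₂ x₂ hx₂ ho₂ hc₂ hm₂ a₁ x₁ hx₁ ho₁ hc₁ hm₁ (by omega)
  have hcomm : ∀ {K K' : Subgroup G}, IsComponent K → IsComponent K' → K ≠ K' →
      K ≤ centralizer (K' : Set G) := fun hK hK' h =>
    commutator_eq_bot_iff_le_centralizer.1 (Components.component_commute hK hK' h)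
  have hxx : Commute x₁ x₂ := (mem_centralizer_iff.1 (hcomm h₁ h₂ hne hx₁) x₂ hx₂).symm
  set y := x₁ * x₂ with hy
  have hyC₁ : y ∉ centralizer (L₁ : Set G) := fun h => hc₁ (by
    simpa [hy] using mul_mem h (inv_mem (hcomm h₂ h₁ (Ne.symm hne) hx₂)))
  have hyC₂ : y ∉ centralizer (L₂ : Set G) := fun h => hc₂ (by
    simpa [hy] using mul_mem (inv_mem (hcomm h₁ h₂ hne hx₁)) h)
  have hy1 : y ^ 2 ^ a₁ = 1 := by
    rw [hy, hxx.mul_pow, ← ho₁, pow_orderOf_eq_one, one_mul, ho₁]
    exact orderOf_dvd_iff_pow_eq_one.1 (ho₂ ▸ pow_dvd_pow 2 hle)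
  obtain ⟨b, hb, hob⟩ := (Nat.dvd_prime_pow Nat.prime_two).1 (orderOf_dvd_of_pow_eq_one hy1)
  set c := x₁ ^ 2 ^ (a₁ - b) with hcd
  have hoc : orderOf c = 2 ^ b := by
    rw [hcd, orderOf_pow' x₁ (pow_ne_zero _ two_ne_zero), ho₁,
      Nat.gcd_eq_right (pow_dvd_pow 2 (by omega)), Nat.pow_div (by omega) two_pos]
    congr 1; omega
  obtain ⟨g, hg⟩ := hP 2 Nat.prime_two (zpowers c) (zpowers y) inferInstance inferInstance
    (IsPGroup.of_card (n := b) (by rw [Nat.card_zpowers, hoc]))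
    (by rw [Nat.card_zpowers, Nat.card_zpowers, hoc, hob])
  obtain ⟨c', hc', hgc⟩ : y ∈ (zpowers c).map (MulAut.conj g).toMonoidHom := hg ▸ mem_zpowers y
  rcases Nat.lt_or_ge b a₁ with hlt | hge
  · -- c centralizes every component
    have hcent : ∀ K : Subgroup G, IsComponent K → c ∈ centralizer (K : Set G) := fun K hK => by
      rcases eq_or_ne K L₁ with rfl | hK1
      · exact hm₁ b c (pow_mem hx₁ _) hoc hlt
      · exact hcomm h₁ hK hK1.symm (pow_mem hx₁ _)
    apply hyC₁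
    rw [mem_centralizer_iff]
    intro z hz
    have hK := Components.component_conj g⁻¹ h₁
    have h := mem_centralizer_iff.1 (zpowers_le.2 (hcent _ hK) hc') _ ⟨z, hz, rfl⟩
    rw [← hgc]
    have h' := congrArg (MulAut.conj g) h
    simpa [mul_assoc] using h'
  · have hK := Components.component_conj g h₁
    have hyK : y ∈ L₁.map (MulAut.conj g).toMonoidHom :=
      ⟨c', zpowers_le.2 (pow_mem hx₁ _) hc', hgc⟩
    rcases eq_or_ne (L₁.map (MulAut.conj g).toMonoidHom) L₂ with he | he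
    · exact hyC₁ (hcomm h₂ h₁ (Ne.symm hne) (he ▸ hyK))
    · exact hyC₂ (hcomm hK h₂ he hyK)

theorem layer_simple
    (hFT : ∀ (X : Type u) [Group X] [Finite X], Odd (Nat.card X) → Group.IsSolvable X)
    (hP : ∀ (p : ℕ), p.Prime → ∀ A B : Subgroup G, IsCyclic ↥A → IsCyclic ↥B → IsPGroup p ↥A →
      Nat.card ↥A = Nat.card ↥B → ∃ g : G, B = A.map (MulAut.conj g).toMonoidHom)
    (hE : Cfsg.layer G ≠ ⊥) :
    IsSimpleGroup (↥(Cfsg.layer G) ⧸ Subgroup.center ↥(Cfsg.layer G)) ∧
      ¬ IsMulCommutative (↥(Cfsg.layer G) ⧸ Subgroup.center ↥(Cfsg.layer G)) := by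
  obtain ⟨L, hL⟩ : ∃ L : Subgroup G, IsComponent L := by
    by_contra hno
    push Not at hno
    exact hE (sSup_eq_bot.2 fun K hK => absurd hK (hno K))
  have heq : Cfsg.layer G = L :=
    le_antisymm (sSup_le fun K hK => (component_unique hFT hP hK hL).le) (le_sSup hL)
  rw [heq]
  refine ⟨hL.2.2, fun hc => ?_⟩
  haveI : Group.IsSolvable (L ⧸ center L) := Group.isSolvable_of_comm fun a b => hc.is_comm.comm a b
  haveI : Group.IsSolvable (center L) :=
    Group.isSolvable_of_comm fun a b => Subtype.ext (mem_center_iff.1 b.2 a)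
  exact Components.quasisimple_not_solvable hL.2
    (Group.isSolvable_of_ker_le_range (center L).subtype (QuotientGroup.mk' (center L)) (by simp))

end Cfsg.Agent.H73.LayerSimple
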