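import Cfsg.Agent.H73.ClassCount

/-! More than `|P|/2` classes of 2-elements force a normal 2-complement. -/

namespace Cfsg.Agent.H73.TwoClasses

open Subgroup
open scoped commutatorElement

theorem sum_bound {α β : Type*} [Fintype α] (f : α → β) (hf : Function.Surjective f) (w : α → ℕ) (m : ℕ)
    (h : ∀ b : β, ∀ s : Finset α, (∀ a, a ∈ s ↔ f a = b) → m ≤ s.sum w) :
    m * Nat.card β ≤ ∑ a, w a := by
  classical
  haveI : Fintype β := Fintype.ofSurjective f hf
  rw [← Finset.sum_fiberwise Finset.univ f w, Nat.card_eq_fintype_card, ← Finset.card_univ]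
  calc m * (Finset.univ : Finset β).card = ∑ _b : β, m := by
        rw [Finset.sum_const, smul_eq_mul, Nat.mul_comm]
    _ ≤ _ := Finset.sum_le_sum fun b _ => h b _ (fun a => by simp)

variable {P : Type*} [Group P] [Finite P]

/-- The preimage of the centre of `P ⧸ K`. -/
def centralMod (K : Subgroup P) [K.Normal] : Subgroup P :=
  (Subgroup.center (P ⧸ K)).comap (QuotientGroup.mk' K)

theorem mem_centralMod {K : Subgroup P} [K.Normal] {x : P} :
    x ∈ centralMod K ↔ ∀ g : P, g * x * g⁻¹ * x⁻¹ ∈ K := by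
  rw [centralMod, Subgroup.mem_comap, Subgroup.mem_center_iff]
  constructor
  · intro h g
    rw [← QuotientGroup.eq_one_iff]
    simp only [QuotientGroup.mk_mul, QuotientGroup.mk_inv]
    have h' := h (QuotientGroup.mk g)
    simp only [QuotientGroup.mk'_apply] at h'
    rw [h', mul_inv_cancel_right, mul_inv_cancel]
  · intro h z
    obtain ⟨g, rfl⟩ := QuotientGroup.mk_surjective z
    have := (QuotientGroup.eq_one_iff _).2 (h g)
    simp only [QuotientGroup.mk_mul, QuotientGroup.mk_inv] at this
    simp only [QuotientGroup.mk'_apply]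
    rwa [mul_inv_eq_one, mul_inv_eq_iff_eq_mul] at this

/-- Counting classes of a 2-group with three covering subgroups for the classes of size two. -/
theorem two_mul_conjClasses_le (hP : IsPGroup 2 P) (A B C : Subgroup P)
    (hA : center P ≤ A) (hB : center P ≤ B) (hC : center P ≤ C)
    (hsum : Nat.card A + Nat.card B + Nat.card C ≤ Nat.card P)
    (hcover : ∀ x : P, x ∉ center P → Nat.card (MulAction.orbit (ConjAct P) x) = 2 →
      x ∈ A ∨ x ∈ B ∨ x ∈ C) :
    2 * Nat.card (ConjClasses P) ≤ Nat.card P := by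
  classical
  haveI := Fintype.ofFinite P
  let w : P → ℕ := fun x =>
    if x ∈ center P then 4 else if Nat.card (MulAction.orbit (ConjAct P) x) = 2 then 2 else 1
  have h1 : 4 * Nat.card (ConjClasses P) ≤ ∑ x, w x := by
    refine sum_bound ConjClasses.mk (fun c => ConjClasses.exists_rep c) w 4 fun b s hs => ?_
    obtain ⟨x, rfl⟩ := ConjClasses.exists_rep b
    have hsize : s.card = Nat.card (MulAction.orbit (ConjAct P) x) := by
      rw [← Nat.card_eq_finsetCard]
      refine Nat.card_congr (Equiv.subtypeEquivRight fun a => ?_)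
      rw [hs, ConjAct.mem_orbit_conjAct, ConjClasses.mk_eq_mk_iff_isConj]
    have hxs : x ∈ s := (hs x).2 rfl
    by_cases hx : x ∈ center P
    · calc 4 = w x := by simp [w, hx]
        _ ≤ _ := Finset.single_le_sum (fun _ _ => Nat.zero_le _) hxs
    · have hnc : ∀ a ∈ s, a ∉ center P := by
        intro a ha hac
        obtain ⟨g, hg⟩ := isConj_iff.1 (ConjClasses.mk_eq_mk_iff_isConj.1 ((hs a).1 ha))
        apply hx
        rwa [← hg, Subgroup.mem_center_iff.1 hac g, mul_inv_cancel_right]
      have horb : ∀ a ∈ s, Nat.card (MulAction.orbit (ConjAct P) a) = Nat.card (MulAction.orbit (ConjAct P) x) := by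
        intro a ha
        have : a ∈ MulAction.orbit (ConjAct P) x :=
          ConjAct.mem_orbit_conjAct.2 (ConjClasses.mk_eq_mk_iff_isConj.1 ((hs a).1 ha))
        rw [MulAction.orbit_eq_iff.2 this]
      obtain ⟨n, hn⟩ := IsPGroup.card_orbit (G := ConjAct P) (p := 2) (hP.of_equiv ConjAct.toConjAct) x
      have hn1 : n ≠ 0 := by
        intro h0
        rw [h0, pow_zero, Nat.card_eq_one_iff_unique] at hn
        apply hx
        rw [Subgroup.mem_center_iff]
        intro g
        have hm : ConjAct.toConjAct g • x ∈ MulAction.orbit (ConjAct P) x := MulAction.mem_orbit x _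
        have hh := congrArg Subtype.val (hn.1.elim ⟨_, hm⟩ ⟨x, MulAction.mem_orbit_self x⟩)
        change ConjAct.toConjAct g • x = x at hh
        rw [ConjAct.toConjAct_smul] at hh
        exact (eq_mul_inv_iff_mul_eq.1 hh.symm).symm
      by_cases h2 : n = 1
      · subst h2
        have : ∀ a ∈ s, w a = 2 := fun a ha => by
          simp only [w, if_neg (hnc a ha), if_pos ((horb a ha).trans (hn.trans (pow_one 2)))]
        rw [Finset.sum_congr rfl this, Finset.sum_const, smul_eq_mul, hsize, hn]; norm_num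
      · have : ∀ a ∈ s, w a = 1 := fun a ha => by
          have : Nat.card (MulAction.orbit (ConjAct P) a) ≠ 2 := by
            rw [horb a ha, hn]
            intro hc
            exact h2 (Nat.pow_right_injective (le_refl 2) (by simpa using hc))
          simp only [w, if_neg (hnc a ha), if_neg this]
        rw [Finset.sum_congr rfl this, Finset.sum_const, smul_eq_mul, mul_one, hsize, hn]
        calc 4 = 2 ^ 2 := by norm_num
          _ ≤ _ := Nat.pow_le_pow_right (by norm_num) (by omega)
  let i : Subgroup P → P → ℕ := fun H x => if x ∈ H then 1 else 0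
  have hi : ∀ H : Subgroup P, ∑ x, i H x = Nat.card H := fun H => by
    rw [Finset.sum_boole, Nat.cast_id, ← Fintype.card_subtype, Nat.card_eq_fintype_card]
  have h2 : ∀ x, w x ≤ 1 + (i A x + i B x + i C x) := by
    intro x
    by_cases hx : x ∈ center P
    · simp [w, i, hx, hA hx, hB hx, hC hx]
    · by_cases ho : Nat.card (MulAction.orbit (ConjAct P) x) = 2
      · simp only [w, if_neg hx, if_pos ho]
        rcases hcover x hx ho with h | h | h <;> simp only [i, if_pos h] <;> omega
      · simp only [w, if_neg hx, if_neg ho]; omega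
  have h3 := h1.trans (Finset.sum_le_sum fun x _ => h2 x)
  rw [Finset.sum_add_distrib, Finset.sum_add_distrib, Finset.sum_add_distrib, hi, hi, hi,
    Finset.sum_const, smul_eq_mul, mul_one, Finset.card_univ, ← Nat.card_eq_fintype_card] at h3
  omega

theorem exists_center_involution (hP : IsPGroup 2 P) (N : Subgroup P) [N.Normal] (hN : N ≠ ⊥) :
    ∃ c ∈ N, c ∈ center P ∧ orderOf c = 2 := by
  have hnt : Nontrivial N := N.nontrivial_iff_ne_bot.2 hN
  obtain ⟨n, hn0, hn⟩ := (hP.to_subgroup N).nontrivial_iff_card.1 hnt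
  have hdvd : 2 ∣ Nat.card N := hn ▸ dvd_pow_self 2 hn0.ne'
  have hP' : IsPGroup 2 (ConjAct P) := hP.of_equiv ConjAct.toConjAct
  obtain ⟨b, hb, hne⟩ := hP'.exists_fixed_point_of_prime_dvd_card_of_fixed_point N hdvd
    (a := (1 : N)) (fun g => smul_one g)
  have hb0 : (b : P) ≠ 1 := fun h => hne (Subtype.ext h.symm)
  have hbc : (b : P) ∈ center P := by
    rw [Subgroup.mem_center_iff]
    intro g
    have := congrArg Subtype.val (hb (ConjAct.toConjAct g))
    change ConjAct.toConjAct g • (b : P) = b at this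
    rw [ConjAct.toConjAct_smul] at this
    exact (eq_mul_inv_iff_mul_eq.1 this.symm).symm
  obtain ⟨k, hk⟩ := IsPGroup.iff_orderOf.1 hP (b : P)
  have hk0 : k ≠ 0 := by
    intro h; rw [h, pow_zero, orderOf_eq_one_iff] at hk; exact hb0 hk
  refine ⟨(b : P) ^ 2 ^ (k - 1), pow_mem b.2 _, pow_mem hbc _, ?_⟩
  rw [orderOf_pow_of_dvd (pow_ne_zero _ (by norm_num)) (hk ▸ pow_dvd_pow 2 (by omega)), hk,
    Nat.pow_div (by omega) (by norm_num), show k - (k - 1) = 1 by omega, pow_one]

theorem four_mul_centralMod_le (hP : IsPGroup 2 P) (K : Subgroup P) [K.Normal]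
    (hK : ¬ _root_.commutator P ≤ K) : 4 * Nat.card (centralMod K) ≤ Nat.card P := by
  have hna : ¬ IsMulCommutative (P ⧸ K) := by
    intro hc
    exact hK (Subgroup.Normal.quotient_commutative_iff_commutator_le.1 hc)
  have h := mul_card_center_le (hP.to_quotient K) hna
  have e1 : Nat.card (centralMod K) = Nat.card (center (P ⧸ K)) * Nat.card K := by
    have h1 : (centralMod K).index = (center (P ⧸ K)).index :=
      Subgroup.index_comap_of_surjective _ (QuotientGroup.mk'_surjective K)
    have h2 := (centralMod K).index_mul_card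
    rw [h1, K.card_eq_card_quotient_mul_card_subgroup, ← (center (P ⧸ K)).index_mul_card,
      Nat.mul_assoc] at h2
    exact Nat.eq_of_mul_eq_mul_left (Nat.pos_of_ne_zero Subgroup.index_ne_zero_of_finite) h2
  rw [e1, K.card_eq_card_quotient_mul_card_subgroup, ← Nat.mul_assoc]
  exact Nat.mul_le_mul_right _ h

omit [Finite P] in
theorem mem_zpowers_two {c y : P} (hc : orderOf c = 2) (hy : y ∈ Subgroup.zpowers c) : y = 1 ∨ y = c := by
  obtain ⟨k, rfl⟩ := hy
  show c ^ k = 1 ∨ c ^ k = c
  have h2 : c ^ k = c ^ (k % (2 : ℕ) : ℤ) := by rw [← hc, zpow_mod_orderOf]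
  rw [h2]
  rcases Int.emod_two_eq_zero_or_one k with h | h <;> simp [h]

/-- A 2-group with more than half as many classes as elements has derived subgroup of order at most 2. -/
theorem card_commutator_le_two {P : Type*} [Group P] [Finite P] (hP : IsPGroup 2 P)
    (h : Nat.card P < 2 * Nat.card (ConjClasses P)) : Nat.card (_root_.commutator P) ≤ 2 := by
  induction hn : Nat.card P using Nat.strong_induction_on generalizing P with
  | _ n ih =>
  subst hn
  by_contra hgt
  push Not at hgt
  have hne : _root_.commutator P ≠ ⊥ := by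
    intro he; rw [he, Subgroup.card_bot] at hgt; omega
  obtain ⟨c, hcN, hcZ, hc⟩ := exists_center_involution hP (_root_.commutator P) hne
  set K := Subgroup.zpowers c with hKdef
  have hcardK : Nat.card K = 2 := (Nat.card_zpowers c).trans hc
  haveI hKn : K.Normal := by
    refine ⟨fun x hx g => ?_⟩
    have : x ∈ center P := by
      rcases mem_zpowers_two hc hx with rfl | rfl
      · exact one_mem _
      · exact hcZ
    rwa [Subgroup.mem_center_iff.1 this g, mul_inv_cancel_right]
  have hq : Nat.card (ConjClasses P) ≤ 2 * Nat.card (ConjClasses (P ⧸ K)) := by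
    let F : ConjClasses (P ⧸ K) × K → ConjClasses P := fun z => ConjClasses.mk (z.1.out.out * (z.2 : P))
    have hF : Function.Surjective F := by
      intro d
      obtain ⟨x, rfl⟩ := ConjClasses.exists_rep d
      set e := ConjClasses.mk (QuotientGroup.mk x : P ⧸ K)
      obtain ⟨g, hg⟩ := isConj_iff.1 (ConjClasses.mk_eq_mk_iff_isConj.1 (Quotient.out_eq e).symm)
      obtain ⟨g, rfl⟩ := QuotientGroup.mk_surjective g
      rw [← QuotientGroup.out_eq' e.out, ← QuotientGroup.mk_inv, ← QuotientGroup.mk_mul,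
        ← QuotientGroup.mk_mul, eq_comm, QuotientGroup.eq] at hg
      refine ⟨⟨e, ⟨_, hg⟩⟩, ?_⟩
      refine (ConjClasses.mk_eq_mk_iff_isConj.2 (isConj_iff.2 ⟨g, ?_⟩)).symm
      simp
    have := Nat.card_le_card_of_surjective F hF
    rw [Nat.card_prod, hcardK, Nat.mul_comm] at this
    exact this
  have hcard : Nat.card P = Nat.card (P ⧸ K) * 2 := by
    rw [K.card_eq_card_quotient_mul_card_subgroup, hcardK]
  have hlt : Nat.card (P ⧸ K) < Nat.card P := by
    have : 0 < Nat.card (P ⧸ K) := Nat.card_pos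
    omega
  have ih' := ih _ hlt (hP.to_quotient K) (by omega) rfl
  have hmap : (_root_.commutator P).map (QuotientGroup.mk' K) = _root_.commutator (P ⧸ K) := by
    rw [_root_.commutator_def, _root_.commutator_def, Subgroup.map_commutator,
      Subgroup.map_top_of_surjective _ (QuotientGroup.mk'_surjective K)]
  have hKle : K ≤ _root_.commutator P := by rw [hKdef, Subgroup.zpowers_le]; exact hcN
  have hmul : Nat.card (_root_.commutator P) = Nat.card (_root_.commutator (P ⧸ K)) * 2 := by
    rw [← hmap, ← hcardK]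
    have h1 : ((QuotientGroup.mk' K).domRestrict (_root_.commutator P)).ker = K.subgroupOf _ := by
      rw [MonoidHom.ker_domRestrict, QuotientGroup.ker_mk']
    have h2 := ((QuotientGroup.mk' K).domRestrict (_root_.commutator P)).ker.index_mul_card
    rw [Subgroup.index_ker, MonoidHom.domRestrict_range, h1,
      Nat.card_congr (Subgroup.subgroupOfEquivOfLe hKle).toEquiv] at h2
    exact h2.symm
  have h4 : Nat.card (_root_.commutator P) = 4 := by
    obtain ⟨j, hj⟩ := (hP.to_subgroup (_root_.commutator P)).exists_card_eq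
    have : 2 ≤ j := by
      by_contra hj2
      have : (2 : ℕ) ^ j ≤ 2 ^ 1 := Nat.pow_le_pow_right (by norm_num) (by omega)
      omega
    have : (2 : ℕ) ^ j ≤ 2 ^ 2 := by omega
    have : j ≤ 2 := (Nat.pow_le_pow_iff_right (by norm_num)).1 this
    rw [hj, show j = 2 by omega]; norm_num
  have hKneP : ¬ _root_.commutator P ≤ K := fun hle => by
    have := Nat.le_of_dvd Nat.card_pos (Subgroup.card_dvd_of_le hle)
    omega
  have hna : ¬ IsMulCommutative P := fun hc => hne ((_root_.commutator_eq_bot_iff _).mpr hc)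
  have hzZ : 4 * Nat.card (center P) ≤ Nat.card P := mul_card_center_le hP hna
  have hcm : ∀ x g : P, g * x * g⁻¹ * x⁻¹ ∈ _root_.commutator P := fun x g => by
    rw [← commutatorElement_def]
    exact Subgroup.commutator_mem_commutator (Subgroup.mem_top g) (Subgroup.mem_top x)
  have hpair : ∀ x : P, Nat.card (MulAction.orbit (ConjAct P) x) = 2 → ∀ g h : P,
      g * x * g⁻¹ ≠ x → h * x * h⁻¹ ≠ x → g * x * g⁻¹ = h * x * h⁻¹ := by
    intro x hx g h hg hh
    by_contra hne'
    have hm : ∀ g : P, g * x * g⁻¹ ∈ MulAction.orbit (ConjAct P) x := fun g =>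
      ⟨ConjAct.toConjAct g, ConjAct.toConjAct_smul g x⟩
    have hsub : ({x, g * x * g⁻¹, h * x * h⁻¹} : Set P) ⊆ MulAction.orbit (ConjAct P) x := by
      rintro y (rfl | rfl | rfl)
      · exact MulAction.mem_orbit_self _
      · exact hm g
      · exact hm h
    have h3 := Set.ncard_le_ncard hsub
    rw [Set.ncard_insert_of_notMem (by
      simp only [Set.mem_insert_iff, Set.mem_singleton_iff, not_or]; exact ⟨hg.symm, hh.symm⟩),
      Set.ncard_pair hne', ← Nat.card_coe_set_eq, hx] at h3
    omega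
  have hzR : ∀ (L : Subgroup P) [L.Normal], center P ≤ centralMod L := by
    intro L _ z hz
    rw [mem_centralMod]
    intro g
    rw [Subgroup.mem_center_iff.1 hz g, mul_inv_cancel_right, mul_inv_cancel]
    exact one_mem _
  have hle_half : ∀ H : Subgroup P, H ≠ ⊤ → 2 * Nat.card H ≤ Nat.card P := by
    intro H hH
    have := card_mul_le_of_lt (K := (⊤ : Subgroup P)) (hP.to_subgroup ⊤) hH.lt_top
    rwa [Subgroup.card_top] at this
  by_cases hcen : _root_.commutator P ≤ center P
  · -- central derived subgroup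
    have hhom : ∀ x g h : P, (g * h) * x * (g * h)⁻¹ * x⁻¹ = (g * x * g⁻¹ * x⁻¹) * (h * x * h⁻¹ * x⁻¹) := by
      intro x g h
      have hz := Subgroup.mem_center_iff.1 (hcen (hcm x h))
      calc (g * h) * x * (g * h)⁻¹ * x⁻¹ = g * (h * x * h⁻¹ * x⁻¹) * (x * g⁻¹ * x⁻¹) := by group
        _ = (h * x * h⁻¹ * x⁻¹) * g * (x * g⁻¹ * x⁻¹) := by rw [hz g]
        _ = (h * x * h⁻¹ * x⁻¹) * (g * x * g⁻¹ * x⁻¹) := by group
        _ = _ := (hz _).symm
    obtain ⟨a, b, d, hcovE⟩ : ∃ a b d : P, ∀ e ∈ _root_.commutator P, e ≠ 1 → e = a ∨ e = b ∨ e = d := by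
      classical
      haveI := Fintype.ofFinite (_root_.commutator P)
      have hc3 : ((Finset.univ : Finset (_root_.commutator P)).erase 1).card = 3 := by
        rw [Finset.card_erase_of_mem (Finset.mem_univ _), Finset.card_univ,
          ← Nat.card_eq_fintype_card, h4]
      obtain ⟨a, b, d, -, -, -, habd⟩ := Finset.card_eq_three.1 hc3
      refine ⟨a, b, d, fun e he he1 => ?_⟩
      have : (⟨e, he⟩ : _root_.commutator P) ∈ (Finset.univ : Finset (_root_.commutator P)).erase 1 := by
        simp [Subtype.ext_iff, he1]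
      rw [habd] at this
      simp only [Finset.mem_insert, Finset.mem_singleton, Subtype.ext_iff] at this
      exact this
    have hkey : ∀ x, x ∉ center P → Nat.card (MulAction.orbit (ConjAct P) x) = 2 →
        ∃ e ∈ _root_.commutator P, e ≠ 1 ∧ orderOf e = 2 ∧ ∀ g, g * x * g⁻¹ * x⁻¹ ∈ Subgroup.zpowers e := by
      intro x hx ho
      obtain ⟨g, hg⟩ : ∃ g, g * x * g⁻¹ ≠ x := by
        by_contra hall
        push Not at hall
        exact hx (Subgroup.mem_center_iff.2 fun g => by
          have := hall g; rw [mul_inv_eq_iff_eq_mul] at this; exact this)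
      have he1 : g * x * g⁻¹ * x⁻¹ ≠ 1 := fun h1 => hg (mul_inv_eq_one.1 h1)
      have hall2 : ∀ h : P, h * x * h⁻¹ * x⁻¹ = 1 ∨ h * x * h⁻¹ * x⁻¹ = g * x * g⁻¹ * x⁻¹ := by
        intro h
        by_cases hh : h * x * h⁻¹ = x
        · left; rw [hh, mul_inv_cancel]
        · right; rw [hpair x ho h g hh hg]
      refine ⟨_, hcm x g, he1, ?_, fun h => ?_⟩
      · rw [orderOf_eq_prime_iff]
        refine ⟨?_, he1⟩
        rw [pow_two, ← hhom]
        rcases hall2 (g * g) with h1 | h1
        · exact h1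
        · exfalso
          rw [hhom] at h1
          exact he1 (mul_eq_left.1 h1)
      · rcases hall2 h with h1 | h1 <;> rw [h1]
        · exact one_mem _
        · exact Subgroup.mem_zpowers _
    haveI hnorm : ∀ e : _root_.commutator P, (Subgroup.zpowers (e : P)).Normal := fun e =>
      ⟨fun y hy g => by
        have : y ∈ center P := Subgroup.zpowers_le.2 (hcen e.2) hy
        rwa [Subgroup.mem_center_iff.1 this g, mul_inv_cancel_right]⟩
    let S : P → Subgroup P := fun e => by
      classical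
      exact if h : e ∈ _root_.commutator P ∧ orderOf e = 2 then
        @centralMod P _ (Subgroup.zpowers e) (hnorm ⟨e, h.1⟩) else center P
    have hS : ∀ e, center P ≤ S e ∧ 4 * Nat.card (S e) ≤ Nat.card P := by
      intro e
      by_cases he : e ∈ _root_.commutator P ∧ orderOf e = 2
      · haveI := hnorm ⟨e, he.1⟩
        simp only [S, dif_pos he]
        refine ⟨hzR _, four_mul_centralMod_le hP _ fun hle => ?_⟩
        have := Nat.le_of_dvd Nat.card_pos (Subgroup.card_dvd_of_le hle)
        rw [Nat.card_zpowers, he.2] at this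
        omega
      · simp only [S, dif_neg he]; exact ⟨le_rfl, hzZ⟩
    have := two_mul_conjClasses_le hP (S a) (S b) (S d) (hS a).1 (hS b).1 (hS d).1
      (by have := (hS a).2; have := (hS b).2; have := (hS d).2; omega) (fun x hx ho => by
        obtain ⟨e, he, he1, he2, hall⟩ := hkey x hx ho
        haveI := hnorm ⟨e, he⟩
        have hmem : x ∈ S e := by
          simp only [S, dif_pos (And.intro he he2)]
          exact mem_centralMod.2 hall
        rcases hcovE e he he1 with rfl | rfl | rfl
        · exact Or.inl hmem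
        · exact Or.inr (Or.inl hmem)
        · exact Or.inr (Or.inr hmem))
    omega
  · -- non-central derived subgroup
    have hM : centralizer (_root_.commutator P : Set P) ≠ ⊤ := by
      intro ht
      exact hcen (fun e he => Subgroup.mem_center_iff.2 fun g =>
        (Subgroup.mem_centralizer_iff.1 (ht.ge (Subgroup.mem_top g)) e he).symm)
    have hcover : ∀ x : P, x ∉ center P → Nat.card (MulAction.orbit (ConjAct P) x) = 2 →
        x ∈ centralMod K ∨ x ∈ centralizer (_root_.commutator P : Set P) ∨ x ∈ center P := by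
      intro x hx ho
      obtain ⟨g, hg⟩ : ∃ g, g * x * g⁻¹ ≠ x := by
        by_contra hall
        push Not at hall
        exact hx (Subgroup.mem_center_iff.2 fun g => by
          have := hall g; rw [mul_inv_eq_iff_eq_mul] at this; exact this)
      by_cases heK : g * x * g⁻¹ * x⁻¹ ∈ K
      · left
        rw [mem_centralMod]
        intro h
        by_cases hh : h * x * h⁻¹ = x
        · rw [hh, mul_inv_cancel]; exact one_mem _
        · rwa [hpair x ho h g hh hg]
      · right; left
        have hcomm : x * (g * x * g⁻¹) = (g * x * g⁻¹) * x := by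
          by_cases h1 : x * g * x * (x * g)⁻¹ = x
          · exfalso
            apply hg
            have h2 : x * (g * x * g⁻¹) * x⁻¹ = x :=
              calc x * (g * x * g⁻¹) * x⁻¹ = x * g * x * (x * g)⁻¹ := by group
                _ = x := h1
            have h3 := mul_inv_eq_iff_eq_mul.1 h2
            exact mul_left_cancel h3
          · have h2 := hpair x ho (x * g) g h1 hg
            have h3 : x * (g * x * g⁻¹) * x⁻¹ = g * x * g⁻¹ := by
              refine Eq.trans ?_ h2
              group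
            exact mul_inv_eq_iff_eq_mul.1 h3
        have hce : x * (g * x * g⁻¹ * x⁻¹) = (g * x * g⁻¹ * x⁻¹) * x := by
          rw [← mul_assoc, hcomm]; group
        have hgen : _root_.commutator P = Subgroup.closure {c, g * x * g⁻¹ * x⁻¹} := by
          set W := Subgroup.closure {c, g * x * g⁻¹ * x⁻¹}
          have hWle : W ≤ _root_.commutator P := by
            rw [Subgroup.closure_le]
            rintro y (rfl | rfl)
            · exact hcN
            · exact hcm x g
          have hKW : K < W := by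
            refine lt_of_le_of_ne ?_ fun he => heK ?_
            · rw [hKdef, Subgroup.zpowers_le]; exact Subgroup.subset_closure (Set.mem_insert _ _)
            · rw [he]; exact Subgroup.subset_closure (Set.mem_insert_of_mem _ rfl)
          have h5 := card_mul_le_of_lt (hP.to_subgroup W) hKW
          exact (Subgroup.eq_of_le_of_card_ge hWle (by omega)).symm
        rw [Subgroup.mem_centralizer_iff]
        intro e he
        rw [SetLike.mem_coe, hgen] at he
        have : Subgroup.closure {c, g * x * g⁻¹ * x⁻¹} ≤ centralizer ({x} : Set P) := by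
          rw [Subgroup.closure_le]
          rintro y (rfl | rfl)
          · exact Subgroup.mem_centralizer_singleton_iff.2 (Subgroup.mem_center_iff.1 hcZ x).symm
          · exact Subgroup.mem_centralizer_singleton_iff.2 hce.symm
        exact Subgroup.mem_centralizer_singleton_iff.1 (this he)
    have := two_mul_conjClasses_le hP (centralMod K) (centralizer (_root_.commutator P : Set P))
      (center P) (hzR K) (Subgroup.center_le_centralizer _) le_rfl
      (by have := four_mul_centralMod_le hP K hKneP; have := hle_half _ hM; omega) hcover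
    omega

variable {G : Type*} [Group G] [Finite G]

theorem focal_le_bound (S : Sylow 2 G) (c : G) (hcP : c ∈ (S : Subgroup G))
    (h : ∀ x ∈ (S : Subgroup G), ∀ u : G, u * x * u⁻¹ ∈ (S : Subgroup G) →
      x * (u * x * u⁻¹)⁻¹ ∈ Subgroup.zpowers c) :
    (S : Subgroup G).focalSubgroup ≤ Subgroup.zpowers c := by
  rw [Subgroup.focalSubgroup, Subgroup.closure_le]
  rintro y ⟨hy, x, hx, u, rfl⟩
  have h1 : u * x⁻¹ * u⁻¹ ∈ (S : Subgroup G) := by
    have : u * x⁻¹ * u⁻¹ = x⁻¹ * (x * u * x⁻¹ * u⁻¹) := by group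
    rw [this]; exact mul_mem (inv_mem hx) hy
  have h2 : u * x * u⁻¹ ∈ (S : Subgroup G) := by
    have : u * x * u⁻¹ = (u * x⁻¹ * u⁻¹)⁻¹ := by group
    rw [this]; exact inv_mem h1
  have h3 := h x hx u h2
  rw [commutatorElement_def, SetLike.mem_coe]
  have : x * u * x⁻¹ * u⁻¹ = x * (u * x * u⁻¹)⁻¹ := by group
  rw [this]
  exact h3

theorem complement_of_focal (S : Sylow 2 G) (c : G) (hc : orderOf c = 2)
    (hF : (S : Subgroup G).focalSubgroup ≤ Subgroup.zpowers c) :
    Cfsg.HasNormalPComplement 2 G := by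
  set M := (S : Subgroup G).transferFocal.ker with hMdef
  have hMS : M ⊓ (S : Subgroup G) ≤ Subgroup.zpowers c := by
    rw [hMdef, Subgroup.ker_transferFocal_inf_eq_focalSubgroup]; exact hF
  obtain ⟨R⟩ : Nonempty (Sylow 2 M) := inferInstance
  have hR : Nat.card (R : Subgroup M) ∣ 2 := by
    have h1 : IsPGroup 2 ((R : Subgroup M).map M.subtype) := R.isPGroup'.map _
    obtain ⟨Q, hQ⟩ := h1.exists_le_sylow
    obtain ⟨g, hg⟩ := MulAction.exists_smul_eq G Q S
    have h2 : ((R : Subgroup M).map M.subtype).map (MulAut.conj g).toMonoidHom ≤ Subgroup.zpowers c := by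
      refine le_trans ?_ hMS
      rintro - ⟨y, ⟨z, hz, rfl⟩, rfl⟩
      refine ⟨(MonoidHom.normal_ker _).conj_mem _ z.2 g, ?_⟩
      rw [← hg]
      exact Subgroup.mem_map_of_mem _ (hQ ⟨z, hz, rfl⟩)
    have h3 := Subgroup.card_dvd_of_le h2
    rwa [Nat.card_zpowers, hc, Subgroup.card_map_of_injective (MulAut.conj g).injective,
      Subgroup.card_map_of_injective M.subtype_injective] at h3
  have hN : Subgroup.normalizer ((R : Subgroup M) : Set M) ≤ centralizer ((R : Subgroup M) : Set M) := by
    intro n hn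
    rw [Subgroup.mem_centralizer_iff]
    intro y hy
    by_cases hy1 : y = 1
    · simp [hy1]
    have h1 : (⟨n * y * n⁻¹, (Subgroup.mem_normalizer_iff.1 hn y).1 hy⟩ : (R : Subgroup M)) = ⟨y, hy⟩ := by
      have hle := Nat.le_of_dvd (by norm_num) hR
      haveI := Fintype.ofFinite (R : Subgroup M)
      by_contra hne
      have : 2 < Fintype.card (R : Subgroup M) := by
        classical
        have h3 : ({1, ⟨y, hy⟩, ⟨n * y * n⁻¹, (Subgroup.mem_normalizer_iff.1 hn y).1 hy⟩} :
            Finset (R : Subgroup M)).card = 3 := by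
          rw [Finset.card_eq_three]
          exact ⟨_, _, _, fun h => hy1 (congrArg Subtype.val h).symm,
            fun h => hy1 (conj_eq_one_iff.1 (congrArg Subtype.val h).symm), Ne.symm hne, rfl⟩
        have := Finset.card_le_univ ({1, ⟨y, hy⟩, ⟨n * y * n⁻¹, (Subgroup.mem_normalizer_iff.1 hn y).1 hy⟩} :
            Finset (R : Subgroup M))
        omega
      rw [Nat.card_eq_fintype_card] at hle
      omega
    have h1' := mul_inv_eq_iff_eq_mul.1 (congrArg Subtype.val h1)
    exact h1'.symm
  set N₀ := (MonoidHom.transferSylow R hN).ker with hN₀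
  have hcop := MonoidHom.not_dvd_card_ker_transferSylow R hN
  have hodd : ∀ y : M, Odd (orderOf y) → y ∈ N₀ := by
    intro y hy
    rw [hN₀, MonoidHom.mem_ker, ← orderOf_eq_one_iff]
    have h1 := orderOf_map_dvd (MonoidHom.transferSylow R hN) y
    have h2 : orderOf (MonoidHom.transferSylow R hN y) ∣ 2 :=
      (_root_.orderOf_dvd_natCard _).trans hR
    exact Nat.dvd_one.1 ((Nat.Coprime.gcd_eq_one hy.coprime_two_right) ▸ Nat.dvd_gcd h1 h2)
  set N := N₀.map M.subtype with hNdef
  have hNc : Nat.card N = Nat.card N₀ := Subgroup.card_map_of_injective M.subtype_injective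
  have hNn : N.Normal := by
    refine ⟨fun x hx g => ?_⟩
    obtain ⟨y, hy, rfl⟩ := hx
    refine ⟨⟨g * y * g⁻¹, (MonoidHom.normal_ker _).conj_mem _ y.2 g⟩, hodd _ ?_, rfl⟩
    rw [Subgroup.orderOf_mk, H73.orderOf_conj_eq, Subgroup.orderOf_coe]
    refine Nat.not_even_iff_odd.1 fun he => hcop ((even_iff_two_dvd.1 he).trans ?_)
    rw [← Subgroup.orderOf_mk y hy]; exact _root_.orderOf_dvd_natCard _
  refine ⟨S, N, hNn, ?_⟩
  have hidx : ∃ j, N.index = 2 ^ j := by
    rw [hNdef, Subgroup.index_map_subtype, (MonoidHom.ker_transferSylow_isComplement' R hN).symm.index_eq_card]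
    obtain ⟨i, hi⟩ := R.isPGroup'.exists_card_eq
    obtain ⟨j, hj⟩ := ((S.isPGroup'.to_quotient _).to_subgroup (S : Subgroup G).transferFocal.range).exists_card_eq
    have hMi : M.index = Nat.card (S : Subgroup G).transferFocal.range := Subgroup.index_ker _
    exact ⟨i + j, by rw [hi, hMi, hj, pow_add]⟩
  obtain ⟨j, hj⟩ := hidx
  have h1 := N.index_mul_card
  have hS : Nat.card (S : Subgroup G) = 2 ^ j := by
    rw [Sylow.card_eq_multiplicity, ← h1, hj,
      Nat.factorization_mul (pow_ne_zero _ (by norm_num)) Nat.card_pos.ne', Finsupp.add_apply,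
      Nat.prime_two.factorization_pow, Finsupp.single_eq_same,
      Nat.factorization_eq_zero_of_not_dvd (by rwa [hNc]), add_zero]
  refine Subgroup.isComplement'_of_coprime (by rw [hS, ← h1, hj, Nat.mul_comm]) ?_
  rw [hS]
  exact (Nat.Coprime.pow_right _ ((Nat.prime_two.coprime_iff_not_dvd.2 (by rwa [hNc])).symm))

theorem two_kP_le_or_le_centralizer_of_comm (S : Sylow 2 G) (hab : IsMulCommutative (S : Subgroup G)) :
    2 * kP 2 G ≤ Nat.card (S : Subgroup G) ∨
      Subgroup.normalizer ((S : Subgroup G) : Set G) ≤ centralizer ((S : Subgroup G) : Set G) := by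
  by_contra hcon
  obtain ⟨hlt, hmove⟩ := not_or.1 hcon
  obtain ⟨g, hgN, hg2, y, hy, hgy⟩ := exists_pPrime_moving S hab _ le_rfl hmove
  have hgodd : Odd (orderOf g) :=
    Nat.not_even_iff_odd.1 fun he => hg2 (even_iff_two_dvd.1 he)
  have h3 := kP_le_of_normalizing S g hgN 3 (fun d h0 hd => by
    interval_cases d
    · exact Nat.coprime_one_left _
    · exact hgodd.coprime_two_left)
  set F := (S : Subgroup G) ⊓ centralizer {g} with hF
  have hFne : F < (S : Subgroup G) := lt_of_le_of_ne inf_le_left fun he =>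
    hgy (Subgroup.mem_centralizer_singleton_iff.1 ((he.ge hy).2)).symm
  have hne2 : F.relIndex (S : Subgroup G) ≠ 2 := by
    intro h2
    have hy' : y ∉ F := fun hy' => hgy (Subgroup.mem_centralizer_singleton_iff.1 hy'.2).symm
    have hgy' : g * y * g⁻¹ ∈ (S : Subgroup G) := (Subgroup.mem_normalizer_iff.1 hgN y).1 hy
    have hn' : g * y * g⁻¹ ∉ F := by
      intro hh
      have h5 := Subgroup.mem_centralizer_singleton_iff.1 hh.2
      apply hgy
      have h6 : g * y = g * (g * y * g⁻¹) := by rw [← h5]; group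
      have h7 : y = g * y * g⁻¹ := mul_left_cancel h6
      calc g * y = (g * y * g⁻¹) * g := by group
        _ = y * g := by rw [← h7]
    have hfF : y⁻¹ * (g * y * g⁻¹) ∈ F := by
      have := (Subgroup.mul_mem_iff_of_index_two (h := h2) (H := F.subgroupOf (S : Subgroup G))
        (a := ⟨y⁻¹, inv_mem hy⟩) (b := ⟨_, hgy'⟩)).2
      simp only [Subgroup.mem_subgroupOf] at this
      exact this (iff_of_false (fun h => hy' (inv_mem_iff.1 h)) hn')
    set f := y⁻¹ * (g * y * g⁻¹) with hfd
    have hfg : g * f = f * g := (Subgroup.mem_centralizer_singleton_iff.1 hfF.2).symm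
    have hyf : g * y * g⁻¹ = y * f := by rw [hfd]; group
    have hpow : ∀ i : ℕ, g ^ i * y * (g ^ i)⁻¹ = y * f ^ i := by
      intro i
      induction i with
      | zero => simp
      | succ i ih =>
        have hfi : g * f ^ i * g⁻¹ = f ^ i := by
          rw [((show Commute g f from hfg).pow_right i).eq, mul_inv_cancel_right]
        calc g ^ (i + 1) * y * (g ^ (i + 1))⁻¹ = g * (g ^ i * y * (g ^ i)⁻¹) * g⁻¹ := by
              rw [pow_succ']; group
          _ = (g * y * g⁻¹) * (g * f ^ i * g⁻¹) := by rw [ih]; group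
          _ = y * f ^ (i + 1) := by rw [hfi, hyf, mul_assoc, ← pow_succ']
    have hfn := hpow (orderOf g)
    rw [pow_orderOf_eq_one, inv_one, one_mul, mul_one] at hfn
    have hf1 : f ^ orderOf g = 1 := mul_eq_left.1 hfn.symm
    obtain ⟨k, hk⟩ := IsPGroup.iff_orderOf.1 S.isPGroup' ⟨f, hfF.1⟩
    rw [Subgroup.orderOf_mk] at hk
    have hd := orderOf_dvd_of_pow_eq_one hf1
    rw [hk] at hd
    have hk0 : k = 0 := by
      by_contra hk0
      exact hg2 ((dvd_pow_self 2 hk0).trans hd)
    rw [hk0, pow_zero, orderOf_eq_one_iff] at hk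
    rw [hk, mul_one] at hyf
    exact hgy (mul_inv_eq_iff_eq_mul.1 hyf)
  have h4 : 4 * Nat.card F ≤ Nat.card (S : Subgroup G) := by
    obtain ⟨n, hn⟩ := S.isPGroup'.index (F.subgroupOf (S : Subgroup G))
    have hn2 : 2 ≤ n := by
      by_contra hlt2
      have hn1 : n = 0 ∨ n = 1 := by omega
      rcases hn1 with rfl | rfl
      · exact hFne.not_ge (Subgroup.relIndex_eq_one.1 (by simpa using hn))
      · exact hne2 (by simpa [Subgroup.relIndex] using hn)
    have h := (F.subgroupOf (S : Subgroup G)).index_mul_card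
    rw [Nat.card_congr (Subgroup.subgroupOfEquivOfLe inf_le_left).toEquiv, hn] at h
    rw [← h]
    exact Nat.mul_le_mul_right _
      ((Nat.pow_le_pow_right (by norm_num : 0 < 2) hn2).trans' (by norm_num))
  omega

theorem kP_le_two_mul_quotient (S : Sylow 2 G) (C : Subgroup G) (hSC : (S : Subgroup G) ≤ C)
    (K : Subgroup C) [K.Normal] (hK : Nat.card K = 2) : kP 2 G ≤ 2 * kP 2 (C ⧸ K) := by
  classical
  let A := {d : ConjClasses (C ⧸ K) // ∀ x ∈ d.carrier, ∃ k : ℕ, orderOf x = 2 ^ k}
  let F : A × K → ConjClasses G := fun z => ConjClasses.mk ((z.1.1.out.out * (z.2 : C) : C) : G)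
  have hs : {d : ConjClasses G | ∀ x ∈ d.carrier, ∃ k : ℕ, orderOf x = 2 ^ k} ⊆ Set.range F := by
    intro d hd
    obtain ⟨x, rfl⟩ := ConjClasses.exists_rep d
    obtain ⟨g, hg⟩ := exists_conj_mem_sylow S (hd x (by rw [ConjClasses.mem_carrier_iff_mk_eq]))
    set y : C := ⟨g * x * g⁻¹, hSC hg⟩ with hy
    have hy2 : ∃ k : ℕ, orderOf (QuotientGroup.mk y : C ⧸ K) = 2 ^ k := by
      obtain ⟨k, hk⟩ := IsPGroup.iff_orderOf.1 S.isPGroup' ⟨_, hg⟩
      rw [Subgroup.orderOf_mk] at hk
      have h1 := orderOf_map_dvd (QuotientGroup.mk' K) y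
      rw [hy, Subgroup.orderOf_mk, hk] at h1
      obtain ⟨i, -, hi⟩ := (Nat.dvd_prime_pow Nat.prime_two).1 h1
      exact ⟨i, hi⟩
    let e : A := ⟨ConjClasses.mk (QuotientGroup.mk y), (forall_carrier_mk
      (P := fun z : C ⧸ K => ∃ k : ℕ, orderOf z = 2 ^ k)
      (fun g z h => by rwa [H73.orderOf_conj_eq])).2 hy2⟩
    obtain ⟨h, hh⟩ := isConj_iff.1 (ConjClasses.mk_eq_mk_iff_isConj.1 (Quotient.out_eq e.1).symm)
    obtain ⟨h, rfl⟩ := QuotientGroup.mk_surjective h
    rw [← QuotientGroup.out_eq' e.1.out, ← QuotientGroup.mk_inv, ← QuotientGroup.mk_mul,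
      ← QuotientGroup.mk_mul, eq_comm, QuotientGroup.eq] at hh
    refine ⟨⟨e, ⟨_, hh⟩⟩, ?_⟩
    refine (ConjClasses.mk_eq_mk_iff_isConj.2 (isConj_iff.2 ⟨(h : G) * g, ?_⟩)).symm
    simp [F, hy, mul_assoc]
  calc kP 2 G ≤ Nat.card (Set.range F) := Nat.card_mono (Set.finite_range F) hs
    _ ≤ Nat.card (A × K) := Finite.card_range_le F
    _ = _ := by rw [Nat.card_prod, hK, Nat.mul_comm]; rfl

theorem two_kP_le_of_fused (S : Sylow 2 G)
    (hk : 2 * Nat.card (ConjClasses (S : Subgroup G)) ≤
      Nat.card (S : Subgroup G) + Nat.card (center (S : Subgroup G)))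
    (c : (S : Subgroup G)) (hc : c ∈ center (S : Subgroup G)) (u : G) (x : (S : Subgroup G))
    (hx : x ∉ center (S : Subgroup G)) (hux : u * (x : G) * u⁻¹ = c)
    (hA : ∀ y : (S : Subgroup G), y ∈ center (S : Subgroup G) → u * (y : G) * u⁻¹ ∈ (S : Subgroup G)) :
    2 * kP 2 G ≤ Nat.card (S : Subgroup G) := by
  classical
  set Z := center (S : Subgroup G) with hZ
  let φ : Z →* (S : Subgroup G) :=
    { toFun := fun z => ⟨u * ((z : (S : Subgroup G)) : G) * u⁻¹, hA z z.2⟩
      map_one' := Subtype.ext (by simp)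
      map_mul' := fun a b => Subtype.ext (by simp [mul_assoc]) }
  set Z0 := Z.comap φ with hZ0
  have hφinj : Function.Injective φ := fun a b h => by
    have h1 : u * ((a : (S : Subgroup G)) : G) * u⁻¹ = u * ((b : (S : Subgroup G)) : G) * u⁻¹ :=
      congrArg (fun z : (S : Subgroup G) => (z : G)) h
    exact Subtype.ext (Subtype.ext (mul_left_cancel (mul_right_cancel h1)))
  have hZ0ne : Z0 ≠ ⊤ := by
    intro ht
    apply hx
    let ψ : Z → Z := fun z => ⟨φ z, (ht.ge (Subgroup.mem_top z) : z ∈ Z0)⟩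
    have hψ : Function.Injective ψ := fun a b h =>
      hφinj (congrArg (fun z : Z => (z : (S : Subgroup G))) h)
    obtain ⟨z, hz⟩ := (Finite.injective_iff_surjective.1 hψ) ⟨c, hc⟩
    have h1 : u * ((z : (S : Subgroup G)) : G) * u⁻¹ = u * (x : G) * u⁻¹ := by
      rw [hux]
      exact congrArg (fun w : Z => ((w : (S : Subgroup G)) : G)) hz
    rw [← Subtype.ext (mul_left_cancel (mul_right_cancel h1))]
    exact z.2
  have h2 := card_mul_le_of_lt (K := (⊤ : Subgroup Z))
    ((S.isPGroup'.to_subgroup Z).to_subgroup ⊤) hZ0ne.lt_top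
  rw [Subgroup.card_top] at h2
  let f : ConjClasses (S : Subgroup G) → ConjClasses G := ConjClasses.map (S : Subgroup G).subtype
  let D : Set (ConjClasses (S : Subgroup G)) :=
    (fun z : Z => ConjClasses.mk (z : (S : Subgroup G))) '' (Z0 : Set Z)ᶜ
  have hDcard : Nat.card D = Nat.card Z - Nat.card Z0 := by
    show Nat.card ↥((fun z : Z => ConjClasses.mk (z : (S : Subgroup G))) '' (Z0 : Set Z)ᶜ) = _
    rw [Nat.card_image_of_injective]
    · rw [Nat.card_coe_set_eq, Set.ncard_compl, ← Nat.card_coe_set_eq]; rfl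
    · intro a b h
      obtain ⟨g, hg⟩ := isConj_iff.1 (ConjClasses.mk_eq_mk_iff_isConj.1 h)
      rw [Subgroup.mem_center_iff.1 a.2 g, mul_inv_cancel_right] at hg
      exact Subtype.ext hg
  have hcov : {d : ConjClasses G | ∀ x ∈ d.carrier, ∃ k : ℕ, orderOf x = 2 ^ k} ⊆ f '' Dᶜ := by
    intro d hd
    obtain ⟨w, rfl⟩ := ConjClasses.exists_rep d
    obtain ⟨g, hg⟩ := exists_conj_mem_sylow S (hd w (by rw [ConjClasses.mem_carrier_iff_mk_eq]))
    have hfw : f (ConjClasses.mk ⟨_, hg⟩) = ConjClasses.mk w :=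
      ConjClasses.mk_eq_mk_iff_isConj.2 (isConj_iff.2 ⟨g⁻¹, by
        show g⁻¹ * (g * w * g⁻¹) * g⁻¹⁻¹ = w
        group⟩)
    by_cases hD : ConjClasses.mk (⟨_, hg⟩ : (S : Subgroup G)) ∈ D
    · obtain ⟨z, hz, hzeq⟩ := hD
      refine ⟨ConjClasses.mk (φ z), ?_, ?_⟩
      · rintro ⟨z', -, hz'eq⟩
        obtain ⟨g', hg'⟩ := isConj_iff.1 (ConjClasses.mk_eq_mk_iff_isConj.1 hz'eq)
        rw [Subgroup.mem_center_iff.1 z'.2 g', mul_inv_cancel_right] at hg'
        apply hz
        show φ z ∈ Z
        rw [← hg']; exact z'.2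
      · rw [← hfw, ← hzeq]
        refine ConjClasses.mk_eq_mk_iff_isConj.2 (isConj_iff.2 ⟨u⁻¹, ?_⟩)
        show u⁻¹ * (u * ((z : (S : Subgroup G)) : G) * u⁻¹) * u⁻¹⁻¹ = ((z : (S : Subgroup G)) : G)
        group
    · exact ⟨_, hD, hfw⟩
  have h3 : kP 2 G ≤ Nat.card (ConjClasses (S : Subgroup G)) - Nat.card D := by
    refine le_trans (Nat.card_mono (Set.toFinite _) hcov) ((Nat.card_image_le (Set.toFinite _)).trans ?_)
    rw [Nat.card_coe_set_eq Dᶜ, Set.ncard_compl, ← Nat.card_coe_set_eq D]
  have h4 : Nat.card D ≤ Nat.card (ConjClasses (S : Subgroup G)) := Finite.card_subtype_le _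
  omega

theorem hasNormalPComplement_of_many (S : Sylow 2 G)
    (h : Nat.card (S : Subgroup G) < 2 * kP 2 G) : Cfsg.HasNormalPComplement 2 G := by
  by_cases hab : IsMulCommutative (S : Subgroup G)
  · rcases two_kP_le_or_le_centralizer_of_comm S hab with h1 | h1
    · omega
    · exact hasNormalPComplement_of_le S h1
  have hkle := kP_le_conjClasses S
  have hlow := card_commutator_le_two S.isPGroup' (by omega)
  have hne : _root_.commutator (S : Subgroup G) ≠ ⊥ := fun he =>
    hab ((_root_.commutator_eq_bot_iff _).mp he)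
  obtain ⟨c, hcN, hcZ, hc⟩ := exists_center_involution S.isPGroup' _ hne
  have hder : ∀ y ∈ _root_.commutator (S : Subgroup G), y = 1 ∨ y = c := by
    intro y hy
    refine mem_zpowers_two hc ?_
    have : Subgroup.zpowers c = _root_.commutator (S : Subgroup G) := by
      refine Subgroup.eq_of_le_of_card_ge (Subgroup.zpowers_le.2 hcN) ?_
      rw [Nat.card_zpowers, hc]; exact hlow
    rwa [this]
  have hk2 := card_conjClasses_le S.isPGroup'
  norm_num at hk2
  have hcG : orderOf (c : G) = 2 := by rw [Subgroup.orderOf_coe]; exact hc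
  have hSc : ∀ y : (S : Subgroup G), (y : G) * c = (c : G) * y := fun y =>
    congrArg Subtype.val (Subgroup.mem_center_iff.1 hcZ y)
  by_cases hfus : ∃ x : (S : Subgroup G), x ∉ center (S : Subgroup G) ∧ IsConj (x : G) (c : G)
  · exfalso
    obtain ⟨x, hx, hxc⟩ := hfus
    obtain ⟨g, hg⟩ := isConj_iff.1 hxc
    -- move the centre of `S`, which centralizes `x`, into `S`
    set C := centralizer ({(c : G)} : Set G) with hC
    have hSC : (S : Subgroup G) ≤ C := fun y hy =>
      Subgroup.mem_centralizer_singleton_iff.2 (hSc ⟨y, hy⟩)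
    set A := ((center (S : Subgroup G)).map (S : Subgroup G).subtype).map (MulAut.conj g).toMonoidHom with hA
    have hAC : A ≤ C := by
      rintro - ⟨-, ⟨z, hz, rfl⟩, rfl⟩
      have h1 : (z : G) * x = x * z := congrArg Subtype.val (Subgroup.mem_center_iff.1 hz x).symm
      refine Subgroup.mem_centralizer_singleton_iff.2 ?_
      simp only [MulEquiv.coe_toMonoidHom, MulAut.conj_apply, Subgroup.coe_subtype]
      rw [← hg]
      calc g * (z : G) * g⁻¹ * (g * (x : G) * g⁻¹) = g * ((z : G) * x) * g⁻¹ := by group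
        _ = g * ((x : G) * z) * g⁻¹ := by rw [h1]
        _ = _ := by group
    have hAp : IsPGroup 2 (A.subgroupOf C) :=
      (((S.isPGroup'.to_subgroup _).map _).map _).comap_of_injective C.subtype C.subtype_injective
    obtain ⟨Q, hQ⟩ := hAp.exists_le_sylow
    obtain ⟨h', hh'⟩ := MulAction.exists_smul_eq C Q (S.subtype hSC)
    refine absurd (two_kP_le_of_fused S hk2 c hcZ ((h' : G) * g) x hx ?_ ?_) (by omega)
    · have := Subgroup.mem_centralizer_singleton_iff.1 h'.2
      calc (h' : G) * g * x * ((h' : G) * g)⁻¹ = (h' : G) * (g * x * g⁻¹) * (h' : G)⁻¹ := by group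
        _ = _ := by rw [hg, this, mul_inv_cancel_right]
    · intro z hz
      have hmem : g * (z : G) * g⁻¹ ∈ A := ⟨z, ⟨z, hz, rfl⟩, rfl⟩
      have h2 : MulAut.conj h' (⟨g * (z : G) * g⁻¹, hAC hmem⟩ : C) ∈ (S.subtype hSC : Subgroup C) := by
        rw [← hh']
        exact Subgroup.mem_map_of_mem _ (hQ hmem)
      rw [Sylow.coe_subtype, Subgroup.mem_subgroupOf] at h2
      simp only [MulAut.conj_apply, Subgroup.coe_mul, Subgroup.coe_inv] at h2
      simpa [mul_assoc] using h2
  · push Not at hfus
    -- every conjugate of `c` in `S` is `c`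
    have hweak : ∀ g : G, g * c * g⁻¹ ∈ (S : Subgroup G) → g * c * g⁻¹ = c := by
      intro g hg
      have hz : (⟨_, hg⟩ : (S : Subgroup G)) ∈ center (S : Subgroup G) := by
        by_contra hnz
        exact hfus _ hnz (isConj_iff.2 ⟨g⁻¹, by group⟩)
      have h1 : (c : G) ∈ centralizer ((S : Subgroup G) : Set G) :=
        Subgroup.mem_centralizer_iff.2 fun y hy => hSc ⟨y, hy⟩
      have h2 : (g⁻¹)⁻¹ * (c : G) * g⁻¹ ∈ centralizer ((S : Subgroup G) : Set G) := by
        rw [inv_inv]
        exact Subgroup.mem_centralizer_iff.2 fun y hy =>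
          congrArg Subtype.val (Subgroup.mem_center_iff.1 hz ⟨y, hy⟩)
      obtain ⟨n, hn, hneq⟩ := S.conj_eq_normalizer_conj_of_mem_centralizer (c : G) g⁻¹ h1 h2
      rw [inv_inv] at hneq
      have hmap : ((_root_.commutator (S : Subgroup G)).map (S : Subgroup G).subtype).map
          (MulAut.conj n⁻¹).toMonoidHom ≤ (_root_.commutator (S : Subgroup G)).map (S : Subgroup G).subtype := by
        rw [_root_.commutator_def, Subgroup.map_commutator, Subgroup.map_commutator,
          ← MonoidHom.range_eq_map, Subgroup.range_subtype]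
        refine Subgroup.commutator_mono ?_ ?_ <;>
        · rintro - ⟨y, hy, rfl⟩
          exact (Subgroup.mem_normalizer_iff.1 (inv_mem hn) y).1 hy
      obtain ⟨w, hw, hweq⟩ := hmap (Subgroup.mem_map_of_mem _ (Subgroup.mem_map_of_mem _ hcN))
      simp only [Subgroup.coe_subtype, MulEquiv.coe_toMonoidHom, MulAut.conj_apply, inv_inv] at hweq
      rcases hder w hw with rfl | rfl
      · exfalso
        rw [OneMemClass.coe_one] at hweq
        have h3 : (c : G) = 1 := by
          calc (c : G) = n * (n⁻¹ * c * n) * n⁻¹ := by group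
            _ = 1 := by rw [← hweq]; group
        rw [h3, orderOf_one] at hcG
        omega
      · rw [hneq, ← hweq]
    set C := centralizer ({(c : G)} : Set G) with hC
    have hSC : (S : Subgroup G) ≤ C := fun y hy =>
      Subgroup.mem_centralizer_singleton_iff.2 (hSc ⟨y, hy⟩)
    let cC : C := ⟨c, hSC c.2⟩
    have hcC : cC ∈ center C := Subgroup.mem_center_iff.2 fun y =>
      Subtype.ext (Subgroup.mem_centralizer_singleton_iff.1 y.2)
    haveI : (Subgroup.zpowers cC).Normal :=
      ⟨fun y hy g => by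
        rwa [Subgroup.mem_center_iff.1 (Subgroup.zpowers_le.2 hcC hy) g, mul_inv_cancel_right]⟩
    set S' := (S.subtype hSC).mapSurjective (QuotientGroup.mk'_surjective (Subgroup.zpowers cC)) with hS'
    have hS'def : (S' : Subgroup (C ⧸ Subgroup.zpowers cC)) =
        ((S : Subgroup G).subgroupOf C).map (QuotientGroup.mk' (Subgroup.zpowers cC)) := by
      rw [hS', Sylow.coe_mapSurjective, Sylow.coe_subtype]
    have hkcomm : ∀ a b : C, (a : G) ∈ (S : Subgroup G) → (b : G) ∈ (S : Subgroup G) →
        (QuotientGroup.mk (a * b) : C ⧸ Subgroup.zpowers cC) = QuotientGroup.mk (b * a) := by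
      intro a b ha hb
      rw [QuotientGroup.eq]
      have h1 : ⁅(⟨(b : G), hb⟩ : (S : Subgroup G))⁻¹, (⟨(a : G), ha⟩ : (S : Subgroup G))⁻¹⁆ ∈
          _root_.commutator (S : Subgroup G) :=
        Subgroup.commutator_mem_commutator (Subgroup.mem_top _) (Subgroup.mem_top _)
      have e : (((a * b)⁻¹ * (b * a) : C) : G) =
          ((⁅(⟨(b : G), hb⟩ : (S : Subgroup G))⁻¹, (⟨(a : G), ha⟩ : (S : Subgroup G))⁻¹⁆ : (S : Subgroup G)) : G) := by
        simp [commutatorElement_def, mul_assoc]
      rcases hder _ h1 with hh | hh <;> rw [hh] at e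
      · have : (a * b)⁻¹ * (b * a) = (1 : C) := Subtype.ext (by simpa using e)
        rw [this]; exact one_mem _
      · have : (a * b)⁻¹ * (b * a) = cC := Subtype.ext e
        rw [this]; exact Subgroup.mem_zpowers _
    have hS'comm : IsMulCommutative (S' : Subgroup (C ⧸ Subgroup.zpowers cC)) := by
      refine ⟨⟨fun a b => ?_⟩⟩
      obtain ⟨a', ha', haeq⟩ := hS'def.le a.2
      obtain ⟨b', hb', hbeq⟩ := hS'def.le b.2
      apply Subtype.ext
      show (a : C ⧸ Subgroup.zpowers cC) * b = b * a
      rw [← haeq, ← hbeq]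
      exact hkcomm a' b' ha' hb'
    have hK : Nat.card (Subgroup.zpowers cC) = 2 := by
      rw [Nat.card_zpowers, Subgroup.orderOf_mk, hcG]
    have hS'card : 2 * Nat.card (S' : Subgroup (C ⧸ Subgroup.zpowers cC)) = Nat.card (S : Subgroup G) := by
      have h2 := ((QuotientGroup.mk' (Subgroup.zpowers cC)).domRestrict ((S : Subgroup G).subgroupOf C)).ker.index_mul_card
      rw [Subgroup.index_ker, MonoidHom.domRestrict_range, ← hS'def, MonoidHom.ker_domRestrict,
        QuotientGroup.ker_mk', Nat.card_congr (Subgroup.subgroupOfEquivOfLe ?_).toEquiv, hK,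
        Nat.card_congr (Subgroup.subgroupOfEquivOfLe hSC).toEquiv] at h2
      · omega
      · rw [Subgroup.zpowers_le, Subgroup.mem_subgroupOf]; exact c.2
    have hq := kP_le_two_mul_quotient S C hSC (Subgroup.zpowers cC) hK
    rcases two_kP_le_or_le_centralizer_of_comm S' hS'comm with h1 | h1
    · omega
    refine complement_of_focal S (c : G) hcG (focal_le_bound S (c : G) c.2 fun x hx u hu => ?_)
    set y := u * x * u⁻¹ with hy
    -- transport the conjugation into `C`
    set D := centralizer ({y} : Set G) with hD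
    have hycomm : y * (c : G) = (c : G) * y := hSc ⟨y, hu⟩
    have hcD : (c : G) ∈ D := Subgroup.mem_centralizer_singleton_iff.2 hycomm.symm
    have hxcomm : x * (c : G) = (c : G) * x := hSc ⟨x, hx⟩
    have hc'D : u * (c : G) * u⁻¹ ∈ D := by
      refine Subgroup.mem_centralizer_singleton_iff.2 ?_
      rw [hy]
      calc u * (c : G) * u⁻¹ * (u * x * u⁻¹) = u * ((c : G) * x) * u⁻¹ := by group
        _ = u * (x * (c : G)) * u⁻¹ := by rw [hxcomm]
        _ = _ := by group
    have hp1 : IsPGroup 2 (Subgroup.zpowers (⟨_, hc'D⟩ : D)) :=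
      IsPGroup.of_card (n := 1) (by rw [Nat.card_zpowers, Subgroup.orderOf_mk, H73.orderOf_conj_eq, hcG, pow_one])
    have hp2 : IsPGroup 2 (Subgroup.zpowers (⟨_, hcD⟩ : D)) :=
      IsPGroup.of_card (n := 1) (by rw [Nat.card_zpowers, Subgroup.orderOf_mk, hcG, pow_one])
    obtain ⟨Q1, hQ1⟩ := hp1.exists_le_sylow
    obtain ⟨Q2, hQ2⟩ := hp2.exists_le_sylow
    obtain ⟨t, ht⟩ := MulAction.exists_smul_eq D Q1 Q2
    obtain ⟨T, hT⟩ := (Q2.isPGroup'.map D.subtype).exists_le_sylow
    obtain ⟨v, hv⟩ := MulAction.exists_smul_eq G T S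
    have hcT : (c : G) ∈ (T : Subgroup G) := hT ⟨⟨_, hcD⟩, hQ2 (Subgroup.mem_zpowers _), rfl⟩
    have hc'T : (t : G) * (u * c * u⁻¹) * (t : G)⁻¹ ∈ (T : Subgroup G) := by
      refine hT ⟨MulAut.conj t ⟨_, hc'D⟩, ?_, ?_⟩
      · rw [← ht]; exact Subgroup.mem_map_of_mem _ (hQ1 (Subgroup.mem_zpowers _))
      · simp [MulAut.conj_apply]
    have hTS : ∀ z ∈ (T : Subgroup G), v * z * v⁻¹ ∈ (S : Subgroup G) := fun z hz =>
      (congrArg (fun Q : Sylow 2 G => (Q : Subgroup G)) hv).le (Subgroup.mem_map_of_mem _ hz)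
    have h3 : v * (c : G) * v⁻¹ = c := hweak v (hTS _ hcT)
    have h4 : v * ((t : G) * (u * c * u⁻¹) * (t : G)⁻¹) * v⁻¹ = c := by
      have e : (v * t * u) * (c : G) * (v * t * u)⁻¹ = v * ((t : G) * (u * c * u⁻¹) * (t : G)⁻¹) * v⁻¹ := by
        group
      rw [← e]
      refine hweak _ ?_
      rw [e]
      exact hTS _ hc'T
    have h5 : (t : G) * u ∈ C := by
      refine Subgroup.mem_centralizer_singleton_iff.2 ?_
      have h6 : (t : G) * (u * c * u⁻¹) * (t : G)⁻¹ = c :=
        mul_left_cancel (mul_right_cancel (h4.trans h3.symm))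
      calc (t : G) * u * (c : G) = ((t : G) * (u * c * u⁻¹) * (t : G)⁻¹) * ((t : G) * u) := by group
        _ = _ := by rw [h6]
    have hty : ((t : G) * u) * x * ((t : G) * u)⁻¹ = y := by
      have := Subgroup.mem_centralizer_singleton_iff.1 t.2
      calc ((t : G) * u) * x * ((t : G) * u)⁻¹ = (t : G) * y * (t : G)⁻¹ := by rw [hy]; group
        _ = y := by rw [this, mul_inv_cancel_right]
    -- the retraction of the quotient onto the image of `S`
    let ψ := (MonoidHom.transferSylow S' h1).comp (QuotientGroup.mk' (Subgroup.zpowers cC))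
    have hxS' : (QuotientGroup.mk (⟨x, hSC hx⟩ : C) : C ⧸ Subgroup.zpowers cC) ∈ (S' : Subgroup _) :=
      hS'def.ge ⟨⟨x, hSC hx⟩, hx, rfl⟩
    have hyS' : (QuotientGroup.mk (⟨y, hSC hu⟩ : C) : C ⧸ Subgroup.zpowers cC) ∈ (S' : Subgroup _) :=
      hS'def.ge ⟨⟨y, hSC hu⟩, hu, rfl⟩
    have hconj : ψ ⟨y, hSC hu⟩ = ψ ⟨x, hSC hx⟩ := by
      have e : (⟨y, hSC hu⟩ : C) = ⟨_, h5⟩ * ⟨x, hSC hx⟩ * (⟨_, h5⟩ : C)⁻¹ := Subtype.ext hty.symm
      rw [e, map_mul, map_mul, map_inv, hS'comm.is_comm.comm (ψ ⟨_, h5⟩) (ψ ⟨x, hSC hx⟩),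
        mul_inv_cancel_right]
    have h7 := (MonoidHom.transferSylow_eq_pow S' h1 _ hyS').symm.trans
      (hconj.trans (MonoidHom.transferSylow_eq_pow S' h1 _ hxS'))
    have h8 := (S'.isPGroup'.powEquiv' S'.not_dvd_index).injective
      (a₁ := ⟨_, hyS'⟩) (a₂ := ⟨_, hxS'⟩) (Subtype.ext (by simpa using congrArg Subtype.val h7))
    have h9 : (QuotientGroup.mk (⟨y, hSC hu⟩ : C) : C ⧸ Subgroup.zpowers cC) = QuotientGroup.mk ⟨x, hSC hx⟩ :=
      congrArg Subtype.val h8
    rw [QuotientGroup.eq] at h9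
    have h10 : y⁻¹ * x ∈ Subgroup.zpowers (c : G) := by
      obtain ⟨i, hi⟩ := h9
      exact ⟨i, by simpa [cC] using congrArg Subtype.val hi⟩
    rcases mem_zpowers_two hcG h10 with h11 | h11
    · rw [inv_mul_eq_one] at h11
      rw [h11, mul_inv_cancel]; exact one_mem _
    · rw [inv_mul_eq_iff_eq_mul] at h11
      rw [h11, hycomm, mul_inv_cancel_right]
      exact Subgroup.mem_zpowers _

end Cfsg.Agent.H73.TwoClasses
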